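import Mathlib
import Cfsg.Agent.H93.AOrbDefs

set_option autoImplicit false

/-! AO-SL8 for S4068 (helper93): `SL₂(8)` has an element of order 9, so not every non-identity
element has prime order. -/

namespace Cfsg.Agent.H26.AOrb

/-- In a field with 8 elements of characteristic 2 there is `c` with `c ^ 3 = c + 1`. -/
theorem exists_cube_eq_add_one (F : Type) [Field F] [Fintype F] (h2 : (2 : F) = 0)
    (h8 : Fintype.card F = 8) : ∃ c : F, c ^ 3 = c + 1 := by
  classical
  obtain ⟨a, -, ha⟩ : ∃ a ∈ (Finset.univ : Finset F), a ∉ ({0, 1} : Finset F) := by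
    apply Finset.exists_mem_notMem_of_card_lt_card
    calc ({0, 1} : Finset F).card ≤ 2 := Finset.card_le_two
      _ < 8 := by norm_num
      _ = (Finset.univ : Finset F).card := by rw [Finset.card_univ, h8]
  have ha0 : a ≠ 0 := fun h => ha (by simp [h])
  have ha1 : a ≠ 1 := fun h => ha (by simp [h])
  have h7 : a ^ 7 = 1 := by
    have := FiniteField.pow_card_sub_one_eq_one a ha0
    rwa [h8] at this
  have hfac : (a - 1) * ((a ^ 3 + a + 1) * (a ^ 3 + a ^ 2 + 1)) = 0 := by
    linear_combination h7 + (a ^ 4 - a ^ 3) * h2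
  rcases mul_eq_zero.1 hfac with h | h
  · exact absurd (sub_eq_zero.1 h) ha1
  · rcases mul_eq_zero.1 h with h | h
    · exact ⟨a, by linear_combination h - (a + 1) * h2⟩
    · exact ⟨a + 1, by linear_combination h + (a ^ 2 + a - 1) * h2⟩

theorem sl8 : Cfsg.Agent.H93.AOrb.StSL8 := by
  intro F _ _ hchar h8 hepo
  have h2 : (2 : F) = 0 := by
    have := CharP.cast_eq_zero F 2
    exact_mod_cast this
  obtain ⟨c, hc⟩ := exists_cube_eq_add_one F h2 h8
  have hc1 : c ≠ 1 := by
    intro h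
    rw [h] at hc
    have h10 : (1 : F) = 0 := by linear_combination hc + h2
    exact one_ne_zero h10
  -- the matrices
  have hdet : Matrix.det (!![0, 1; 1, c] : Matrix (Fin 2) (Fin 2) F) = 1 := by
    rw [Matrix.det_fin_two_of]
    linear_combination (-1 : F) * h2
  set g : Matrix.SpecialLinearGroup (Fin 2) F := ⟨!![0, 1; 1, c], hdet⟩ with hg
  have hM3 : (!![0, 1; 1, c] : Matrix (Fin 2) (Fin 2) F) ^ 3 = !![c, 1 + c ^ 2; 1 + c ^ 2, c + 1] := by
    rw [pow_succ, pow_two, Matrix.mul_fin_two, Matrix.mul_fin_two]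
    ext i j
    fin_cases i <;> fin_cases j
    · simp
    · simp; ring
    · simp; ring
    · simp; linear_combination hc + c * h2
  have hN2 : (!![c, 1 + c ^ 2; 1 + c ^ 2, c + 1] : Matrix (Fin 2) (Fin 2) F) ^ 3 = 1 := by
    rw [pow_succ, pow_two, Matrix.mul_fin_two, Matrix.mul_fin_two, Matrix.one_fin_two]
    ext i j
    fin_cases i <;> fin_cases j
    · simp
      linear_combination (10 + c + 3 * c ^ 2) * hc + (5 + 7 * c + 3 * c ^ 2) * h2
    · simp
      linear_combination (4 + 7 * c + c ^ 3) * hc + (3 + 7 * c + 7 * c ^ 2) * h2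
    · simp
      linear_combination (4 + 7 * c + c ^ 3) * hc + (3 + 7 * c + 7 * c ^ 2) * h2
    · simp
      linear_combination (10 + 2 * c + 3 * c ^ 2) * hc + (6 + 9 * c + 6 * c ^ 2) * h2
  have hgv : (g : Matrix (Fin 2) (Fin 2) F) = !![0, 1; 1, c] := rfl
  have hg3v : ((g ^ 3 : Matrix.SpecialLinearGroup (Fin 2) F) : Matrix (Fin 2) (Fin 2) F)
      = !![c, 1 + c ^ 2; 1 + c ^ 2, c + 1] := by
    rw [Matrix.SpecialLinearGroup.coe_pow, hgv, hM3]
  have hg3 : g ^ 3 ≠ 1 := by
    intro h
    rw [h] at hg3v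
    have h' := congrFun (congrFun hg3v 0) 0
    simp at h'
    exact hc1 h'.symm
  have hg9 : g ^ 9 = 1 := by
    apply Subtype.ext
    rw [show (9 : ℕ) = 3 * 3 by norm_num, pow_mul, Matrix.SpecialLinearGroup.coe_pow, hg3v, hN2]
    rfl
  have hg1 : g ≠ 1 := by
    intro h
    rw [h] at hg3
    simp at hg3
  have hprime := hepo g hg1
  have hdvd : orderOf g ∣ 3 ^ 2 := orderOf_dvd_of_pow_eq_one hg9
  obtain ⟨k, hk, hk'⟩ := (Nat.dvd_prime_pow Nat.prime_three).1 hdvd
  interval_cases k
  · rw [hk'] at hprime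
    exact absurd hprime (by norm_num)
  · apply hg3
    have := pow_orderOf_eq_one g
    rw [hk'] at this
    simpa using this
  · rw [hk'] at hprime
    exact absurd hprime (by norm_num)

example : Cfsg.Agent.H93.AOrb.StSL8 := sl8

end Cfsg.Agent.H26.AOrb
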