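import Mathlib
import Cfsg.Agent.H93.AOrbDefs

set_option autoImplicit false

/-! AO-SLARITH for S4068 (helper93): `2^n - 1` prime and at most three primes dividing
`2^n ((2^n)^2 - 1)` force `n = 2` or `n = 3`. -/

namespace Cfsg.Agent.H26.AOrb

/-- `2 ^ n + 1 = 3 ^ c` with `2 ≤ n` forces `n = 3`. -/
theorem two_pow_add_one_eq_three_pow (n c : ℕ) (hn : 2 ≤ n) (h : 2 ^ n + 1 = 3 ^ c) : n = 3 := by
  -- 4 ∣ 2 ^ n
  have h4 : 2 ^ n % 4 = 0 := by
    obtain ⟨k, rfl⟩ := Nat.exists_eq_add_of_le hn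
    rw [pow_add]; norm_num
  -- c is even
  have hc : c % 2 = 0 := by
    by_contra hodd
    have hc1 : c % 2 = 1 := by omega
    have : 3 ^ c % 4 = 3 := by
      have hc2 : c = 2 * (c / 2) + 1 := by omega
      rw [hc2, pow_succ, pow_mul, Nat.mul_mod, Nat.pow_mod]
      norm_num
    omega
  obtain ⟨d, rfl⟩ : ∃ d, c = 2 * d := ⟨c / 2, by omega⟩
  have h3d : 1 ≤ 3 ^ d := Nat.one_le_pow _ _ (by norm_num)
  have hfac : (3 ^ d - 1) * (3 ^ d + 1) = 2 ^ n := by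
    have : 3 ^ (2 * d) = 3 ^ d * 3 ^ d := by rw [two_mul, pow_add]
    rw [this] at h
    obtain ⟨e, he⟩ : ∃ e, 3 ^ d = e + 1 := ⟨3 ^ d - 1, by omega⟩
    rw [he] at h ⊢
    simp only [Nat.add_sub_cancel]
    nlinarith [h]
  have hd1 : (3 ^ d - 1) ∣ 2 ^ n := Dvd.intro _ hfac
  have hd2 : (3 ^ d + 1) ∣ 2 ^ n := Dvd.intro_left _ hfac
  obtain ⟨i, -, hi⟩ := (Nat.dvd_prime_pow Nat.prime_two).1 hd1
  obtain ⟨j, -, hj⟩ := (Nat.dvd_prime_pow Nat.prime_two).1 hd2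
  have hij : 2 ^ j = 2 ^ i + 2 := by omega
  have hlt : i < j := by
    by_contra hle
    have : 2 ^ j ≤ 2 ^ i := Nat.pow_le_pow_right (by norm_num) (by omega)
    omega
  have hi1 : i ≤ 1 := by
    by_contra hi2
    obtain ⟨a, rfl⟩ := Nat.exists_eq_add_of_le (show 2 ≤ i by omega)
    obtain ⟨b, rfl⟩ := Nat.exists_eq_add_of_le (show 2 ≤ j by omega)
    rw [pow_add, pow_add] at hij
    norm_num at hij
    omega
  have hodd : 3 ^ d % 2 = 1 := by
    rw [Nat.pow_mod]; norm_num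
  interval_cases i
  · -- 3 ^ d = 2
    simp at hi
    omega
  · -- 3 ^ d = 3
    have h3 : 3 ^ d = 3 ^ 1 := by simp at hi; omega
    have hd : d = 1 := Nat.pow_right_injective (by norm_num : 2 ≤ 3) h3
    subst hd
    have h8 : 2 ^ n = 2 ^ 3 := by norm_num at h ⊢; omega
    exact Nat.pow_right_injective (le_refl 2) h8

theorem not_dvd_add_two (m : ℕ) (hm : 3 ≤ m) (h : m ∣ m + 2) : False := by
  have h2 : m ∣ 2 := (Nat.dvd_add_right (dvd_refl m)).1 h
  have := Nat.le_of_dvd (by norm_num) h2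
  omega

theorem slArith : Cfsg.Agent.H93.AOrb.StSLArith := by
  intro n p q r hn hm H
  have hN4 : 4 ≤ 2 ^ n := by
    calc 4 = 2 ^ 2 := by norm_num
      _ ≤ 2 ^ n := Nat.pow_le_pow_right (by norm_num) hn
  have hNeven : 2 ^ n % 2 = 0 := by
    obtain ⟨k, rfl⟩ := Nat.exists_eq_add_of_le (show 1 ≤ n by omega)
    rw [pow_add]; norm_num
  have hsq : (2 ^ n) ^ 2 - 1 = (2 ^ n - 1) * (2 ^ n + 1) := by
    obtain ⟨e, he⟩ : ∃ e, 2 ^ n = e + 1 := ⟨2 ^ n - 1, by omega⟩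
    rw [he]
    simp only [Nat.add_sub_cancel]
    have : (e + 1) ^ 2 = e * (e + 1 + 1) + 1 := by ring
    rw [this]; simp
  -- the three primes
  have h2dvd : 2 ∣ 2 ^ n * ((2 ^ n) ^ 2 - 1) :=
    Dvd.dvd.mul_right (Nat.dvd_of_mod_eq_zero hNeven) _
  have hmdvd : (2 ^ n - 1) ∣ 2 ^ n * ((2 ^ n) ^ 2 - 1) := by
    rw [hsq]; exact Dvd.dvd.mul_left (Dvd.intro _ rfl) _
  have hs : (Nat.minFac (2 ^ n + 1)).Prime := Nat.minFac_prime (by omega)
  have hsN : Nat.minFac (2 ^ n + 1) ∣ 2 ^ n + 1 := Nat.minFac_dvd _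
  have hsdvd : Nat.minFac (2 ^ n + 1) ∣ 2 ^ n * ((2 ^ n) ^ 2 - 1) := by
    rw [hsq]; exact Dvd.dvd.mul_left (Dvd.dvd.mul_left hsN _) _
  -- distinctness
  have hm3 : 3 ≤ 2 ^ n - 1 := by omega
  have hs2 : Nat.minFac (2 ^ n + 1) ≠ 2 := by
    intro h2
    rw [h2] at hsN
    omega
  have hsm : Nat.minFac (2 ^ n + 1) ≠ 2 ^ n - 1 := by
    intro hsm
    rw [hsm] at hsN
    exact not_dvd_add_two _ hm3 (by rwa [show 2 ^ n - 1 + 2 = 2 ^ n + 1 by omega])
  -- every prime divisor is one of the three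
  have key : ∀ l : ℕ, l.Prime → l ∣ 2 ^ n * ((2 ^ n) ^ 2 - 1) →
      l = 2 ∨ l = 2 ^ n - 1 ∨ l = Nat.minFac (2 ^ n + 1) := by
    intro l hl hld
    have h1 := H l hl hld
    have h2 := H 2 Nat.prime_two h2dvd
    have h3 := H _ hm hmdvd
    have h4 := H _ hs hsdvd
    generalize Nat.minFac (2 ^ n + 1) = s at *
    generalize 2 ^ n - 1 = m at *
    rcases h1 with h1 | h1 | h1 <;> rcases h2 with h2 | h2 | h2 <;>
      rcases h3 with h3 | h3 | h3 <;> rcases h4 with h4 | h4 | h4 <;> omega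
  -- 3 divides the product
  have h3dvd : 3 ∣ 2 ^ n * ((2 ^ n) ^ 2 - 1) := by
    rw [hsq]
    generalize 2 ^ n = N at *
    have h3cases : N % 3 = 0 ∨ N % 3 = 1 ∨ N % 3 = 2 := by omega
    rcases h3cases with h | h | h
    · exact Dvd.dvd.mul_right (Nat.dvd_of_mod_eq_zero h) _
    · exact Dvd.dvd.mul_left (Dvd.dvd.mul_right (Nat.dvd_of_mod_eq_zero (by omega)) _) _
    · exact Dvd.dvd.mul_left (Dvd.dvd.mul_left (Nat.dvd_of_mod_eq_zero (by omega)) _) _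
  rcases key 3 Nat.prime_three h3dvd with h | h | h
  · omega
  · -- 2 ^ n - 1 = 3
    left
    have h4 : 2 ^ n = 2 ^ 2 := by omega
    exact Nat.pow_right_injective (le_refl 2) h4
  · -- minFac = 3, so 2 ^ n + 1 is a power of 3
    right
    have hpow : 2 ^ n + 1 = 3 ^ (2 ^ n + 1).primeFactorsList.length := by
      apply Nat.eq_prime_pow_of_unique_prime_dvd (by omega)
      intro d hd hdd
      have hdd' : d ∣ 2 ^ n * ((2 ^ n) ^ 2 - 1) := by
        rw [hsq]; exact Dvd.dvd.mul_left (Dvd.dvd.mul_left hdd _) _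
      rcases key d hd hdd' with h' | h' | h'
      · exfalso
        rw [h'] at hdd
        omega
      · exfalso
        rw [h'] at hdd
        exact not_dvd_add_two _ hm3 (by rwa [show 2 ^ n - 1 + 2 = 2 ^ n + 1 by omega])
      · rw [h', ← h]
    exact two_pow_add_one_eq_three_pow n _ hn hpow

example : Cfsg.Agent.H93.AOrb.StSLArith := slArith

end Cfsg.Agent.H26.AOrb
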