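import Mathlib

/-!
# Double counting commuting pairs in two conjugacy classes (helper26, piece S3313-C for helper47)
-/

set_option autoImplicit false

namespace Cfsg.Agent.H26.ConjSwap

variable {G : Type*} [Group G]

/-- the fibre over a conjugate `x = g a g⁻¹` is in bijection with the fibre over `a` -/
noncomputable def fibreEquiv (a b x g : G) (hg : g * a * g⁻¹ = x) :
    {y : G // IsConj b y ∧ x * y = y * x} ≃ {y : G // IsConj b y ∧ y * a = a * y} :=
  Equiv.subtypeEquiv (MulAut.conj g⁻¹).toEquiv (by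
    intro y
    show (IsConj b y ∧ x * y = y * x) ↔
      (IsConj b (g⁻¹ * y * g⁻¹⁻¹) ∧ (g⁻¹ * y * g⁻¹⁻¹) * a = a * (g⁻¹ * y * g⁻¹⁻¹))
    constructor
    · rintro ⟨h1, h2⟩
      refine ⟨h1.trans (isConj_iff.mpr ⟨g⁻¹, rfl⟩), ?_⟩
      subst hg
      calc g⁻¹ * y * g⁻¹⁻¹ * a = g⁻¹ * (y * (g * a * g⁻¹)) * g := by group
        _ = g⁻¹ * ((g * a * g⁻¹) * y) * g := by rw [h2]
        _ = a * (g⁻¹ * y * g⁻¹⁻¹) := by group
    · rintro ⟨h1, h2⟩
      refine ⟨h1.trans (isConj_iff.mpr ⟨g, by group⟩), ?_⟩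
      subst hg
      calc g * a * g⁻¹ * y = g * (a * (g⁻¹ * y * g⁻¹⁻¹)) * g⁻¹ := by group
        _ = g * ((g⁻¹ * y * g⁻¹⁻¹) * a) * g⁻¹ := by rw [h2]
        _ = y * (g * a * g⁻¹) := by group)

theorem card_pairs [Finite G] (a b : G) :
    Nat.card {p : G × G // IsConj a p.1 ∧ IsConj b p.2 ∧ p.1 * p.2 = p.2 * p.1} =
      Nat.card {x : G // IsConj a x} * Nat.card {y : G // IsConj b y ∧ y * a = a * y} := by
  classical
  have e1 : {p : G × G // IsConj a p.1 ∧ IsConj b p.2 ∧ p.1 * p.2 = p.2 * p.1} ≃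
      (Σ x : {x : G // IsConj a x}, {y : G // IsConj b y ∧ (x : G) * y = y * (x : G)}) :=
    { toFun := fun p => ⟨⟨p.1.1, p.2.1⟩, ⟨p.1.2, p.2.2⟩⟩
      invFun := fun s => ⟨(s.1.1, s.2.1), s.1.2, s.2.2⟩
      left_inv := fun p => rfl
      right_inv := fun s => rfl }
  have e2 : (Σ x : {x : G // IsConj a x}, {y : G // IsConj b y ∧ (x : G) * y = y * (x : G)}) ≃
      (Σ _x : {x : G // IsConj a x}, {y : G // IsConj b y ∧ y * a = a * y}) :=
    Equiv.sigmaCongrRight (fun x =>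
      fibreEquiv a b x.1 (Classical.choose (isConj_iff.mp x.2))
        (Classical.choose_spec (isConj_iff.mp x.2)))
  rw [Nat.card_congr (e1.trans (e2.trans (Equiv.sigmaEquivProd _ _))), Nat.card_prod]

/-- **S3313-C.** -/
theorem card_conj_comm_swap [Finite G] (a b : G) : Nat.card {x : G // IsConj a x} * Nat.card {y : G // IsConj b y ∧ y * a = a * y} = Nat.card {y : G // IsConj b y} * Nat.card {x : G // IsConj a x ∧ x * b = b * x} := by
  rw [← card_pairs a b, ← card_pairs b a]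
  apply Nat.card_congr
  exact
    { toFun := fun p => ⟨(p.1.2, p.1.1), p.2.2.1, p.2.1, p.2.2.2.symm⟩
      invFun := fun p => ⟨(p.1.2, p.1.1), p.2.2.1, p.2.1, p.2.2.2.symm⟩
      left_inv := fun p => rfl
      right_inv := fun p => rfl }

end Cfsg.Agent.H26.ConjSwap
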