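import Mathlib
import Cfsg.Agent.H92.Extra

/-!
# Counting in an extraspecial pair of order 32 (helper26, pieces S3313-B1/B2/B3 for helper47)
-/

set_option autoImplicit false
set_option linter.style.haveILetI false

namespace Cfsg.Agent.H26.ES32

open Cfsg.Agent.H92

/-- A fixed-point-free "shift" halves a finite set. -/
theorem two_mul_card {α : Type*} (M P : α → Prop) (f : α ≃ α)
    (hf : ∀ x, M x → M (f x)) (hf' : ∀ x, M x → M (f.symm x))
    (hP : ∀ x, M x → (P (f x) ↔ ¬ P x)) [Finite {x // M x}] :
    2 * Nat.card {x // M x ∧ P x} = Nat.card {x // M x} := by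
  classical
  have e : {x // M x ∧ P x} ≃ {x // M x ∧ ¬ P x} :=
    { toFun := fun x => ⟨f x.1, hf _ x.2.1, fun h => ((hP _ x.2.1).mp h) x.2.2⟩
      invFun := fun x => ⟨f.symm x.1, hf' _ x.2.1, by
        by_contra hcon
        have h1 := (hP (f.symm x.1) (hf' _ x.2.1)).mpr hcon
        rw [Equiv.apply_symm_apply] at h1
        exact x.2.2 h1⟩
      left_inv := fun x => by simp
      right_inv := fun x => by simp }
  have e2 : {x // M x} ≃ {a : {x // M x} // P a.1} ⊕ {a : {x // M x} // ¬ P a.1} :=
    (Equiv.sumCompl (fun a : {x // M x} => P a.1)).symm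
  have e3 : {a : {x // M x} // P a.1} ≃ {x // M x ∧ P x} :=
    Equiv.subtypeSubtypeEquivSubtypeInter M P
  have e4 : {a : {x // M x} // ¬ P a.1} ≃ {x // M x ∧ ¬ P x} :=
    Equiv.subtypeSubtypeEquivSubtypeInter M (fun x => ¬ P x)
  rw [Nat.card_congr e2, Nat.card_sum, Nat.card_congr e3, Nat.card_congr e4, ← Nat.card_congr e]
  omega

variable {G : Type*} [Group G]

theorem comm_or {Q : Subgroup G} {z : G} (h : ESPair Q z) {x t : G} (hx : x ∈ Q) (ht : t ∈ Q) :
    x * t = t * x ∨ x * t = z * t * x := by
  rcases h.conj_eq hx ht with h1 | h1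
  · left
    calc x * t = (x * t * x⁻¹) * x := by group
      _ = t * x := by rw [h1]
  · right
    calc x * t = (x * t * x⁻¹) * x := by group
      _ = z * t * x := by rw [h1]

theorem z_mul_ne {z : G} (hz : z ≠ 1) (y : G) : z * y ≠ y := by
  intro h
  apply hz
  calc z = (z * y) * y⁻¹ := by group
    _ = 1 := by rw [h]; group

theorem shift_iff {Q : Subgroup G} {z : G} (h : ESPair Q z) {u t x : G} (hu : u ∈ Q) (ht : t ∈ Q)
    (hx : x ∈ Q) (hut : ¬ u * t = t * u) : (u * x) * t = t * (u * x) ↔ ¬ x * t = t * x := by
  have hu' : u * t = z * t * u := by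
    rcases comm_or h hu ht with h1 | h1
    · exact absurd h1 hut
    · exact h1
  have hzu : u * z = z * u := h.z_central u hu
  rcases comm_or h hx ht with h1 | h1
  · constructor
    · intro h2
      exfalso
      have h3 : u * x * t = z * (t * (u * x)) := by
        calc u * x * t = u * (x * t) := by group
          _ = u * (t * x) := by rw [h1]
          _ = (u * t) * x := by group
          _ = z * t * u * x := by rw [hu']
          _ = z * (t * (u * x)) := by group
      rw [h2] at h3
      exact z_mul_ne h.z_ne _ h3.symm
    · intro h2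
      exact absurd h1 h2
  · constructor
    · intro _ h2
      rw [h2, mul_assoc] at h1
      exact z_mul_ne h.z_ne _ h1.symm
    · intro _
      calc u * x * t = u * (x * t) := by group
        _ = u * (z * t * x) := by rw [h1]
        _ = (u * z) * t * x := by group
        _ = z * (u * t) * x := by rw [hzu]; group
        _ = z * (z * t * u) * x := by rw [hu']
        _ = (z * z) * (t * (u * x)) := by group
        _ = t * (u * x) := by rw [h.z_sq, one_mul]

/-- **S3313-B1.** -/
theorem es32_card_centralizer {Q : Subgroup G} {z : G} (h : ESPair Q z) (hcard : Nat.card Q = 32) {s : G} (hs : s ∈ Q) (hs1 : s ≠ 1) (hsz : s ≠ z) : Nat.card {x : G // x ∈ Q ∧ x * s = s * x} = 16 := by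
  haveI : Finite Q := Nat.finite_of_card_ne_zero (by omega)
  haveI : Finite {x : G // x ∈ Q} := ‹Finite Q›
  obtain ⟨q, hqQ, hq⟩ := h.exists_conj hs hs1 hsz
  have hqs : ¬ q * s = s * q := by
    intro h1
    have : z * s = s := by
      rw [← hq, h1]; group
    exact z_mul_ne h.z_ne _ this
  have key := two_mul_card (fun x : G => x ∈ Q) (fun x : G => x * s = s * x) (Equiv.mulLeft q)
    (fun x hx => Q.mul_mem hqQ hx)
    (fun x hx => by
      show q⁻¹ * x ∈ Q
      exact Q.mul_mem (Q.inv_mem hqQ) hx)
    (fun x hx => shift_iff h hqQ hs hx hqs)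
  have h32 : Nat.card {x : G // x ∈ Q} = 32 := hcard
  rw [h32] at key
  omega


/-- counting a subtype through a finset enumerating the subgroup -/
theorem card_eq_filter (Q : Subgroup G) (QF : Finset G) (hmem : ∀ x, x ∈ QF ↔ x ∈ Q)
    (P : G → Prop) [DecidablePred P] :
    Nat.card {a : G // a ∈ Q ∧ P a} = (QF.filter P).card := by
  have h1 : {a : G | a ∈ Q ∧ P a} = ↑(QF.filter P) := by
    ext a
    simp [hmem]
  rw [← Set.ncard_coe_finset, ← h1]
  exact _root_.Nat.card_coe_set_eq _

theorem exists_finset (Q : Subgroup G) [Finite Q] :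
    ∃ QF : Finset G, (∀ x, x ∈ QF ↔ x ∈ Q) ∧ QF.card = Nat.card Q := by
  classical
  have hfin : (Q : Set G).Finite := Set.toFinite _
  refine ⟨hfin.toFinset, fun x => by simp, ?_⟩
  rw [← Set.ncard_eq_toFinset_card _ hfin]
  exact (_root_.Nat.card_coe_set_eq _).symm

/-- **S3313-B2.** -/
theorem es32_card_sq_one {Q : Subgroup G} {z : G} (h : ESPair Q z) (hcard : Nat.card Q = 32) : Nat.card {a : G // a ∈ Q ∧ a * a = 1} = 12 ∨ Nat.card {a : G // a ∈ Q ∧ a * a = 1} = 20 := by
  classical
  haveI : Finite Q := Nat.finite_of_card_ne_zero (by omega)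
  obtain ⟨QF, hmem, hQF⟩ := exists_finset Q
  rw [hcard] at hQF
  rw [card_eq_filter Q QF hmem]
  set N0 := (QF.filter (fun a => a * a = 1)).card with hN0
  have hN0le : N0 ≤ 32 := by
    rw [← hQF]; exact Finset.card_filter_le _ _
  have hnot : (QF.filter (fun a => ¬ a * a = 1)).card = 32 - N0 := by
    have := Finset.card_filter_add_card_filter_not (s := QF) (fun a => a * a = 1)
    rw [hQF] at this
    omega
  -- first count
  have hT1 : ∑ a ∈ QF, ∑ b ∈ QF, (if a * a = b * b then 1 else 0) =
      N0 * N0 + (32 - N0) * (32 - N0) := by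
    have inner : ∀ a ∈ QF, ∑ b ∈ QF, (if a * a = b * b then 1 else 0) =
        if a * a = 1 then N0 else 32 - N0 := by
      intro a ha
      rw [Finset.sum_boole, Nat.cast_id]
      by_cases ha1 : a * a = 1
      · rw [if_pos ha1, hN0]
        congr 1
        apply Finset.filter_congr
        intro b _
        rw [ha1]
        exact eq_comm
      · rw [if_neg ha1, ← hnot]
        congr 1
        apply Finset.filter_congr
        intro b hb
        have haz : a * a = z := by
          rcases h.sq a ((hmem a).mp ha) with h1 | h1
          · exact absurd h1 ha1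
          · exact h1
        rw [haz]
        constructor
        · intro h1 h2
          rw [h2] at h1
          exact h.z_ne h1
        · intro h1
          rcases h.sq b ((hmem b).mp hb) with h2 | h2
          · exact absurd h2 h1
          · exact h2.symm
    rw [Finset.sum_congr rfl inner, Finset.sum_ite, Finset.sum_const, Finset.sum_const, hnot,
      ← hN0]
    simp
  -- second count
  have hT2 : ∑ a ∈ QF, ∑ b ∈ QF, (if a * a = b * b then 1 else 0) = 544 := by
    have step1 : ∀ a ∈ QF, ∑ b ∈ QF, (if a * a = b * b then 1 else 0) =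
        ∑ c ∈ QF, (if a * a = (a * c) * (a * c) then 1 else 0) := by
      intro a ha
      symm
      apply Finset.sum_equiv (Equiv.mulLeft a)
      · intro c
        rw [hmem, hmem]
        show c ∈ Q ↔ a * c ∈ Q
        constructor
        · intro hc; exact Q.mul_mem ((hmem a).mp ha) hc
        · intro hc
          have : c = a⁻¹ * (a * c) := by group
          rw [this]; exact Q.mul_mem (Q.inv_mem ((hmem a).mp ha)) hc
      · intro c _
        rfl
    rw [Finset.sum_congr rfl step1, Finset.sum_comm]
    have inner : ∀ c ∈ QF, ∑ a ∈ QF, (if a * a = (a * c) * (a * c) then 1 else 0) =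
        if c = 1 ∨ c = z then 32 else 16 := by
      intro c hc
      have hcQ : c ∈ Q := (hmem c).mp hc
      rw [Finset.sum_boole, Nat.cast_id]
      have hiff : ∀ a : G, (a * a = (a * c) * (a * c)) ↔ a = c * a * c := by
        intro a
        constructor
        · intro h1
          have h2 : a * a = a * (c * a * c) := by rw [h1]; group
          exact mul_left_cancel h2
        · intro h1
          calc a * a = a * (c * a * c) := by rw [← h1]
            _ = (a * c) * (a * c) := by group
      by_cases hc1 : c = 1 ∨ c = z
      · rw [if_pos hc1, ← hQF]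
        congr 1
        apply Finset.filter_true_of_mem
        intro a ha
        rw [hiff]
        rcases hc1 with rfl | rfl
        · group
        · have := h.z_central a ((hmem a).mp ha)
          calc a = a * (c * c) := by rw [h.z_sq, mul_one]
            _ = (a * c) * c := by group
            _ = c * a * c := by rw [this]
      · rw [if_neg hc1]
        have hc1' : c ≠ 1 := fun e => hc1 (Or.inl e)
        have hcz : c ≠ z := fun e => hc1 (Or.inr e)
        have h16 : (QF.filter (fun a => a * c = c * a)).card = 16 := by
          rw [← card_eq_filter Q QF hmem]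
          exact es32_card_centralizer h hcard hcQ hc1' hcz
        rcases h.sq c hcQ with hcc | hcc
        · rw [← h16]
          congr 1
          apply Finset.filter_congr
          intro a _
          rw [hiff]
          constructor
          · intro h1
            calc a * c = (c * a * c) * c := by rw [← h1]
              _ = c * a * (c * c) := by group
              _ = c * a := by rw [hcc, mul_one]
          · intro h1
            calc a = a * (c * c) := by rw [hcc, mul_one]
              _ = (a * c) * c := by group
              _ = c * a * c := by rw [h1]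
        · have h16' : (QF.filter (fun a => ¬ a * c = c * a)).card = 16 := by
            have := Finset.card_filter_add_card_filter_not (s := QF) (fun a => a * c = c * a)
            rw [hQF, h16] at this
            omega
          rw [← h16']
          congr 1
          apply Finset.filter_congr
          intro a ha
          have haQ : a ∈ Q := (hmem a).mp ha
          rw [hiff]
          constructor
          · intro h1 h2
            have h3 : z * a = a := by
              calc z * a = a * z := (h.z_central a haQ).symm
                _ = a * (c * c) := by rw [hcc]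
                _ = (a * c) * c := by group
                _ = c * a * c := by rw [h2]
                _ = a := h1.symm
            exact z_mul_ne h.z_ne _ h3
          · intro h1
            have h2 : a * c = z * c * a := by
              rcases comm_or h haQ hcQ with h3 | h3
              · exact absurd h3 h1
              · exact h3
            have hcz' : c * z = z * c := h.z_central c hcQ
            calc a = (z * z) * a := by rw [h.z_sq, one_mul]
              _ = z * (c * c) * a := by rw [hcc]
              _ = (z * c) * c * a := by group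
              _ = (c * z) * c * a := by rw [hcz']
              _ = c * (z * c * a) := by group
              _ = c * (a * c) := by rw [h2]
              _ = c * a * c := by group
    rw [Finset.sum_congr rfl inner, Finset.sum_ite, Finset.sum_const, Finset.sum_const]
    have hpair : QF.filter (fun c => c = 1 ∨ c = z) = {1, z} := by
      ext c
      simp only [Finset.mem_filter, Finset.mem_insert, Finset.mem_singleton]
      constructor
      · exact fun h1 => h1.2
      · intro h1
        refine ⟨?_, h1⟩
        rcases h1 with rfl | rfl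
        · exact (hmem 1).mpr Q.one_mem
        · exact (hmem c).mpr h.z_mem
    have h2 : (QF.filter (fun c => c = 1 ∨ c = z)).card = 2 := by
      rw [hpair]
      exact Finset.card_pair (Ne.symm h.z_ne)
    have h30 : (QF.filter (fun c => ¬ (c = 1 ∨ c = z))).card = 30 := by
      have := Finset.card_filter_add_card_filter_not (s := QF) (fun c => c = 1 ∨ c = z)
      rw [hQF, h2] at this
      omega
    rw [h2, h30]
    rfl
  rw [hT1] at hT2
  interval_cases N0 <;> simp at hT2 <;> omega


/-- **S3313-B3.** -/
theorem es32_no_E8 {Q : Subgroup G} {z : G} (h : ESPair Q z) (hcard : Nat.card Q = 32) (h12 : Nat.card {a : G // a ∈ Q ∧ a * a = 1} = 12) (E : Subgroup G) (hEQ : E ≤ Q) (hzE : z ∈ E) (hE2 : ∀ e ∈ E, e * e = 1) : Nat.card E ≠ 8 := by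
  classical
  intro hE8
  haveI : Finite Q := Nat.finite_of_card_ne_zero (by omega)
  haveI : Finite E := Nat.finite_of_card_ne_zero (by omega)
  obtain ⟨QF, hmem, hQF⟩ := exists_finset Q
  obtain ⟨EF, hmemE, hEF⟩ := exists_finset E
  rw [hcard] at hQF
  rw [hE8] at hEF
  have hsub : EF ⊆ QF := fun x hx => (hmem x).mpr (hEQ ((hmemE x).mp hx))
  -- E is abelian
  have hEab : ∀ e ∈ E, ∀ e' ∈ E, e * e' = e' * e := by
    intro e he e' he'
    have h1 := hE2 (e * e') (E.mul_mem he he')
    have h2 := hE2 e he
    have h3 := hE2 e' he'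
    have hi : (e * e')⁻¹ = e * e' := inv_eq_of_mul_eq_one_left h1
    have he_inv : e⁻¹ = e := inv_eq_of_mul_eq_one_left h2
    have he'_inv : e'⁻¹ = e' := inv_eq_of_mul_eq_one_left h3
    calc e * e' = (e * e')⁻¹ := hi.symm
      _ = e'⁻¹ * e⁻¹ := mul_inv_rev e e'
      _ = e' * e := by rw [he_inv, he'_inv]
  -- (b): the centralizer of E in Q is E
  have hb : ∀ c ∈ Q, (∀ e ∈ E, c * e = e * c) → c ∈ E := by
    intro c hcQ hcE
    -- choose a ∈ E outside {1, z}
    obtain ⟨a, haEF, haN⟩ := Finset.exists_mem_notMem_of_card_lt_card
      (s := ({1, z} : Finset G)) (t := EF) (by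
        have : ({1, z} : Finset G).card ≤ 2 := Finset.card_le_two
        omega)
    have haE : a ∈ E := (hmemE a).mp haEF
    have haQ : a ∈ Q := hEQ haE
    have ha1 : a ≠ 1 := fun e => haN (by simp [e])
    have haz : a ≠ z := fun e => haN (by simp [e])
    obtain ⟨a', ha'EF, ha'N⟩ := Finset.exists_mem_notMem_of_card_lt_card
      (s := ({1, z, a, z * a} : Finset G)) (t := EF) (by
        have : ({1, z, a, z * a} : Finset G).card ≤ 4 := Finset.card_le_four
        omega)
    have ha'E : a' ∈ E := (hmemE a').mp ha'EF
    have ha'Q : a' ∈ Q := hEQ ha'E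
    -- some x₀ ∈ C_Q(a) does not commute with a'
    have hx0 : ∃ x₀ ∈ Q, x₀ * a = a * x₀ ∧ ¬ x₀ * a' = a' * x₀ := by
      by_contra hcon
      have hall : ∀ x ∈ Q, x * a = a * x → x * a' = a' * x := by
        intro x hx hxa
        by_contra h1
        exact hcon ⟨x, hx, hxa, h1⟩
      have haa : a * a = 1 := hE2 a haE
      rcases h.dcent haQ ha1 haz ha'Q hall with h1 | h1 | h1 | h1
      · exact ha'N (by simp [h1])
      · exact ha'N (by simp [h1])
      · have : a' = a := by
          calc a' = (a' * a) * a⁻¹ := by group
            _ = a⁻¹ := by rw [h1, one_mul]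
            _ = a := inv_eq_of_mul_eq_one_left haa
        exact ha'N (by simp [this])
      · have : a' = z * a := by
          calc a' = (a' * a) * a⁻¹ := by group
            _ = z * a⁻¹ := by rw [h1]
            _ = z * a := by rw [inv_eq_of_mul_eq_one_left haa]
        exact ha'N (by simp [this])
    obtain ⟨x₀, hx0Q, hx0a, hx0a'⟩ := hx0
    haveI : Finite {x : G // x ∈ Q ∧ x * a = a * x} :=
      Finite.of_injective (fun x : {x : G // x ∈ Q ∧ x * a = a * x} => (⟨x.1, x.2.1⟩ : Q))
        (fun x y hxy => Subtype.ext (congrArg (fun q : Q => (q : G)) hxy))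
    have key := two_mul_card (fun x : G => x ∈ Q ∧ x * a = a * x) (fun x : G => x * a' = a' * x)
      (Equiv.mulLeft x₀)
      (fun x hx => ⟨Q.mul_mem hx0Q hx.1, by
        show x₀ * x * a = a * (x₀ * x)
        calc x₀ * x * a = x₀ * (x * a) := by group
          _ = x₀ * (a * x) := by rw [hx.2]
          _ = (x₀ * a) * x := by group
          _ = a * (x₀ * x) := by rw [hx0a]; group⟩)
      (fun x hx => ⟨Q.mul_mem (Q.inv_mem hx0Q) hx.1, by
        show x₀⁻¹ * x * a = a * (x₀⁻¹ * x)
        have h1 : x₀⁻¹ * a = a * x₀⁻¹ := by
          calc x₀⁻¹ * a = x₀⁻¹ * (a * x₀) * x₀⁻¹ := by group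
            _ = x₀⁻¹ * (x₀ * a) * x₀⁻¹ := by rw [hx0a]
            _ = a * x₀⁻¹ := by group
        calc x₀⁻¹ * x * a = x₀⁻¹ * (x * a) := by group
          _ = x₀⁻¹ * (a * x) := by rw [hx.2]
          _ = (x₀⁻¹ * a) * x := by group
          _ = a * (x₀⁻¹ * x) := by rw [h1]; group⟩)
      (fun x hx => shift_iff h hx0Q ha'Q hx.1 hx0a')
    rw [es32_card_centralizer h hcard haQ ha1 haz] at key
    have h8 : Nat.card {x : G // (x ∈ Q ∧ x * a = a * x) ∧ x * a' = a' * x} = 8 := by omega
    -- E is contained in this set of 8 elements, hence equal to it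
    have hsubX : (E : Set G) ⊆ {x : G | (x ∈ Q ∧ x * a = a * x) ∧ x * a' = a' * x} := by
      intro e he
      exact ⟨⟨hEQ he, hEab e he a haE⟩, hEab e he a' ha'E⟩
    have hXfin : ({x : G | (x ∈ Q ∧ x * a = a * x) ∧ x * a' = a' * x} : Set G).Finite :=
      (Set.toFinite (Q : Set G)).subset (fun x hx => hx.1.1)
    have hXcard : ({x : G | (x ∈ Q ∧ x * a = a * x) ∧ x * a' = a' * x} : Set G).ncard = 8 := by
      rw [← _root_.Nat.card_coe_set_eq]; exact h8
    have hEcard : (E : Set G).ncard = 8 := by
      rw [← _root_.Nat.card_coe_set_eq]; exact hE8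
    have hEX := Set.eq_of_subset_of_ncard_le hsubX (by rw [hXcard, hEcard]) hXfin
    have hcX : c ∈ {x : G | (x ∈ Q ∧ x * a = a * x) ∧ x * a' = a' * x} :=
      ⟨⟨hcQ, hcE a haE⟩, hcE a' ha'E⟩
    rw [← hEX] at hcX
    exact hcX
  -- (a): each coset outside E has exactly four elements of square one
  have ha : ∀ c ∈ QF \ EF, ∑ e ∈ EF, (if (c * e) * (c * e) = 1 then 1 else 0) = 4 := by
    intro c hc
    rw [Finset.mem_sdiff] at hc
    have hcQ : c ∈ Q := (hmem c).mp hc.1
    have hcE : c ∉ E := fun hh => hc.2 ((hmemE c).mpr hh)
    have hex : ∃ e₀ ∈ E, ¬ e₀ * c = c * e₀ := by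
      by_contra hcon
      apply hcE
      apply hb c hcQ
      intro e he
      by_contra h1
      exact hcon ⟨e, he, fun h2 => h1 h2.symm⟩
    obtain ⟨e₀, he₀, he₀c⟩ := hex
    haveI : Finite {x : G // x ∈ E} := ‹Finite E›
    have key := two_mul_card (fun x : G => x ∈ E) (fun x : G => x * c = c * x) (Equiv.mulLeft e₀)
      (fun x hx => E.mul_mem he₀ hx)
      (fun x hx => by
        show e₀⁻¹ * x ∈ E
        exact E.mul_mem (E.inv_mem he₀) hx)
      (fun x hx => shift_iff h (hEQ he₀) hcQ (hEQ hx) he₀c)
    have h8 : Nat.card {x : G // x ∈ E} = 8 := hE8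
    rw [h8, card_eq_filter E EF hmemE] at key
    have h4 : (EF.filter (fun e => e * c = c * e)).card = 4 := by omega
    have h4' : (EF.filter (fun e => ¬ e * c = c * e)).card = 4 := by
      have := Finset.card_filter_add_card_filter_not (s := EF) (fun e => e * c = c * e)
      rw [hEF, h4] at this
      omega
    rw [Finset.sum_boole, Nat.cast_id]
    have hsq : ∀ e ∈ EF, ((c * e) * (c * e) = 1 ↔
        (if c * c = 1 then e * c = c * e else ¬ e * c = c * e)) := by
      intro e he
      have heE : e ∈ E := (hmemE e).mp he
      have hee : e * e = 1 := hE2 e heE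
      have hzc : c * z = z * c := h.z_central c hcQ
      rcases comm_or h (hEQ heE) hcQ with h1 | h1
      · have e1 : (c * e) * (c * e) = c * c := by
          calc (c * e) * (c * e) = c * (e * c) * e := by group
            _ = c * (c * e) * e := by rw [h1]
            _ = c * c * (e * e) := by group
            _ = c * c := by rw [hee, mul_one]
        rw [e1]
        by_cases hcc : c * c = 1
        · simp [hcc, h1]
        · simp [hcc, h1]
      · have hne : ¬ e * c = c * e := by
          intro h2
          rw [h2, mul_assoc] at h1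
          exact z_mul_ne h.z_ne _ h1.symm
        have e1 : (c * e) * (c * e) = z * (c * c) := by
          calc (c * e) * (c * e) = c * (e * c) * e := by group
            _ = c * (z * c * e) * e := by rw [h1]
            _ = (c * z) * c * (e * e) := by group
            _ = z * c * c * (e * e) := by rw [hzc]
            _ = z * (c * c) := by rw [hee, mul_one, mul_assoc]
        rw [e1]
        rcases h.sq c hcQ with hcc | hcc
        · rw [hcc, mul_one]
          simp [h.z_ne, hne]
        · rw [hcc, h.z_sq]
          have : ¬ z = 1 := h.z_ne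
          simp [this, hne]
    rcases h.sq c hcQ with hcc | hcc
    · rw [← h4]
      congr 1
      apply Finset.filter_congr
      intro e he
      rw [hsq e he, if_pos hcc]
    · rw [← h4']
      congr 1
      apply Finset.filter_congr
      intro e he
      have : ¬ c * c = 1 := by rw [hcc]; exact h.z_ne
      rw [hsq e he, if_neg this]
  -- double counting
  have hS1 : ∑ c ∈ QF \ EF, ∑ e ∈ EF, (if (c * e) * (c * e) = 1 then 1 else 0) = 96 := by
    rw [Finset.sum_congr rfl ha, Finset.sum_const, Finset.card_sdiff_of_subset hsub, hQF, hEF]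
    rfl
  have hN0 : (QF.filter (fun a => a * a = 1)).card = 12 := by
    rw [← card_eq_filter Q QF hmem]; exact h12
  have hEall : (EF.filter (fun a => a * a = 1)).card = 8 := by
    rw [Finset.filter_true_of_mem (fun e he => hE2 e ((hmemE e).mp he)), hEF]
  have hdiff : ((QF \ EF).filter (fun a => a * a = 1)).card = 4 := by
    have h1 : (QF \ EF) ∪ EF = QF := Finset.sdiff_union_of_subset hsub
    have h2 : QF.filter (fun a => a * a = 1) =
        (QF \ EF).filter (fun a => a * a = 1) ∪ EF.filter (fun a => a * a = 1) := by
      rw [← Finset.filter_union, h1]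
    have h3 : Disjoint ((QF \ EF).filter (fun a => a * a = 1)) (EF.filter (fun a => a * a = 1)) :=
      Finset.disjoint_filter_filter Finset.sdiff_disjoint
    have h4 := Finset.card_union_of_disjoint h3
    rw [← h2, hN0, hEall] at h4
    omega
  have hS2 : ∑ c ∈ QF \ EF, ∑ e ∈ EF, (if (c * e) * (c * e) = 1 then 1 else 0) = 32 := by
    rw [Finset.sum_comm]
    have inner : ∀ e ∈ EF, ∑ c ∈ QF \ EF, (if (c * e) * (c * e) = 1 then 1 else 0) = 4 := by
      intro e he
      have heE : e ∈ E := (hmemE e).mp he
      have hd' : ∑ x ∈ QF \ EF, (if x * x = 1 then 1 else 0) = 4 := by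
        rw [Finset.sum_boole, Nat.cast_id]; exact hdiff
      rw [← hd']
      apply Finset.sum_equiv (Equiv.mulRight e)
      · intro c
        rw [Finset.mem_sdiff, Finset.mem_sdiff, hmem, hmem, hmemE, hmemE]
        show (c ∈ Q ∧ c ∉ E) ↔ (c * e ∈ Q ∧ c * e ∉ E)
        constructor
        · rintro ⟨h1, h2⟩
          refine ⟨Q.mul_mem h1 (hEQ heE), fun h3 => h2 ?_⟩
          have : c = (c * e) * e⁻¹ := by group
          rw [this]; exact E.mul_mem h3 (E.inv_mem heE)
        · rintro ⟨h1, h2⟩
          refine ⟨?_, fun h3 => h2 (E.mul_mem h3 heE)⟩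
          have : c = (c * e) * e⁻¹ := by group
          rw [this]; exact Q.mul_mem h1 (Q.inv_mem (hEQ heE))
      · intro c _
        rfl
    rw [Finset.sum_congr rfl inner, Finset.sum_const, hEF]
    rfl
  rw [hS1] at hS2
  omega

end Cfsg.Agent.H26.ES32
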