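import Mathlib
import Cfsg.Prelude.Def_Transfer

set_option autoImplicit false

namespace Cfsg.Agent.H26.LES

open Subgroup MulAction

variable {G : Type*} [Group G]

/-- A subgroup in which two non-members always differ by a member has index at most two. -/
theorem card_le_two_mul [Finite G] (A B : Subgroup G)
    (h : ∀ b₁ ∈ B, ∀ b₂ ∈ B, b₁ ∉ A → b₂ ∉ A → b₁⁻¹ * b₂ ∈ A) :
    Nat.card B ≤ 2 * Nat.card A := by
  classical
  by_cases hBA : B ≤ A
  · have := Subgroup.card_le_of_le hBA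
    omega
  · obtain ⟨b₀, hb₀B, hb₀A⟩ := SetLike.not_le_iff_exists.mp hBA
    let f : ↥B → Bool × ↥A := fun b =>
      if hb : (b : G) ∈ A then (false, ⟨b, hb⟩) else (true, ⟨b₀⁻¹ * b, h b₀ hb₀B b b.2 hb₀A hb⟩)
    have hf : Function.Injective f := by
      intro a b hab
      by_cases ha : (a : G) ∈ A <;> by_cases hb : (b : G) ∈ A
      · simp only [f, dif_pos ha, dif_pos hb, Prod.mk.injEq, Subtype.mk.injEq, true_and] at hab
        exact Subtype.ext hab
      · simp [f, dif_pos ha, dif_neg hb] at hab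
      · simp [f, dif_neg ha, dif_pos hb] at hab
      · simp only [f, dif_neg ha, dif_neg hb, Prod.mk.injEq, Subtype.mk.injEq, true_and,
          mul_right_inj] at hab
        exact Subtype.ext hab
    have h1 := Nat.card_le_card_of_injective f hf
    rw [Nat.card_prod, Nat.card_eq_fintype_card (α := Bool), Fintype.card_bool] at h1
    exact h1

/-- The sign character attached to a subgroup: `1` on it, `-1` off it. -/
noncomputable def chi (K : Subgroup G) : G → ℤˣ := fun g => by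
  classical exact if g ∈ K then 1 else -1

theorem chi_eq_one_iff (K : Subgroup G) (g : G) : chi K g = 1 ↔ g ∈ K := by
  classical
  unfold chi
  by_cases h : g ∈ K <;> simp [h]

theorem chi_of_mem (K : Subgroup G) {g : G} (h : g ∈ K) : chi K g = 1 :=
  (chi_eq_one_iff K g).mpr h

theorem chi_of_not_mem (K : Subgroup G) {g : G} (h : g ∉ K) : chi K g = -1 := by
  classical
  unfold chi
  simp [h]

theorem chi_mul (H K : Subgroup G) (hKi : K.relIndex H = 2) {a b : G} (ha : a ∈ H) (hb : b ∈ H) :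
    chi K (a * b) = chi K a * chi K b := by
  classical
  have h := Subgroup.mul_mem_iff_of_index_two (H := K.subgroupOf H) hKi
    (a := ⟨a, ha⟩) (b := ⟨b, hb⟩)
  simp only [Subgroup.mem_subgroupOf, Subgroup.coe_mul] at h
  unfold chi
  by_cases h1 : a ∈ K <;> by_cases h2 : b ∈ K <;> simp [h1, h2, h]

/-- The sign character as a homomorphism on `H`. -/
noncomputable def chiHom (H K : Subgroup G) (hKi : K.relIndex H = 2) : ↥H →* ℤˣ :=
  MonoidHom.mk' (fun h => chi K (h : G)) (fun a b => chi_mul H K hKi a.2 b.2)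

theorem chiHom_apply (H K : Subgroup G) (hKi : K.relIndex H = 2) (h : ↥H) :
    chiHom H K hKi h = chi K (h : G) := rfl

/-- Two non-members of an index-two subgroup multiply into it. -/
theorem mul_mem_of_not_mem (H K : Subgroup G) (hKi : K.relIndex H = 2) {a b : G} (ha : a ∈ H)
    (hb : b ∈ H) (haK : a ∉ K) (hbK : b ∉ K) : a * b ∈ K := by
  rw [← chi_eq_one_iff, chi_mul H K hKi ha hb, chi_of_not_mem K haK, chi_of_not_mem K hbK]
  simp

/-- Commutators of `H` lie in a subgroup of index two. -/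
theorem comm_mem_of_relIndex_two (H K : Subgroup G) (hKi : K.relIndex H = 2) {a b : G} (ha : a ∈ H)
    (hb : b ∈ H) : a * b * a⁻¹ * b⁻¹ ∈ K := by
  have hai : a⁻¹ ∈ H := H.inv_mem ha
  have hbi : b⁻¹ ∈ H := H.inv_mem hb
  have h1 : chi K a * chi K a⁻¹ = 1 := by
    rw [← chi_mul H K hKi ha hai, mul_inv_cancel]; exact chi_of_mem K K.one_mem
  have h2 : chi K b * chi K b⁻¹ = 1 := by
    rw [← chi_mul H K hKi hb hbi, mul_inv_cancel]; exact chi_of_mem K K.one_mem
  rw [← chi_eq_one_iff, chi_mul H K hKi (H.mul_mem (H.mul_mem ha hb) hai) hbi,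
    chi_mul H K hKi (H.mul_mem ha hb) hai, chi_mul H K hKi ha hb]
  calc chi K a * chi K b * chi K a⁻¹ * chi K b⁻¹
      = (chi K a * chi K a⁻¹) * (chi K b * chi K b⁻¹) := by
        simp only [mul_left_comm, mul_assoc]
    _ = 1 := by rw [h1, h2, one_mul]

/-- The cosets `xH` fixed by `u` on which `u` acts through `H ∖ K`. -/
def delta (H K : Subgroup G) (u : G) : Set (G ⧸ H) :=
  {q | ∃ x : G, (x : G ⧸ H) = q ∧ x⁻¹ * u * x ∈ H ∧ x⁻¹ * u * x ∉ K}

theorem delta_smul_eq (H K : Subgroup G) (u : G) {q : G ⧸ H}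
    (hq : q ∈ delta H K u) : u • q = q := by
  obtain ⟨x, rfl, hxH, -⟩ := hq
  show ((u * x : G) : G ⧸ H) = (x : G ⧸ H)
  rw [eq_comm, QuotientGroup.eq]
  have : x⁻¹ * (u * x) = x⁻¹ * u * x := by group
  rw [this]; exact hxH

/-- Transfer into a quotient of order two: for an involution `u`, the number of fixed cosets on
which `u` acts through `H ∖ K` is even as soon as `G` has no nontrivial sign character. -/
theorem even_card_delta [Finite G] (H K : Subgroup G)
    (hKn : ∀ h ∈ H, ∀ k ∈ K, h⁻¹ * k * h ∈ K)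
    (hKi : K.relIndex H = 2)
    (hG : ∀ f : G →* ℤˣ, ∀ g, f g = 1) (u : G) (hu : u * u = 1) :
    Even (Nat.card (delta H K u)) := by
  classical
  let _ := H.fintypeQuotientOfFiniteIndex
  have hui : u⁻¹ = u := inv_eq_of_mul_eq_one_left hu
  let T : H.LeftTransversal := default
  let t : G ⧸ H → G := fun q => (T.2.leftQuotientEquiv q : G)
  have ht : ∀ q, ((t q : G) : G ⧸ H) = q := fun q => T.2.quotientGroupMk_leftQuotientEquiv q
  let F : G ⧸ H → ℤˣ := fun q => chi K ((t q)⁻¹ * (u * t (u • q)))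
  have hV : MonoidHom.transfer (chiHom H K hKi) u = ∏ q : G ⧸ H, F q := by
    rw [MonoidHom.transfer_def (chiHom H K hKi) T u]
    unfold Subgroup.leftTransversals.diff
    refine Finset.prod_congr rfl (fun q _ => ?_)
    rw [chiHom_apply]
    show chi K (_ * _) = chi K _
    rw [Subgroup.smul_apply_eq_smul_apply_inv_smul, hui]
    rfl
  -- membership facts
  have hmemH : ∀ q, (t q)⁻¹ * (u * t (u • q)) ∈ H := by
    intro q
    rw [← QuotientGroup.eq, ht q]
    show q = u • ((t (u • q) : G) : G ⧸ H)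
    rw [ht, ← mul_smul, hu, one_smul]
  have hFF : ∀ q, F q * F (u • q) = 1 := by
    intro q
    show chi K ((t q)⁻¹ * (u * t (u • q))) * chi K ((t (u • q))⁻¹ * (u * t (u • u • q))) = 1
    have h1 : u • u • q = q := by rw [← mul_smul, hu, one_smul]
    have h2 := hmemH (u • q)
    rw [h1] at h2 ⊢
    rw [← chi_mul H K hKi (hmemH q) h2]
    have : (t q)⁻¹ * (u * t (u • q)) * ((t (u • q))⁻¹ * (u * t q)) = (t q)⁻¹ * (u * u) * t q := by
      group
    rw [this, hu, mul_one, inv_mul_cancel]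
    exact chi_of_mem K K.one_mem
  have hFd : ∀ q, q ∈ delta H K u → F q = -1 := by
    intro q hq
    have hfix := delta_smul_eq H K u hq
    obtain ⟨x, hxq, hxH, hxK⟩ := hq
    show chi K ((t q)⁻¹ * (u * t (u • q))) = -1
    rw [hfix]
    apply chi_of_not_mem
    intro hmem
    apply hxK
    have hh : x⁻¹ * t q ∈ H := by
      rw [← QuotientGroup.eq, ht q, hxq]
    have h3 := hKn _ (H.inv_mem hh) _ hmem
    have : (x⁻¹ * t q)⁻¹⁻¹ * ((t q)⁻¹ * (u * t q)) * (x⁻¹ * t q)⁻¹ = x⁻¹ * u * x := by group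
    rw [this] at h3
    exact h3
  have hFn : ∀ q, q ∉ delta H K u → u • q = q → F q = 1 := by
    intro q hq hfix
    show chi K ((t q)⁻¹ * (u * t (u • q))) = 1
    have h2 := hmemH q
    rw [hfix] at h2 ⊢
    apply chi_of_mem
    by_contra hnot
    apply hq
    refine ⟨t q, ht q, ?_, ?_⟩
    · have : (t q)⁻¹ * u * t q = (t q)⁻¹ * (u * t q) := by group
      rw [this]; exact h2
    · have : (t q)⁻¹ * u * t q = (t q)⁻¹ * (u * t q) := by group
      rw [this]; exact hnot
  have hsplit : ∏ q : G ⧸ H, F q =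
      (∏ q ∈ Finset.univ.filter (fun q => q ∈ delta H K u), F q) *
        ∏ q ∈ Finset.univ.filter (fun q => ¬ q ∈ delta H K u), F q :=
    (Finset.prod_filter_mul_prod_filter_not Finset.univ (fun q => q ∈ delta H K u) F).symm
  have hsecond : ∏ q ∈ Finset.univ.filter (fun q => ¬ q ∈ delta H K u), F q = 1 := by
    refine Finset.prod_involution (fun q _ => u • q) (fun q _ => hFF q) ?_ ?_ ?_
    · intro q hq hne hfix
      rw [Finset.mem_filter] at hq
      exact hne (hFn q hq.2 hfix)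
    · intro q hq
      rw [Finset.mem_filter] at hq ⊢
      refine ⟨Finset.mem_univ _, fun hmem => hq.2 ?_⟩
      have h1 := delta_smul_eq H K u hmem
      have h2 : u • q = q := by
        have := congrArg (fun r => u • r) h1
        simp only [← mul_smul, hu, one_smul] at this
        exact this
      rw [h2] at hmem
      exact hmem
    · intro q _
      show u • u • q = q
      rw [← mul_smul, hu, one_smul]
  have hfirst : ∏ q ∈ Finset.univ.filter (fun q => q ∈ delta H K u), F q =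
      (-1 : ℤˣ) ^ (Finset.univ.filter (fun q : G ⧸ H => q ∈ delta H K u)).card := by
    rw [Finset.prod_congr rfl (fun q hq => hFd q (Finset.mem_filter.mp hq).2), Finset.prod_const]
  have hone := hG (MonoidHom.transfer (chiHom H K hKi)) u
  rw [hV, hsplit, hsecond, mul_one, hfirst] at hone
  have hcard : Nat.card (delta H K u) =
      (Finset.univ.filter (fun q : G ⧸ H => q ∈ delta H K u)).card := by
    rw [Nat.card_eq_fintype_card, Fintype.card_subtype]
  rw [hcard]
  by_contra hodd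
  rw [Nat.not_even_iff_odd] at hodd
  rw [Odd.neg_one_pow hodd] at hone
  exact absurd hone (by decide)

/-- The action of a subgroup centralizing `u` on the set `delta`. -/
@[reducible] def deltaAction (H K : Subgroup G) (u : G) (Q : Subgroup G) (hQu : ∀ m ∈ Q, m * u = u * m) :
    MulAction ↥Q ↥(delta H K u) where
  smul m q := ⟨(m : G) • (q : G ⧸ H), by
    obtain ⟨x, hxq, hxH, hxK⟩ := q.2
    have h1 : ((m : G) * x)⁻¹ * u * ((m : G) * x) = x⁻¹ * u * x := by
      have := hQu m m.2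
      calc ((m : G) * x)⁻¹ * u * ((m : G) * x) = x⁻¹ * (m : G)⁻¹ * (u * (m : G)) * x := by group
        _ = x⁻¹ * (m : G)⁻¹ * ((m : G) * u) * x := by rw [this]
        _ = x⁻¹ * u * x := by group
    refine ⟨(m : G) * x, ?_, ?_, ?_⟩
    · rw [← hxq]; rfl
    · rw [h1]; exact hxH
    · rw [h1]; exact hxK⟩
  one_smul q := Subtype.ext (one_smul G (q : G ⧸ H))
  mul_smul a b q := Subtype.ext (mul_smul (a : G) (b : G) (q : G ⧸ H))

/-- The fixed-point consequence of the transfer parity: a `2`-subgroup `Q ≤ H` centralizing the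
involution `u ∈ H ∖ K` has a conjugate-point `x ∉ H` carrying `Q` into `H` and `u` into `H ∖ K`. -/
theorem exists_fixed [Finite G] (H K : Subgroup G)
    (hKn : ∀ h ∈ H, ∀ k ∈ K, h⁻¹ * k * h ∈ K)
    (hKi : K.relIndex H = 2)
    (hG : ∀ f : G →* ℤˣ, ∀ g, f g = 1) (u : G) (hu : u * u = 1)
    (huH : u ∈ H) (huK : u ∉ K) (Q : Subgroup G) (hQ : IsPGroup 2 Q) (hQH : Q ≤ H)
    (hQu : ∀ m ∈ Q, m * u = u * m) :
    ∃ x : G, x ∉ H ∧ x⁻¹ * u * x ∈ H ∧ x⁻¹ * u * x ∉ K ∧ ∀ m ∈ Q, x⁻¹ * m * x ∈ H := by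
  classical
  have : Fact (Nat.Prime 2) := ⟨Nat.prime_two⟩
  let _ := deltaAction H K u Q hQu
  have hsmul : ∀ (m : ↥Q) (q : ↥(delta H K u)), ((m • q : ↥(delta H K u)) : G ⧸ H) =
      (m : G) • (q : G ⧸ H) := fun _ _ => rfl
  have heven := even_card_delta H K hKn hKi hG u hu
  have hmod := hQ.card_modEq_card_fixedPoints (delta H K u)
  have heven2 : Even (Nat.card (fixedPoints ↥Q ↥(delta H K u))) := by
    rw [Nat.even_iff] at heven ⊢
    rw [← hmod, heven]
  -- the base point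
  have h1mem : ((1 : G) : G ⧸ H) ∈ delta H K u := by
    refine ⟨1, rfl, ?_, ?_⟩
    · simpa using huH
    · simpa using huK
  have h1fix : (⟨((1 : G) : G ⧸ H), h1mem⟩ : ↥(delta H K u)) ∈ fixedPoints ↥Q ↥(delta H K u) := by
    intro m
    apply Subtype.ext
    rw [hsmul]
    show (((m : G) * 1 : G) : G ⧸ H) = ((1 : G) : G ⧸ H)
    rw [QuotientGroup.eq]
    simpa using H.inv_mem (hQH m.2)
  have hnt : Nontrivial (fixedPoints ↥Q ↥(delta H K u)) := by
    rw [← Finite.one_lt_card_iff_nontrivial]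
    have hpos : 0 < Nat.card (fixedPoints ↥Q ↥(delta H K u)) :=
      Nat.card_pos_iff.mpr ⟨⟨⟨_, h1fix⟩⟩, inferInstance⟩
    obtain ⟨r, hr⟩ := heven2
    omega
  obtain ⟨⟨⟨q, hq⟩, hqfix⟩, hne⟩ := exists_ne (⟨_, h1fix⟩ : fixedPoints ↥Q ↥(delta H K u))
  obtain ⟨x, hxq, hxH, hxK⟩ := id hq
  refine ⟨x, ?_, hxH, hxK, ?_⟩
  · intro hx
    apply hne
    apply Subtype.ext
    apply Subtype.ext
    show q = ((1 : G) : G ⧸ H)
    rw [← hxq, QuotientGroup.eq]
    simpa using H.inv_mem hx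
  · intro m hm
    have h2 := hqfix ⟨m, hm⟩
    have h3 := congrArg (fun r : ↥(delta H K u) => (r : G ⧸ H)) h2
    simp only [hsmul] at h3
    rw [← hxq] at h3
    have h4 : (((m * x : G)) : G ⧸ H) = (x : G ⧸ H) := h3
    rw [eq_comm, QuotientGroup.eq] at h4
    have : x⁻¹ * m * x = x⁻¹ * (m * x) := by group
    rw [this]; exact h4

/-- The abstract form of the extraspecial-in-index-two theorem: `E` is a subgroup of
`H = C_G(z)`, normal in `H`, self-centralizing in `G`, whose commutators and squares lie in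
`{1, z}`, whose centre is `{1, z}` and which has more than `8` elements; `K` is a normal subgroup
of index two of `H`; and `G` has no nontrivial sign character. Then `E ≤ K`. -/
theorem es_le_of_index_two [Finite G] (z : G) (hz1 : z ≠ 1) (hzz : z * z = 1)
    (E K : Subgroup G)
    (hEH : E ≤ centralizer ({z} : Set G))
    (hEn : ∀ h ∈ centralizer ({z} : Set G), ∀ e ∈ E, h * e * h⁻¹ ∈ E)
    (hzE : z ∈ E)
    (hcomm : ∀ a ∈ E, ∀ b ∈ E, Commute b a ∨ SemiconjBy b a (z * a))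
    (hsq : ∀ a ∈ E, a * a = 1 ∨ a * a = z)
    (hcen : ∀ a ∈ E, (∀ b ∈ E, Commute a b) → a = 1 ∨ a = z)
    (hcard : 8 < Nat.card E)
    (hcent : centralizer (E : Set G) ≤ E)
    (hKn : ∀ h ∈ centralizer ({z} : Set G), ∀ k ∈ K, h⁻¹ * k * h ∈ K)
    (hKi : K.relIndex (centralizer ({z} : Set G)) = 2)
    (hG : ∀ f : G →* ℤˣ, ∀ g, f g = 1) : E ≤ K := by
  classical
  have : Fact (Nat.Prime 2) := ⟨Nat.prime_two⟩
  set H := centralizer ({z} : Set G) with hH
  have hHz : ∀ h, h ∈ H ↔ Commute z h := by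
    intro h
    rw [hH, Subgroup.mem_centralizer_iff]
    constructor
    · intro hh; exact hh z rfl
    · intro hh y hy
      rw [Set.mem_singleton_iff] at hy
      rw [hy]; exact hh
  have hzc : ∀ a ∈ E, Commute z a := fun a ha => (hHz a).mp (hEH ha)
  have hA : ∀ m, m = 1 ∨ m = z → m ∈ zpowers z := by
    rintro m (rfl | rfl)
    · exact one_mem _
    · exact mem_zpowers _
  have hc3 : Nat.card (zpowers z) = 2 := by
    rw [Nat.card_zpowers]
    exact orderOf_eq_prime (by rw [pow_two]; exact hzz) hz1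
  have hidx : ∀ a ∈ E, ∀ b₁ ∈ E, ∀ b₂ ∈ E, ¬ Commute b₁ a → ¬ Commute b₂ a →
      Commute (b₁⁻¹ * b₂) a := by
    intro a ha b₁ hb₁ b₂ hb₂ h1 h2
    have s1 : SemiconjBy b₁ a (z * a) := (hcomm a ha b₁ hb₁).resolve_left h1
    have s2 : SemiconjBy b₂ a (z * a) := (hcomm a ha b₂ hb₂).resolve_left h2
    exact (SemiconjBy.inv_symm_left s1).mul_left s2
  -- `z ∈ K` since `E` is nonabelian
  have hzK : z ∈ K := by
    have hnab : ∃ a ∈ E, ∃ b ∈ E, ¬ Commute a b := by
      by_contra hno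
      have hab : ∀ a ∈ E, ∀ b ∈ E, Commute a b := by
        intro a ha b hb; by_contra h; exact hno ⟨a, ha, b, hb, h⟩
      have hle : E ≤ zpowers z := fun a ha => hA a (hcen a ha (hab a ha))
      have := Subgroup.card_le_of_le hle
      omega
    obtain ⟨a, ha, b, hb, hab⟩ := hnab
    have s : SemiconjBy a b (z * b) := (hcomm b hb a ha).resolve_left hab
    have h1 : z = a * b * a⁻¹ * b⁻¹ := by
      have h := s.eq
      rw [h]; group
    rw [h1]; exact comm_mem_of_relIndex_two H K hKi (hEH ha) (hEH hb)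
  by_contra hEK
  obtain ⟨e, heE, heK⟩ := SetLike.not_le_iff_exists.mp hEK
  -- an involution of `E` outside `K`
  have hB : ∃ u ∈ E, u ∉ K ∧ u * u = 1 := by
    by_contra hall
    have hall' : ∀ u ∈ E, u * u = 1 → u ∈ K := by
      intro u hu huu; by_contra huK; exact hall ⟨u, hu, huK, huu⟩
    have hee : e * e = z := (hsq e heE).resolve_left (fun h => heK (hall' e heE h))
    have hM1 : ∀ m ∈ E, m ∈ K → m * e * m = e := by
      intro m hmE hmK
      have h1 : e * m ∈ E := E.mul_mem heE hmE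
      have h2 : e * m ∉ K := fun h => heK (by simpa using K.mul_mem h (K.inv_mem hmK))
      have h3 : (e * m) * (e * m) = z := (hsq _ h1).resolve_left (fun h => h2 (hall' _ h1 h))
      have h4 : e * (m * e * m) = e * e := by rw [hee, ← h3]; group
      exact mul_left_cancel h4
    have hMab : ∀ m₁ ∈ E, m₁ ∈ K → ∀ m₂ ∈ E, m₂ ∈ K → Commute m₁ m₂ := by
      intro m₁ h1E h1K m₂ h2E h2K
      have a1 := hM1 m₁ h1E h1K
      have a2 := hM1 m₂ h2E h2K
      have a3 := hM1 (m₁ * m₂) (E.mul_mem h1E h2E) (K.mul_mem h1K h2K)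
      have h5 : m₁ * m₂ * e * (m₁ * m₂) = m₁ * m₂ * e * (m₂ * m₁) := by
        calc m₁ * m₂ * e * (m₁ * m₂) = e := a3
          _ = m₁ * e * m₁ := a1.symm
          _ = m₁ * (m₂ * e * m₂) * m₁ := by rw [a2]
          _ = m₁ * m₂ * e * (m₂ * m₁) := by group
      exact mul_left_cancel h5
    have hMinv : ∀ m ∈ E, m ∈ K → m * m = 1 → m = 1 ∨ m = z := by
      intro m hmE hmK hmm
      apply hcen m hmE
      have hme : Commute m e := by
        have a1 := hM1 m hmE hmK
        show m * e = e * m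
        calc m * e = m * e * (m * m) := by rw [hmm, mul_one]
          _ = (m * e * m) * m := by group
          _ = e * m := by rw [a1]
      intro b hb
      by_cases hbK : b ∈ K
      · exact hMab m hmE hmK b hb hbK
      · have h1 : e⁻¹ * b ∈ K := mul_mem_of_not_mem H K hKi (H.inv_mem (hEH heE)) (hEH hb)
          (fun h => heK (by simpa using K.inv_mem h)) hbK
        have h2 : Commute m (e⁻¹ * b) := hMab m hmE hmK _ (E.mul_mem (E.inv_mem heE) hb) h1
        have h3 : b = e * (e⁻¹ * b) := by group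
        rw [h3]; exact hme.mul_right h2
    have hc1 : Nat.card (E ⊓ K : Subgroup G) ≤ 2 * Nat.card (zpowers z) := by
      apply card_le_two_mul
      intro b₁ hb₁ b₂ hb₂ hb₁A hb₂A
      obtain ⟨hb₁E, hb₁K⟩ := Subgroup.mem_inf.mp hb₁
      obtain ⟨hb₂E, hb₂K⟩ := Subgroup.mem_inf.mp hb₂
      have s1 : b₁ * b₁ = z :=
        (hsq b₁ hb₁E).resolve_left (fun h => hb₁A (hA _ (hMinv b₁ hb₁E hb₁K h)))
      have s2 : b₂ * b₂ = z :=
        (hsq b₂ hb₂E).resolve_left (fun h => hb₂A (hA _ (hMinv b₂ hb₂E hb₂K h)))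
      apply hA
      apply hMinv _ (E.mul_mem (E.inv_mem hb₁E) hb₂E) (K.mul_mem (K.inv_mem hb₁K) hb₂K)
      have hc : Commute b₁⁻¹ b₂ := (hMab b₁ hb₁E hb₁K b₂ hb₂E hb₂K).inv_left
      calc b₁⁻¹ * b₂ * (b₁⁻¹ * b₂) = b₁⁻¹ * (b₂ * b₁⁻¹) * b₂ := by group
        _ = b₁⁻¹ * (b₁⁻¹ * b₂) * b₂ := by rw [hc.eq]
        _ = (b₁ * b₁)⁻¹ * (b₂ * b₂) := by group
        _ = 1 := by rw [s1, s2, inv_mul_cancel]
    have hc2 : Nat.card E ≤ 2 * Nat.card (E ⊓ K : Subgroup G) := by
      apply card_le_two_mul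
      intro b₁ hb₁ b₂ hb₂ hb₁A hb₂A
      have k1 : b₁ ∉ K := fun h => hb₁A (Subgroup.mem_inf.mpr ⟨hb₁, h⟩)
      have k2 : b₂ ∉ K := fun h => hb₂A (Subgroup.mem_inf.mpr ⟨hb₂, h⟩)
      exact Subgroup.mem_inf.mpr ⟨E.mul_mem (E.inv_mem hb₁) hb₂,
        mul_mem_of_not_mem H K hKi (H.inv_mem (hEH hb₁)) (hEH hb₂)
          (fun h => k1 (by simpa using K.inv_mem h)) k2⟩
    omega
  obtain ⟨u, huE, huK, huu⟩ := hB
  have hui : u⁻¹ = u := inv_eq_of_mul_eq_one_left huu
  have huH : u ∈ H := hEH huE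
  have hu1 : u ≠ 1 := fun h => huK (h ▸ K.one_mem)
  have huz : u ≠ z := fun h => huK (h ▸ hzK)
  have hzQ : Commute z u := hzc u huE
  have hCu : ∀ m, m ∈ centralizer ({u} : Set G) ↔ Commute m u := by
    intro m
    rw [Subgroup.mem_centralizer_iff]
    constructor
    · intro hh; exact (hh u rfl).symm
    · intro hh y hy
      rw [Set.mem_singleton_iff] at hy
      rw [hy]; exact hh.symm
  obtain ⟨e₀, he₀E, he₀u⟩ : ∃ e₀ ∈ E, ¬ Commute e₀ u := by
    by_contra hno
    have hall : ∀ b ∈ E, Commute u b := by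
      intro b hb; by_contra h; exact hno ⟨b, hb, fun h' => h h'.symm⟩
    rcases hcen u huE hall with h | h
    · exact hu1 h
    · exact huz h
  have hspan : ∀ g : G, Commute g e₀ → (∀ m ∈ E, Commute m u → Commute g m) →
      ∀ b ∈ E, Commute g b := by
    intro g hg0 hgQ b hb
    by_cases hbu : Commute b u
    · exact hgQ b hb hbu
    · have h1 := hidx u huE e₀ he₀E b hb he₀u hbu
      have h2 := hgQ _ (E.mul_mem (E.inv_mem he₀E) hb) h1
      have h3 : b = e₀ * (e₀⁻¹ * b) := by group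
      rw [h3]; exact hg0.mul_right h2
  have s2 : SemiconjBy u e₀ (z * e₀) :=
    (hcomm e₀ he₀E u huE).resolve_left (fun c => he₀u c.symm)
  -- the centralizer of `Q` in `E`
  have hCEQ : ∀ y ∈ E, (∀ m ∈ E, Commute m u → Commute y m) →
      y = 1 ∨ y = z ∨ y = u ∨ y = u * z := by
    intro y hy hyQ
    by_cases hy0 : Commute y e₀
    · rcases hcen y hy (hspan y hy0 hyQ) with h | h
      · exact Or.inl h
      · exact Or.inr (Or.inl h)
    · have hw : ∀ b ∈ E, Commute (u * y) b := by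
        apply hspan
        · have s1 : SemiconjBy y e₀ (z * e₀) := (hcomm e₀ he₀E y hy).resolve_left hy0
          have s3 : SemiconjBy u (z * e₀) (z * (z * e₀)) :=
            SemiconjBy.mul_right hzQ.symm s2
          have s4 := s3.mul_left s1
          rw [← mul_assoc, hzz, one_mul] at s4
          exact s4
        · intro m hm hmu
          exact (hmu.symm).mul_left (hyQ m hm hmu)
      rcases hcen (u * y) (E.mul_mem huE hy) hw with h | h
      · right; right; left
        have h1 : y = u⁻¹ := eq_inv_of_mul_eq_one_right h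
        rw [h1, hui]
      · right; right; right
        calc y = u⁻¹ * (u * y) := by group
          _ = u * z := by rw [h, hui]
  -- `Q` is nonabelian
  have hQnab : ∃ m₁ ∈ E, Commute m₁ u ∧ ∃ m₂ ∈ E, Commute m₂ u ∧ ¬ Commute m₁ m₂ := by
    by_contra hno
    have hQab : ∀ m₁ ∈ E, Commute m₁ u → ∀ m₂ ∈ E, Commute m₂ u → Commute m₁ m₂ := by
      intro m₁ h1 h1u m₂ h2 h2u; by_contra h; exact hno ⟨m₁, h1, h1u, m₂, h2, h2u, h⟩
    have hQc : ∀ m ∈ E, Commute m u → Commute m e₀ → m = 1 ∨ m = z := by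
      intro m hm hmu hm0
      exact hcen m hm (hspan m hm0 (fun m' hm' hm'u => hQab m hm hmu m' hm' hm'u))
    have hc1 : Nat.card (E ⊓ centralizer ({u} : Set G) : Subgroup G) ≤
        2 * Nat.card (zpowers z) := by
      apply card_le_two_mul
      intro b₁ hb₁ b₂ hb₂ hb₁A hb₂A
      obtain ⟨hb₁E, hb₁u⟩ := Subgroup.mem_inf.mp hb₁
      obtain ⟨hb₂E, hb₂u⟩ := Subgroup.mem_inf.mp hb₂
      have hb₁u' : Commute b₁ u := (hCu b₁).mp hb₁u
      have hb₂u' : Commute b₂ u := (hCu b₂).mp hb₂u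
      have n1 : ¬ Commute b₁ e₀ := fun h => hb₁A (hA _ (hQc b₁ hb₁E hb₁u' h))
      have n2 : ¬ Commute b₂ e₀ := fun h => hb₂A (hA _ (hQc b₂ hb₂E hb₂u' h))
      have h3 := hidx e₀ he₀E b₁ hb₁E b₂ hb₂E n1 n2
      exact hA _ (hQc _ (E.mul_mem (E.inv_mem hb₁E) hb₂E) (hb₁u'.inv_left.mul_left hb₂u') h3)
    have hc2 : Nat.card E ≤ 2 * Nat.card (E ⊓ centralizer ({u} : Set G) : Subgroup G) := by
      apply card_le_two_mul
      intro b₁ hb₁ b₂ hb₂ hb₁A hb₂A
      have n1 : ¬ Commute b₁ u := fun h => hb₁A (Subgroup.mem_inf.mpr ⟨hb₁, (hCu b₁).mpr h⟩)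
      have n2 : ¬ Commute b₂ u := fun h => hb₂A (Subgroup.mem_inf.mpr ⟨hb₂, (hCu b₂).mpr h⟩)
      exact Subgroup.mem_inf.mpr ⟨E.mul_mem (E.inv_mem hb₁) hb₂,
        (hCu _).mpr (hidx u huE b₁ hb₁ b₂ hb₂ n1 n2)⟩
    omega
  obtain ⟨m₁, hm₁E, hm₁u, m₂, hm₂E, hm₂u, hm₁₂⟩ := hQnab
  have hzcomm : z = m₁ * m₂ * m₁⁻¹ * m₂⁻¹ := by
    have s : SemiconjBy m₁ m₂ (z * m₂) := (hcomm m₂ hm₂E m₁ hm₁E).resolve_left hm₁₂
    have h := s.eq
    rw [h]; group
  -- the fixed point
  have hQp : IsPGroup 2 (E ⊓ centralizer ({u} : Set G) : Subgroup G) := by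
    rintro ⟨m, hm⟩
    refine ⟨2, ?_⟩
    apply Subtype.ext
    have hmE := (Subgroup.mem_inf.mp hm).1
    show m ^ (2 ^ 2) = 1
    have h4 : m ^ (2 ^ 2) = (m * m) * (m * m) := by
      rw [← pow_two, ← pow_two, ← pow_mul]; norm_num
    rw [h4]
    rcases hsq m hmE with h | h
    · rw [h, one_mul]
    · rw [h, hzz]
  obtain ⟨x, hxH, hxuH, hxuK, hxQ⟩ := exists_fixed H K hKn hKi hG u huu huH huK
    (E ⊓ centralizer ({u} : Set G)) hQp (inf_le_left.trans hEH)
    (fun m hm => ((hCu m).mp (Subgroup.mem_inf.mp hm).2).eq)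
  have hxQ' : ∀ m ∈ E, Commute m u → x⁻¹ * m * x ∈ H :=
    fun m hm hmu => hxQ m (Subgroup.mem_inf.mpr ⟨hm, (hCu m).mpr hmu⟩)
  have hz'Q : ∀ m ∈ E, Commute m u → Commute (x * z * x⁻¹) m := by
    intro m hm hmu
    have h1 : Commute z (x⁻¹ * m * x) := (hHz _).mp (hxQ' m hm hmu)
    show x * z * x⁻¹ * m = m * (x * z * x⁻¹)
    calc x * z * x⁻¹ * m = x * (z * (x⁻¹ * m * x)) * x⁻¹ := by group
      _ = x * ((x⁻¹ * m * x) * z) * x⁻¹ := by rw [h1.eq]
      _ = m * (x * z * x⁻¹) := by group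
  have hz'H : x * z * x⁻¹ ∈ H := (hHz _).mpr (hz'Q z hzE hzQ).symm
  have hz'ne : x * z * x⁻¹ ≠ z := by
    intro h
    apply hxH
    rw [hHz]
    show z * x = x * z
    calc z * x = x * z * x⁻¹ * x := by rw [h]
      _ = x * z := by group
  have hz'1 : x * z * x⁻¹ ≠ 1 := by
    intro h
    apply hz1
    calc z = x⁻¹ * (x * z * x⁻¹) * x := by group
      _ = 1 := by rw [h]; group
  -- the centralizer of `Q` in `H`
  have hCHQ : ∀ h ∈ H, (∀ m ∈ E, Commute m u → Commute h m) →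
      h = 1 ∨ h = z ∨ h = u ∨ h = u * z := by
    intro h hhH hhQ
    have he₁ : h * e₀ * h⁻¹ ∈ E := hEn h hhH e₀ he₀E
    have hyE : e₀⁻¹ * (h * e₀ * h⁻¹) ∈ E := E.mul_mem (E.inv_mem he₀E) he₁
    have hyeq : h * e₀ * h⁻¹ = e₀ * (e₀⁻¹ * (h * e₀ * h⁻¹)) := by group
    have hyQ : ∀ m ∈ E, Commute m u → Commute (e₀⁻¹ * (h * e₀ * h⁻¹)) m := by
      intro m hm hmu
      have hm'E : e₀ * m * e₀⁻¹ ∈ E := E.mul_mem (E.mul_mem he₀E hm) (E.inv_mem he₀E)
      have hm'u : Commute (e₀ * m * e₀⁻¹) u := by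
        rcases hcomm m hm e₀ he₀E with c | s
        · have h1 : e₀ * m * e₀⁻¹ = m := by rw [c.eq]; group
          rw [h1]; exact hmu
        · have h1 : e₀ * m * e₀⁻¹ = z * m := by rw [s.eq]; group
          rw [h1]; exact hzQ.mul_left hmu
      have c1 : Commute h m := hhQ m hm hmu
      have c2 : Commute h (e₀ * m * e₀⁻¹) := hhQ _ hm'E hm'u
      have k1 : h⁻¹ * m = m * h⁻¹ := (c1.inv_left).eq
      have k2 : h * (e₀ * m * e₀⁻¹) = (e₀ * m * e₀⁻¹) * h := c2.eq
      show e₀⁻¹ * (h * e₀ * h⁻¹) * m = m * (e₀⁻¹ * (h * e₀ * h⁻¹))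
      calc e₀⁻¹ * (h * e₀ * h⁻¹) * m = e₀⁻¹ * h * e₀ * (h⁻¹ * m) := by group
        _ = e₀⁻¹ * h * e₀ * (m * h⁻¹) := by rw [k1]
        _ = e₀⁻¹ * (h * (e₀ * m * e₀⁻¹)) * e₀ * h⁻¹ := by group
        _ = e₀⁻¹ * ((e₀ * m * e₀⁻¹) * h) * e₀ * h⁻¹ := by rw [k2]
        _ = m * (e₀⁻¹ * (h * e₀ * h⁻¹)) := by group
    have hsqcase : ∀ y' : G, y' * y' = 1 → SemiconjBy y' e₀ (z * e₀) →
        h * e₀ * h⁻¹ = e₀ * y' → False := by
      intro y' hyy s hEq
      have hcz : Commute h (e₀ * e₀) := by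
        rcases hsq e₀ he₀E with q | q
        · rw [q]; exact Commute.one_right h
        · rw [q]; exact ((hHz h).mp hhH).symm
      have e1 : (h * e₀ * h⁻¹) * (h * e₀ * h⁻¹) = e₀ * e₀ := by
        calc (h * e₀ * h⁻¹) * (h * e₀ * h⁻¹) = h * (e₀ * e₀) * h⁻¹ := by group
          _ = (e₀ * e₀) * h * h⁻¹ := by rw [hcz.eq]
          _ = e₀ * e₀ := by group
      have e2 : (e₀ * y') * (e₀ * y') = z * (e₀ * e₀) := by
        calc (e₀ * y') * (e₀ * y') = e₀ * (y' * e₀) * y' := by group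
          _ = e₀ * (z * e₀ * y') * y' := by rw [s.eq]
          _ = (e₀ * z) * e₀ * (y' * y') := by group
          _ = (z * e₀) * e₀ * 1 := by rw [hyy, (hzc e₀ he₀E).eq]
          _ = z * (e₀ * e₀) := by group
      rw [hEq, e2] at e1
      exact hz1 (mul_eq_right.mp e1)
    rcases hCEQ _ hyE hyQ with h1 | h1 | h1 | h1
    · rw [h1, mul_one] at hyeq
      have hc0 : Commute h e₀ := by
        show h * e₀ = e₀ * h
        calc h * e₀ = (h * e₀ * h⁻¹) * h := by group
          _ = e₀ * h := by rw [hyeq]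
      have hhE : h ∈ E := hcent (by
        rw [Subgroup.mem_centralizer_iff]
        intro b hb
        exact ((hspan h hc0 hhQ) b hb).symm.eq)
      exact hCEQ h hhE hhQ
    · rw [h1] at hyeq
      have hc0 : Commute (u * h) e₀ := by
        have s1 : SemiconjBy h e₀ (e₀ * z) := by
          show h * e₀ = e₀ * z * h
          calc h * e₀ = (h * e₀ * h⁻¹) * h := by group
            _ = e₀ * z * h := by rw [hyeq]
        have s3 : SemiconjBy u (e₀ * z) (z * e₀ * z) := SemiconjBy.mul_right s2 hzQ.symm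
        have s4 := s3.mul_left s1
        have h2 : z * e₀ * z = e₀ := by rw [(hzc e₀ he₀E).eq, mul_assoc, hzz, mul_one]
        rw [h2] at s4
        exact s4
      have hcQ : ∀ m ∈ E, Commute m u → Commute (u * h) m :=
        fun m hm hmu => hmu.symm.mul_left (hhQ m hm hmu)
      have huhE : u * h ∈ E := hcent (by
        rw [Subgroup.mem_centralizer_iff]
        intro b hb
        exact ((hspan (u * h) hc0 hcQ) b hb).symm.eq)
      have hhE : h ∈ E := by
        have h2 : h = u⁻¹ * (u * h) := by group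
        rw [h2]; exact E.mul_mem (E.inv_mem huE) huhE
      exact hCEQ h hhE hhQ
    · exfalso
      rw [h1] at hyeq
      exact hsqcase u huu s2 hyeq
    · exfalso
      rw [h1] at hyeq
      refine hsqcase (u * z) ?_ ?_ hyeq
      · calc u * z * (u * z) = u * (z * u) * z := by group
          _ = u * (u * z) * z := by rw [hzQ.eq]
          _ = (u * u) * (z * z) := by group
          _ = 1 := by rw [huu, hzz, one_mul]
      · exact s2.mul_left (hzc e₀ he₀E)
  rcases hCHQ _ hz'H hz'Q with h | h | h | h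
  · exact hz'1 h
  · exact hz'ne h
  · apply hxuK
    have h1 : x⁻¹ * u * x = z := by rw [← h]; group
    rw [h1]; exact hzK
  · apply hxuK
    have h5 : x⁻¹ * z * x ∈ K := by
      have h6 : x⁻¹ * z * x =
          (x⁻¹ * m₁ * x) * (x⁻¹ * m₂ * x) * (x⁻¹ * m₁ * x)⁻¹ * (x⁻¹ * m₂ * x)⁻¹ := by
        calc x⁻¹ * z * x = x⁻¹ * (m₁ * m₂ * m₁⁻¹ * m₂⁻¹) * x := by rw [← hzcomm]
          _ = _ := by group
      rw [h6]
      exact comm_mem_of_relIndex_two H K hKi (hxQ' m₁ hm₁E hm₁u) (hxQ' m₂ hm₂E hm₂u)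
    have hu_eq : u = x * z * x⁻¹ * z := by rw [h, mul_assoc, hzz, mul_one]
    have h7 : x⁻¹ * u * x = z * (x⁻¹ * z * x)⁻¹ := by
      have hzi : z⁻¹ = z := inv_eq_of_mul_eq_one_left hzz
      calc x⁻¹ * u * x = x⁻¹ * (x * z * x⁻¹ * z) * x := by rw [← hu_eq]
        _ = z * (x⁻¹ * z⁻¹ * x)⁻¹ := by group
        _ = z * (x⁻¹ * z * x)⁻¹ := by rw [hzi]
    rw [h7]; exact K.mul_mem hzK (K.inv_mem h5)

end Cfsg.Agent.H26.LES
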