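import Mathlib
import Cfsg.Agent.H64.MgDefs

/-!
# S3620 team project (helper64), piece MG-A3: a primitive group containing a 3-cycle
induces all even permutations.
-/

set_option autoImplicit false
open scoped Pointwise
open MulAction

namespace Cfsg.Agent.H26.Mg

universe u v

open Cfsg.Agent.H64.Mg in
theorem a3 : A3Stmt.{u, v} := by
  intro M α _ _ _ _ hprim ⟨g, hg⟩ σ hσ
  let φ : M →* Equiv.Perm α := MulAction.toPermHom M α
  let G : Subgroup (Equiv.Perm α) := φ.range
  let f : α →ₑ[(φ.rangeRestrict : M → G)] α :=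
    { toFun := id
      map_smul' := fun m a => rfl }
  have hsurj : Function.Surjective f := fun a => ⟨a, rfl⟩
  have hG : IsPreprimitive G α := IsPreprimitive.of_surjective (f := f) hsurj
  have hmem : (MulAction.toPerm g : Equiv.Perm α) ∈ G := ⟨g, rfl⟩
  have hle := Equiv.Perm.alternatingGroup_le_of_isPreprimitive_of_isThreeCycle_mem hG hg hmem
  have hσG : σ ∈ G := hle (Equiv.Perm.mem_alternatingGroup.mpr hσ)
  obtain ⟨m, hm⟩ := hσG
  refine ⟨m, fun z => ?_⟩
  rw [← hm]
  rfl

example : Cfsg.Agent.H64.Mg.A3Stmt.{u, v} := a3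

end Cfsg.Agent.H26.Mg
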