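import Mathlib
import Cfsg.Agent.H64.MgDefs

/-!
# S3620 team project (helper64), piece MG-QPA: a transitive, quasiprimitive, imprimitive
action has a primitive quotient on which the group is still faithful.
-/

set_option autoImplicit false
open scoped Pointwise
open MulAction

namespace Cfsg.Agent.H26.Mg

universe u v

open Cfsg.Agent.H64.Mg in
theorem qpa : QPAStmt.{u, v} := by
  intro G Ω _ _ _ _ _ _ hqp htr hnp
  classical
  -- Ω is nontrivial
  have hnt : Nontrivial Ω := by
    by_contra hcon
    rw [not_nontrivial_iff_subsingleton] at hcon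
    exact hnp IsPreprimitive.of_subsingleton
  obtain ⟨a, a', haa'⟩ := hnt
  have hnt : Nontrivial Ω := ⟨a, a', haa'⟩
  -- the stabilizer is not a coatom, and is not ⊤
  have hnc : ¬ IsCoatom (stabilizer G a) := fun h =>
    hnp ((isCoatom_stabilizer_iff_preprimitive G a).mp h)
  have hntop : stabilizer G a ≠ ⊤ := by
    intro h
    obtain ⟨g, hg⟩ := exists_smul_eq G a a'
    have : g ∈ stabilizer G a := by rw [h]; trivial
    exact haa' (this.symm.trans hg)
  obtain ⟨H, hH, hle⟩ := (eq_top_or_exists_le_coatom (stabilizer G a)).resolve_left hntop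
  have hHne : stabilizer G a ≠ H := fun h => hnc (h ▸ hH)
  -- the map
  have hex : ∀ x : Ω, ∃ g : G, g • a = x := fun x => exists_smul_eq G a x
  let π : Ω → G ⧸ H := fun x => QuotientGroup.mk (Classical.choose (hex x))
  have hπ : ∀ (g : G) (x : Ω), g • a = x → π x = QuotientGroup.mk g := by
    intro g x hg
    have h1 : (Classical.choose (hex x)) • a = x := Classical.choose_spec (hex x)
    change (QuotientGroup.mk (Classical.choose (hex x)) : G ⧸ H) = QuotientGroup.mk g
    rw [QuotientGroup.eq]
    apply hle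
    rw [mem_stabilizer_iff, mul_smul, hg, inv_smul_eq_iff]
    exact h1.symm
  refine ⟨G ⧸ H, Fintype.ofFinite _, Classical.decEq _, inferInstance, π, ?_, ?_, ?_, ?_, ?_⟩
  · intro g x
    obtain ⟨k, hk⟩ := hex x
    rw [hπ k x hk, hπ (g * k) (g • x) (by rw [mul_smul, hk])]
    rfl
  · intro b
    induction b using QuotientGroup.induction_on with
    | H g => exact ⟨g • a, hπ g _ rfl⟩
  · intro hinj
    have hlt : stabilizer G a < H := lt_of_le_of_ne hle hHne
    obtain ⟨h, hhH, hhS⟩ := SetLike.exists_of_lt hlt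
    have h1 : π (h • a) = π a := by
      rw [hπ h _ rfl, hπ 1 a (one_smul _ _), QuotientGroup.eq]
      simpa using hhH
    exact hhS (hinj h1)
  · have hntq : Nontrivial (G ⧸ H) := QuotientGroup.nontrivial_iff.mpr hH.1
    exact (isCoatom_stabilizer_iff_preprimitive G (X := G ⧸ H)
      ((1 : G) : G ⧸ H)).mp (by rw [stabilizer_quotient]; exact hH)
  · intro g hg
    let K : Subgroup G := (MulAction.toPermHom G (G ⧸ H)).ker
    have hKn : K.Normal := MonoidHom.normal_ker _
    have hgK : g ∈ K := by
      rw [MonoidHom.mem_ker]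
      ext b
      simpa using hg b
    have hKH : K ≤ H := by
      intro k hk
      rw [MonoidHom.mem_ker] at hk
      have h1 : k • ((1 : G) : G ⧸ H) = ((1 : G) : G ⧸ H) := by
        have := congrArg (fun σ : Equiv.Perm (G ⧸ H) => σ ((1 : G) : G ⧸ H)) hk
        simpa using this
      have h2 : k ∈ stabilizer G ((1 : G) : G ⧸ H) := h1
      rwa [stabilizer_quotient] at h2
    by_contra hg1
    have hKne : K ≠ ⊥ := fun h => hg1 (by rw [h] at hgK; exact Subgroup.mem_bot.mp hgK)
    have hKt : IsPretransitive ↥K Ω := hqp K hKn hKne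
    apply hH.1
    rw [eq_top_iff]
    intro x _
    obtain ⟨k, hk⟩ := hKt.exists_smul_eq a (x • a)
    have hk' : (k : G) • a = x • a := hk
    have h3 : (k : G)⁻¹ * x ∈ stabilizer G a := by
      rw [mem_stabilizer_iff, mul_smul, ← hk', inv_smul_smul]
    have h4 : (k : G)⁻¹ * x ∈ H := hle h3
    have h5 : (k : G) * ((k : G)⁻¹ * x) ∈ H := H.mul_mem (hKH k.2) h4
    simpa using h5

example : Cfsg.Agent.H64.Mg.QPAStmt.{u, v} := qpa

end Cfsg.Agent.H26.Mg
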