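import Mathlib
import Cfsg.Agent.H26.P2Defs
import Cfsg.Agent.S2202
import Cfsg.Agent.H16.FTBChar

/-!
# S4705: the two assemblies (helper26)

* `hyp`: Part 0, building `Hyp` from LIB, TW, SCAL, ZREG, EXS.
* `main`: the theorem from all the pieces.
-/

set_option autoImplicit false

namespace Cfsg.Agent.H26.P2

open Cfsg
open scoped ComplexConjugate

universe u

/-- Part 0: the twisted character and its standing hypotheses. -/
theorem hyp (hLib : StLib.{u}) (hTw : StTw.{u}) (hScal : StScal.{u}) (hZReg : StZReg.{u})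
    (hExS : StExS.{u})
    {G : Type u} [Group G] [Finite G] (p : ℕ) [Fact p.Prime] (hp : 5 < p) (P : Sylow p G)
    (hP : Nat.card (P : Subgroup G) = p) (hnn : ¬ (P : Subgroup G).Normal) (ζ : G → ℂ)
    (hζ : IsIrrCharacter G ζ) (hfaith : ∀ g : G, ζ g = ζ 1 → g = 1)
    (hdeg : charDegree ζ + 2 = p) :
    ∃ (χ : G → ℂ) (μ : ↥(P : Subgroup G) →* ℂˣ) (s : ℕ), Hyp p P χ μ s := by
  classical
  have : Fintype G := Fintype.ofFinite G
  have hpp : p.Prime := Fact.out
  obtain ⟨hcen, hnor, μ, hμ, hval⟩ := hLib p P hp hP hnn ζ hζ hfaith hdeg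
  have hpodd : Odd p := hpp.odd_of_ne_two (by omega)
  have hdodd : Odd (charDegree ζ) := by
    obtain ⟨k, hk⟩ := hpodd
    exact ⟨k - 1, by omega⟩
  obtain ⟨β, hβ1, hβ2⟩ := hTw ζ hζ p hpodd hdodd
  obtain ⟨s, hs1, hs2, hs3⟩ := hExS (G := G) p (by omega)
  have hβnorm : ∀ g : G, ((β g : ℂˣ) : ℂ) * conj ((β g : ℂˣ) : ℂ) = 1 := by
    intro g
    have h1 : ((β g : ℂˣ) : ℂ) ^ orderOf g = 1 := by
      rw [← Units.val_pow_eq_pow_val, ← map_pow, pow_orderOf_eq_one, map_one, Units.val_one]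
    have h2 : ‖((β g : ℂˣ) : ℂ)‖ = 1 := by
      have h5 : ‖((β g : ℂˣ) : ℂ)‖ ^ orderOf g = 1 := by rw [← norm_pow, h1, norm_one]
      exact (pow_eq_one_iff_of_nonneg (norm_nonneg _) (orderOf_pos g).ne').mp h5
    rw [Complex.mul_conj, Complex.normSq_eq_norm_sq, h2]
    simp
  have hβone : ((β 1 : ℂˣ) : ℂ) = 1 := by rw [map_one, Units.val_one]
  refine ⟨fun g => ζ g * ((β g : ℂˣ) : ℂ), μ, s, ?_⟩
  exact
    { hp5 := hp
      cardP := hP
      irr := Cfsg.Agent.H16.isIrrCharacter_mul_hom hζ β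
      deg := by
        have h1 : charDegree (fun g => ζ g * ((β g : ℂˣ) : ℂ)) = charDegree ζ := by
          unfold charDegree
          have h0 : (fun g => ζ g * ((β g : ℂˣ) : ℂ)) 1 = ζ 1 := by
            show ζ 1 * ((β 1 : ℂˣ) : ℂ) = ζ 1
            rw [hβone, mul_one]
          rw [h0]
        rw [h1]
        exact hdeg
      cen := hcen
      nor := hnor
      zreg := hZReg p P hP hnn
      μne := hμ
      val := by
        intro x hx
        have hxp : (x : G) ^ p = 1 := by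
          have h1 : x ^ Nat.card ↥(P : Subgroup G) = 1 := pow_card_eq_one'
          rw [hP] at h1
          have h2 := congrArg (Subtype.val) h1
          simpa using h2
        show ζ (x : G) * ((β (x : G) : ℂˣ) : ℂ) = _
        rw [hβ1 _ hxp, Units.val_one, mul_one]
        exact hval x hx
      scal := by
        intro g hg
        apply hScal ζ hζ hfaith g
        have h1 : (ζ g * ((β g : ℂˣ) : ℂ)) * conj (ζ g * ((β g : ℂˣ) : ℂ)) = ζ 1 * ζ 1 := by
          have h2 := hg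
          simp only [hβone, mul_one] at h2
          exact h2
        rw [map_mul] at h1
        calc ζ g * conj (ζ g)
            = ζ g * conj (ζ g) * (((β g : ℂˣ) : ℂ) * conj ((β g : ℂˣ) : ℂ)) := by
              rw [hβnorm, mul_one]
          _ = ζ g * ((β g : ℂˣ) : ℂ) * (conj (ζ g) * conj ((β g : ℂˣ) : ℂ)) := by ring
          _ = ζ 1 * ζ 1 := h1
      two := by
        intro z hz i hzi
        show ζ z * ((β z : ℂˣ) : ℂ) = ζ 1 * ((β 1 : ℂˣ) : ℂ)
        rw [hβ2 z hz i hzi, hβone, mul_one]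
      sCop := hs1
      sOdd := hs2
      sTwo := hs3 }

/-- S4705 from the pieces. -/
theorem main (hLib : StLib.{u}) (hTw : StTw.{u}) (hScal : StScal.{u}) (hZReg : StZReg.{u})
    (hExS : StExS.{u}) (hKey : StKey.{u}) (hOdd : StOdd.{u}) (hTwo : StTwo.{u})
    (hMix : StMix.{u}) (hPW : StPW.{u}) (hSing : StSing.{u}) (hMom : StMom.{u})
    (hQCent : StQCent.{u}) (hQExp : StQExp.{u}) (hQAb : StQAb.{u}) (hQEven : StQEven.{u})
    (hQNC : StQNC.{u}) (hQNN : StQNN.{u}) (hQProd : StQProd.{u}) (hPQ : StPQ.{u})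
    (hSplit : StSplit.{u})
    {G : Type u} [Group G] [Finite G] (p : ℕ) [Fact p.Prime] (hp : 5 < p) (P : Sylow p G)
    (hP : Nat.card P = p) (hnn : ¬ (P : Subgroup G).Normal) (ζ : G → ℂ)
    (hζ : IsIrrCharacter G ζ) (hfaith : ∀ g : G, ζ g = ζ 1 → g = 1)
    (hdeg : charDegree ζ = p - 2) :
    ∃ (a : ℕ) (F : Type) (_ : Field F) (_ : Fintype F), p = 2 ^ a + 1 ∧
      Fintype.card F = 2 ^ a ∧
      Nonempty (G ≃* Matrix.SpecialLinearGroup (Fin 2) F × Subgroup.center G) := by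
  classical
  have hdeg' : charDegree ζ + 2 = p := by omega
  obtain ⟨χ, μ, s, H⟩ := hyp hLib hTw hScal hZReg hExS p hp P hP hnn ζ hζ hfaith hdeg'
  have hE1 := hKey p P χ μ s H
  have hOddC := hOdd p P χ μ s H hE1
  obtain ⟨hTwoA, hTwoB⟩ := hTwo p P χ μ s H hE1
  have hMixC := hMix p P χ μ s H hE1 hOddC hTwoA hTwoB
  obtain ⟨hPwA, hPwB⟩ := hPW p P χ μ s H hOddC hTwoA hTwoB hMixC
  have hSingC := hSing p P H.cardP H.cen H.nor H.zreg
  have hMomC := hMom p P χ μ s H hSingC hPwA hPwB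
  have hQCentC := hQCent p P χ μ s H
  have hQExpC := hQExp p P χ μ s H hTwoB hMixC
  have hab := hQAb hQExpC
  have heven := hQEven p P χ μ s H
  have hnc := hQNC p P χ μ s H hTwoB hQExpC hMomC
  have hnn' := hQNN p P χ μ s H
  rcases Cfsg.Agent.S2202.result heven hab with h1 | h2 | ⟨F, _, _, A, _, _, hchar, -, ⟨e⟩⟩
  · exact absurd h1 hnc
  · exact absurd h2 hnn'
  · have hZ1 : ∀ h ∈ Subgroup.center (G ⧸ Subgroup.center G), h = 1 := by
      intro h hh
      obtain ⟨g, rfl⟩ := QuotientGroup.mk_surjective h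
      rw [QuotientGroup.eq_one_iff]
      apply hQCentC g
      intro k
      rw [← QuotientGroup.eq_one_iff]
      rw [Subgroup.mem_center_iff] at hh
      have h3 := hh (k : G ⧸ Subgroup.center G)
      have h4 : ((g * k * g⁻¹ * k⁻¹ : G) : G ⧸ Subgroup.center G)
          = (g : G ⧸ Subgroup.center G) * (k : G ⧸ Subgroup.center G)
            * (g : G ⧸ Subgroup.center G)⁻¹ * (k : G ⧸ Subgroup.center G)⁻¹ := rfl
      rw [h4, ← h3]
      group
    obtain ⟨e'⟩ := hQProd (G ⧸ Subgroup.center G) F A hZ1 e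
    have hpq := hPQ p hp hMomC F hchar e'
    have := hchar
    obtain ⟨n, -, hn⟩ := FiniteField.card F 2
    refine ⟨n, F, inferInstance, inferInstance, ?_, hn, ?_⟩
    · rw [hpq, hn]
    · exact hSplit ζ hζ hfaith F hchar e' (by omega) (by omega)

end Cfsg.Agent.H26.P2
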