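import Mathlib
import Cfsg.Agent.S0732
import Cfsg.Agent.H73.OrdTools

/-!
# helper26: pieces of S0983 (orders 3641..6232), group (a)

Orders `N = (p + 1) p d` with `d < p` where Sylow counting forces `n_p = p + 1`: the group is then
a transitive group of degree `p + 1`, and S0732 forces `d = p - 1`, `2 d = p - 1` or
`p + 1 = 2 ^ q`.  Orders: 4284, 4560, 5220, 5520, 5700, 5724.
-/

set_option autoImplicit false
set_option linter.style.haveILetI false

namespace Cfsg.Agent.H26.R3641

open Subgroup

/-- A simple group of order `(p + 1) * p * d`, `d < p`, `d ≠ p - 1`, `2 d ≠ p - 1`, `p + 1` not a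
power of two, does not have exactly `p + 1` Sylow `p`-subgroups. -/
theorem no_simple_deg_succ {G : Type*} [Group G] [Finite G] [IsSimpleGroup G] (p d : ℕ)
    [hp : Fact p.Prime]
    (hd : d < p) (hd1 : d ≠ p - 1) (hd2 : 2 * d ≠ p - 1) (hpow : ∀ q : ℕ, q ≤ p → p + 1 ≠ 2 ^ q)
    (h : Nat.card G = (p + 1) * p * d) (hn : Nat.card (Sylow p G) = p + 1) : False := by
  classical
  letI : Fintype (Sylow p G) := Fintype.ofFinite _
  have hα : Fintype.card (Sylow p G) = p + 1 := by
    rw [← Nat.card_eq_fintype_card, hn]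
  let φ : G →* Equiv.Perm (Sylow p G) := MulAction.toPermHom G (Sylow p G)
  have hker : φ.ker = ⊥ := by
    rcases IsSimpleGroup.eq_bot_or_eq_top_of_normal φ.ker inferInstance with hb | ht
    · exact hb
    · exfalso
      have htriv : ∀ (g : G) (P : Sylow p G), g • P = P := by
        intro g P
        have hg : g ∈ φ.ker := ht ▸ mem_top g
        have h1 : φ g = 1 := hg
        have h2 : φ g P = P := by rw [h1]; rfl
        exact h2
      have hsub : Subsingleton (Sylow p G) := by
        refine ⟨fun P Q => ?_⟩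
        obtain ⟨g, hg⟩ := MulAction.exists_smul_eq G P Q
        rw [← hg, htriv]
      have : Nat.card (Sylow p G) ≤ 1 := Finite.card_le_one_iff_subsingleton.mpr hsub
      have := hp.out.two_le
      omega
  have hinj : Function.Injective φ := (MonoidHom.ker_eq_bot_iff φ).mp hker
  have hcard : Nat.card φ.range = (p + 1) * p * d := by
    rw [← h]
    exact (Nat.card_congr (MonoidHom.ofInjective hinj).toEquiv).symm
  haveI : MulAction.IsPretransitive (↥φ.range) (Sylow p G) := by
    refine ⟨fun a b => ?_⟩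
    obtain ⟨g, hg⟩ := MulAction.exists_smul_eq G a b
    exact ⟨⟨φ g, g, rfl⟩, hg⟩
  rcases Cfsg.Agent.S0732.result (p := p) (d := d) hp.out hα φ.range hcard hd with
    ⟨h1, _⟩ | ⟨h1, _⟩ | ⟨q, _, h2, _⟩
  · exact hd1 h1
  · exact hd2 h1
  · refine hpow q ?_ h2
    have := Nat.lt_two_pow_self (n := q)
    omega

theorem no_simple_4284 {G : Type*} [Group G] [Finite G] [IsSimpleGroup G]
    (h : Nat.card G = 4284) : False := by
  have hnp : ¬ (Nat.card G).Prime := by rw [h]; norm_num
  have hG : ¬ IsMulCommutative G := Cfsg.Agent.H21.not_comm_of_not_prime hnp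
  haveI : Fact (Nat.Prime 17) := ⟨by norm_num⟩
  obtain ⟨P⟩ : Nonempty (Sylow 17 G) := inferInstance
  obtain ⟨-, n, d, cN, cC, hn, -, -, hnm, -, hmod, hle, -, -, -, -⟩ :=
    Cfsg.Agent.H73.OrdTools.pack hG 4284 h 17 252 2 (by norm_num) (by norm_num) (by norm_num)
      (by norm_num) P
  have hn18 : n = 18 :=
    (by decide +kernel : ∀ n ∈ Nat.divisors 252, n % 17 = 1 → 2 ≤ n → n = 18) n hnm hmod hle
  refine no_simple_deg_succ (G := G) 17 14 (by norm_num) (by norm_num) (by norm_num) ?_
    (by rw [h]) (by rw [← hn, hn18])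
  intro q hq
  interval_cases q <;> norm_num

theorem no_simple_4560 {G : Type*} [Group G] [Finite G] [IsSimpleGroup G]
    (h : Nat.card G = 4560) : False := by
  have hnp : ¬ (Nat.card G).Prime := by rw [h]; norm_num
  have hG : ¬ IsMulCommutative G := Cfsg.Agent.H21.not_comm_of_not_prime hnp
  haveI : Fact (Nat.Prime 19) := ⟨by norm_num⟩
  obtain ⟨P⟩ : Nonempty (Sylow 19 G) := inferInstance
  obtain ⟨-, n, d, cN, cC, hn, -, -, hnm, -, hmod, hle, -, -, -, -⟩ :=
    Cfsg.Agent.H73.OrdTools.pack hG 4560 h 19 240 2 (by norm_num) (by norm_num) (by norm_num)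
      (by norm_num) P
  have hn18 : n = 20 :=
    (by decide +kernel : ∀ n ∈ Nat.divisors 240, n % 19 = 1 → 2 ≤ n → n = 20) n hnm hmod hle
  refine no_simple_deg_succ (G := G) 19 12 (by norm_num) (by norm_num) (by norm_num) ?_
    (by rw [h]) (by rw [← hn, hn18])
  intro q hq
  interval_cases q <;> norm_num

theorem no_simple_5220 {G : Type*} [Group G] [Finite G] [IsSimpleGroup G]
    (h : Nat.card G = 5220) : False := by
  have hnp : ¬ (Nat.card G).Prime := by rw [h]; norm_num
  have hG : ¬ IsMulCommutative G := Cfsg.Agent.H21.not_comm_of_not_prime hnp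
  haveI : Fact (Nat.Prime 29) := ⟨by norm_num⟩
  obtain ⟨P⟩ : Nonempty (Sylow 29 G) := inferInstance
  obtain ⟨-, n, d, cN, cC, hn, -, -, hnm, -, hmod, hle, -, -, -, -⟩ :=
    Cfsg.Agent.H73.OrdTools.pack hG 5220 h 29 180 2 (by norm_num) (by norm_num) (by norm_num)
      (by norm_num) P
  have hn18 : n = 30 :=
    (by decide +kernel : ∀ n ∈ Nat.divisors 180, n % 29 = 1 → 2 ≤ n → n = 30) n hnm hmod hle
  refine no_simple_deg_succ (G := G) 29 6 (by norm_num) (by norm_num) (by norm_num) ?_
    (by rw [h]) (by rw [← hn, hn18])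
  intro q hq
  interval_cases q <;> norm_num

theorem no_simple_5520 {G : Type*} [Group G] [Finite G] [IsSimpleGroup G]
    (h : Nat.card G = 5520) : False := by
  have hnp : ¬ (Nat.card G).Prime := by rw [h]; norm_num
  have hG : ¬ IsMulCommutative G := Cfsg.Agent.H21.not_comm_of_not_prime hnp
  haveI : Fact (Nat.Prime 23) := ⟨by norm_num⟩
  obtain ⟨P⟩ : Nonempty (Sylow 23 G) := inferInstance
  obtain ⟨-, n, d, cN, cC, hn, -, -, hnm, -, hmod, hle, -, -, -, -⟩ :=
    Cfsg.Agent.H73.OrdTools.pack hG 5520 h 23 240 2 (by norm_num) (by norm_num) (by norm_num)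
      (by norm_num) P
  have hn18 : n = 24 :=
    (by decide +kernel : ∀ n ∈ Nat.divisors 240, n % 23 = 1 → 2 ≤ n → n = 24) n hnm hmod hle
  refine no_simple_deg_succ (G := G) 23 10 (by norm_num) (by norm_num) (by norm_num) ?_
    (by rw [h]) (by rw [← hn, hn18])
  intro q hq
  interval_cases q <;> norm_num

theorem no_simple_5700 {G : Type*} [Group G] [Finite G] [IsSimpleGroup G]
    (h : Nat.card G = 5700) : False := by
  have hnp : ¬ (Nat.card G).Prime := by rw [h]; norm_num
  have hG : ¬ IsMulCommutative G := Cfsg.Agent.H21.not_comm_of_not_prime hnp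
  haveI : Fact (Nat.Prime 19) := ⟨by norm_num⟩
  obtain ⟨P⟩ : Nonempty (Sylow 19 G) := inferInstance
  obtain ⟨-, n, d, cN, cC, hn, -, -, hnm, -, hmod, hle, -, -, -, -⟩ :=
    Cfsg.Agent.H73.OrdTools.pack hG 5700 h 19 300 2 (by norm_num) (by norm_num) (by norm_num)
      (by norm_num) P
  have hn18 : n = 20 :=
    (by decide +kernel : ∀ n ∈ Nat.divisors 300, n % 19 = 1 → 2 ≤ n → n = 20) n hnm hmod hle
  refine no_simple_deg_succ (G := G) 19 15 (by norm_num) (by norm_num) (by norm_num) ?_
    (by rw [h]) (by rw [← hn, hn18])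
  intro q hq
  interval_cases q <;> norm_num

theorem no_simple_5724 {G : Type*} [Group G] [Finite G] [IsSimpleGroup G]
    (h : Nat.card G = 5724) : False := by
  have hnp : ¬ (Nat.card G).Prime := by rw [h]; norm_num
  have hG : ¬ IsMulCommutative G := Cfsg.Agent.H21.not_comm_of_not_prime hnp
  haveI : Fact (Nat.Prime 53) := ⟨by norm_num⟩
  obtain ⟨P⟩ : Nonempty (Sylow 53 G) := inferInstance
  obtain ⟨-, n, d, cN, cC, hn, -, -, hnm, -, hmod, hle, -, -, -, -⟩ :=
    Cfsg.Agent.H73.OrdTools.pack hG 5724 h 53 108 2 (by norm_num) (by norm_num) (by norm_num)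
      (by norm_num) P
  have hn18 : n = 54 :=
    (by decide +kernel : ∀ n ∈ Nat.divisors 108, n % 53 = 1 → 2 ≤ n → n = 54) n hnm hmod hle
  refine no_simple_deg_succ (G := G) 53 2 (by norm_num) (by norm_num) (by norm_num) ?_
    (by rw [h]) (by rw [← hn, hn18])
  intro q hq
  interval_cases q <;> norm_num

/-- The six orders of group (a). -/
theorem no_simple_a {G : Type*} [Group G] [Finite G] [IsSimpleGroup G]
    (h : Nat.card G ∈ ([4284, 4560, 5220, 5520, 5700, 5724] : List ℕ)) : False := by
  simp only [List.mem_cons, List.not_mem_nil, or_false] at h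
  rcases h with h | h | h | h | h | h
  · exact no_simple_4284 h
  · exact no_simple_4560 h
  · exact no_simple_5220 h
  · exact no_simple_5520 h
  · exact no_simple_5700 h
  · exact no_simple_5724 h

end Cfsg.Agent.H26.R3641
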