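import Mathlib
import Cfsg.Agent.H73.OrdTools
import Cfsg.Agent.H11.SmallSimple

/-!
# helper26: pieces of S0983 (orders 3641..6232), group (b)

Elementary cross-prime Sylow arguments for the orders 5236, 6120, 5544, 6160, 3696, and the
self-normalizing abelian Sylow 5-subgroup for 4900.
-/

set_option autoImplicit false
set_option linter.style.haveILetI false

namespace Cfsg.Agent.H26.R3641

open Subgroup Cfsg.Agent.H21 Cfsg.Agent.H73.OrdTools

theorem no_simple_5236 {G : Type*} [Group G] [Finite G] [IsSimpleGroup G]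
    (h : Nat.card G = 5236) : False := by
  have hnp : ¬ (Nat.card G).Prime := by rw [h]; norm_num
  have hG : ¬ IsMulCommutative G := not_comm_of_not_prime hnp
  have : Fact (Nat.Prime 17) := ⟨by norm_num⟩
  have : Fact (Nat.Prime 7) := ⟨by norm_num⟩
  have h17p : Nat.Prime 17 := by norm_num
  obtain ⟨P17⟩ : Nonempty (Sylow 17 G) := inferInstance
  obtain ⟨P7⟩ : Nonempty (Sylow 7 G) := inferInstance
  obtain ⟨hc17, n17, d17, cN17, cC17, hn17, hcN17, hcC17, hnm17, hdm17, hmod17, hle17, hd17,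
    hdiv17, hN17, hC17⟩ := pack hG 5236 h 17 308 17 (by norm_num) (by norm_num) h17p
      (by norm_num) P17
  obtain ⟨hc7, n7, d7, cN7, cC7, hn7, hcN7, hcC7, hnm7, hdm7, hmod7, hle7, hd7,
    hdiv7, hN7, hC7⟩ := pack hG 5236 h 7 748 17 (by norm_num) (by norm_num) h17p
      (by norm_num) P7
  have k17 := (by decide +kernel : ∀ n ∈ Nat.divisors 308, ∀ d ∈ Nat.divisors 16, n % 17 = 1 →
    17 ≤ n → d ≠ 1 → 17 * d * n ∣ 5236 → n = 154 ∧ d = 2) n17 hnm17 d17 hdm17 hmod17 hle17 hd17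
    hdiv17
  have k7 := (by decide +kernel : ∀ n ∈ Nat.divisors 748, ∀ d ∈ Nat.divisors 6, n % 7 = 1 →
    17 ≤ n → d ≠ 1 → 7 * d * n ∣ 5236 → n = 22 ∧ d = 2) n7 hnm7 d7 hdm7 hmod7 hle7 hd7 hdiv7
  obtain ⟨rfl, rfl⟩ := k17
  obtain ⟨rfl, rfl⟩ := k7
  have h1 : 17 ∣ cC7 := by omega
  have h2 : 7 ∣ cN17 := by
    rw [hcN17]; exact f3 7 17 P7 hc7 P17 hc17 (by rw [← hcC7]; exact h1)
  omega

theorem no_simple_6120 {G : Type*} [Group G] [Finite G] [IsSimpleGroup G]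
    (h : Nat.card G = 6120) : False := by
  have hnp : ¬ (Nat.card G).Prime := by rw [h]; norm_num
  have hG : ¬ IsMulCommutative G := not_comm_of_not_prime hnp
  have : Fact (Nat.Prime 17) := ⟨by norm_num⟩
  have : Fact (Nat.Prime 5) := ⟨by norm_num⟩
  have h17p : Nat.Prime 17 := by norm_num
  obtain ⟨P17⟩ : Nonempty (Sylow 17 G) := inferInstance
  obtain ⟨P5⟩ : Nonempty (Sylow 5 G) := inferInstance
  obtain ⟨hc17, n17, d17, cN17, cC17, hn17, hcN17, hcC17, hnm17, hdm17, hmod17, hle17, hd17,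
    hdiv17, hN17, hC17⟩ := pack hG 6120 h 17 360 17 (by norm_num) (by norm_num) h17p
      (by norm_num) P17
  obtain ⟨hc5, n5, d5, cN5, cC5, hn5, hcN5, hcC5, hnm5, hdm5, hmod5, hle5, hd5,
    hdiv5, hN5, hC5⟩ := pack hG 6120 h 5 1224 17 (by norm_num) (by norm_num) h17p
      (by norm_num) P5
  have k17 := (by decide +kernel : ∀ n ∈ Nat.divisors 360, ∀ d ∈ Nat.divisors 16, n % 17 = 1 →
    17 ≤ n → d ≠ 1 → 17 * d * n ∣ 6120 → n = 18 ∧ (d = 2 ∨ d = 4)) n17 hnm17 d17 hdm17 hmod17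
    hle17 hd17 hdiv17
  have k5 := (by decide +kernel : ∀ n ∈ Nat.divisors 1224, ∀ d ∈ Nat.divisors 4, n % 5 = 1 →
    17 ≤ n → d ≠ 1 → 5 * d * n ∣ 6120 → n = 36 ∨ n = 51 ∨ n = 306) n5 hnm5 d5 hdm5 hmod5 hle5 hd5
    hdiv5
  obtain ⟨rfl, hd⟩ := k17
  have hcN : cN17 = 340 := by omega
  have hcC : cC17 = 170 ∨ cC17 = 85 := by rcases hd with rfl | rfl <;> omega
  have hf4 : cN17 ∣ cN5 := by
    rw [hcN17, hcN5]
    refine (f4 17 5 (by norm_num) P17 hc17 P5 hc5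
      (by rw [← hcC17]; rcases hcC with hh | hh <;> rw [hh] <;> norm_num) ?_).1
    rw [← hcC17]
    intro d hd hm
    rcases hcC with hh | hh
    · rw [hh] at hd
      exact (by decide : ∀ d ∈ Nat.divisors 2, d % 5 = 1 → d = 1) d
        (Nat.mem_divisors.2 ⟨hd, by norm_num⟩) hm
    · rw [hh] at hd
      exact (by decide : ∀ d ∈ Nat.divisors 1, d % 5 = 1 → d = 1) d
        (Nat.mem_divisors.2 ⟨hd, by norm_num⟩) hm
  rw [hcN] at hf4
  rcases k5 with rfl | rfl | rfl <;> omega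

theorem no_simple_5544 {G : Type*} [Group G] [Finite G] [IsSimpleGroup G]
    (h : Nat.card G = 5544) : False := by
  have hnp : ¬ (Nat.card G).Prime := by rw [h]; norm_num
  have hG : ¬ IsMulCommutative G := not_comm_of_not_prime hnp
  have : Fact (Nat.Prime 11) := ⟨by norm_num⟩
  have : Fact (Nat.Prime 7) := ⟨by norm_num⟩
  have h11p : Nat.Prime 11 := by norm_num
  obtain ⟨P11⟩ : Nonempty (Sylow 11 G) := inferInstance
  obtain ⟨P7⟩ : Nonempty (Sylow 7 G) := inferInstance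
  obtain ⟨hc11, n11, d11, cN11, cC11, hn11, hcN11, hcC11, hnm11, hdm11, hmod11, hle11, hd11,
    hdiv11, hN11, hC11⟩ := pack hG 5544 h 11 504 11 (by norm_num) (by norm_num) h11p
      (by norm_num) P11
  obtain ⟨hc7, n7, d7, cN7, cC7, hn7, hcN7, hcC7, hnm7, hdm7, hmod7, hle7, hd7,
    hdiv7, hN7, hC7⟩ := pack hG 5544 h 7 792 11 (by norm_num) (by norm_num) h11p
      (by norm_num) P7
  have k11 := (by decide +kernel : ∀ n ∈ Nat.divisors 504, ∀ d ∈ Nat.divisors 10, n % 11 = 1 →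
    11 ≤ n → d ≠ 1 → 11 * d * n ∣ 5544 → n = 12 ∧ d = 2) n11 hnm11 d11 hdm11 hmod11
    hle11 hd11 hdiv11
  have k7 := (by decide +kernel : ∀ n ∈ Nat.divisors 792, ∀ d ∈ Nat.divisors 6, n % 7 = 1 →
    11 ≤ n → d ≠ 1 → 7 * d * n ∣ 5544 → n = 22 ∨ n = 36 ∨ n = 99) n7 hnm7 d7 hdm7 hmod7 hle7 hd7
    hdiv7
  obtain ⟨rfl, rfl⟩ := k11
  have hcN : cN11 = 462 := by omega
  have hcC : cC11 = 231 := by omega
  have hf4 : cN11 ∣ cN7 := by
    rw [hcN11, hcN7]
    refine (f4 11 7 (by norm_num) P11 hc11 P7 hc7 (by rw [← hcC11, hcC]; norm_num) ?_).1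
    rw [← hcC11, hcC]
    intro d hd hm
    exact (by decide : ∀ d ∈ Nat.divisors 3, d % 7 = 1 → d = 1) d
      (Nat.mem_divisors.2 ⟨hd, by norm_num⟩) hm
  rw [hcN] at hf4
  rcases k7 with rfl | rfl | rfl <;> omega

theorem no_simple_6160 {G : Type*} [Group G] [Finite G] [IsSimpleGroup G]
    (h : Nat.card G = 6160) : False := by
  have hnp : ¬ (Nat.card G).Prime := by rw [h]; norm_num
  have hG : ¬ IsMulCommutative G := not_comm_of_not_prime hnp
  have : Fact (Nat.Prime 7) := ⟨by norm_num⟩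
  have : Fact (Nat.Prime 5) := ⟨by norm_num⟩
  have h11p : Nat.Prime 11 := by norm_num
  obtain ⟨P7⟩ : Nonempty (Sylow 7 G) := inferInstance
  obtain ⟨P5⟩ : Nonempty (Sylow 5 G) := inferInstance
  obtain ⟨hc7, n7, d7, cN7, cC7, hn7, hcN7, hcC7, hnm7, hdm7, hmod7, hle7, hd7,
    hdiv7, hN7, hC7⟩ := pack hG 6160 h 7 880 11 (by norm_num) (by norm_num) h11p
      (by norm_num) P7
  obtain ⟨hc5, n5, d5, cN5, cC5, hn5, hcN5, hcC5, hnm5, hdm5, hmod5, hle5, hd5,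
    hdiv5, hN5, hC5⟩ := pack hG 6160 h 5 1232 11 (by norm_num) (by norm_num) h11p
      (by norm_num) P5
  have k7 := (by decide +kernel : ∀ n ∈ Nat.divisors 880, ∀ d ∈ Nat.divisors 6, n % 7 = 1 →
    11 ≤ n → d ≠ 1 → 7 * d * n ∣ 6160 → n = 22 ∧ d = 2) n7 hnm7 d7 hdm7 hmod7 hle7 hd7 hdiv7
  have k5 := (by decide +kernel : ∀ n ∈ Nat.divisors 1232, ∀ d ∈ Nat.divisors 4, n % 5 = 1 →
    11 ≤ n → d ≠ 1 → 5 * d * n ∣ 6160 → n = 11 ∨ n = 56 ∨ n = 616) n5 hnm5 d5 hdm5 hmod5 hle5 hd5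
    hdiv5
  obtain ⟨rfl, rfl⟩ := k7
  have hcN : cN7 = 280 := by omega
  have hcC : cC7 = 140 := by omega
  have hf4 : cN7 ∣ cN5 ∧ cN5 / cN7 % 7 = 1 := by
    rw [hcN7, hcN5]
    refine f4 7 5 (by norm_num) P7 hc7 P5 hc5 (by rw [← hcC7, hcC]; norm_num) ?_
    rw [← hcC7, hcC]
    intro d hd hm
    exact (by decide : ∀ d ∈ Nat.divisors 4, d % 5 = 1 → d = 1) d
      (Nat.mem_divisors.2 ⟨hd, by norm_num⟩) hm
  rw [hcN] at hf4
  obtain ⟨hf4a, hf4b⟩ := hf4
  rcases k5 with rfl | rfl | rfl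
  · have : cN5 = 560 := by omega
    rw [this] at hf4b
    norm_num at hf4b
  · omega
  · omega

theorem no_simple_3696 {G : Type*} [Group G] [Finite G] [IsSimpleGroup G]
    (h : Nat.card G = 3696) : False := by
  have hnp : ¬ (Nat.card G).Prime := by rw [h]; norm_num
  have hG : ¬ IsMulCommutative G := not_comm_of_not_prime hnp
  have : Fact (Nat.Prime 11) := ⟨by norm_num⟩
  have : Fact (Nat.Prime 7) := ⟨by norm_num⟩
  have : Fact (Nat.Prime 3) := ⟨by norm_num⟩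
  have h11p : Nat.Prime 11 := by norm_num
  obtain ⟨P11⟩ : Nonempty (Sylow 11 G) := inferInstance
  obtain ⟨P7⟩ : Nonempty (Sylow 7 G) := inferInstance
  obtain ⟨P3⟩ : Nonempty (Sylow 3 G) := inferInstance
  obtain ⟨hc11, n11, d11, cN11, cC11, hn11, hcN11, hcC11, hnm11, hdm11, hmod11, hle11, hd11,
    hdiv11, hN11, hC11⟩ := pack hG 3696 h 11 336 11 (by norm_num) (by norm_num) h11p
      (by norm_num) P11
  obtain ⟨hc7, n7, d7, cN7, cC7, hn7, hcN7, hcC7, hnm7, hdm7, hmod7, hle7, hd7,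
    hdiv7, hN7, hC7⟩ := pack hG 3696 h 7 528 11 (by norm_num) (by norm_num) h11p
      (by norm_num) P7
  obtain ⟨hc3, n3, d3, cN3, cC3, hn3, hcN3, hcC3, hnm3, hdm3, hmod3, hle3, hd3,
    hdiv3, hN3, hC3⟩ := pack hG 3696 h 3 1232 11 (by norm_num) (by norm_num) h11p
      (by norm_num) P3
  have k11 := (by decide +kernel : ∀ n ∈ Nat.divisors 336, ∀ d ∈ Nat.divisors 10, n % 11 = 1 →
    11 ≤ n → d ≠ 1 → 11 * d * n ∣ 3696 → (n = 12 ∨ n = 56) ∧ d = 2) n11 hnm11 d11 hdm11 hmod11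
    hle11 hd11 hdiv11
  have k7 := (by decide +kernel : ∀ n ∈ Nat.divisors 528, ∀ d ∈ Nat.divisors 6, n % 7 = 1 →
    11 ≤ n → d ≠ 1 → 7 * d * n ∣ 3696 → n = 22 ∨ n = 176) n7 hnm7 d7 hdm7 hmod7 hle7 hd7
    hdiv7
  have k3 := (by decide +kernel : ∀ n ∈ Nat.divisors 1232, ∀ d ∈ Nat.divisors 2, n % 3 = 1 →
    11 ≤ n → d ≠ 1 → 3 * d * n ∣ 3696 → n = 22 ∨ n = 28 ∨ n = 88 ∨ n = 154 ∨ n = 616) n3 hnm3 d3
    hdm3 hmod3 hle3 hd3 hdiv3
  obtain ⟨hn, rfl⟩ := k11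
  rcases hn with rfl | rfl
  · -- n₁₁ = 12: 7 ∣ |C(P₁₁)|, so 11 ∣ |N(P₇)|
    have h1 : 7 ∣ cC11 := by omega
    have h2 : 11 ∣ cN7 := by
      rw [hcN7]; exact f3 11 7 P11 hc11 P7 hc7 (by rw [← hcC11]; exact h1)
    rcases k7 with rfl | rfl <;> omega
  · -- n₁₁ = 56: C(P₁₁) cyclic of order 33
    have hcN : cN11 = 66 := by omega
    have hcC : cC11 = 33 := by omega
    have hf4 : cN11 ∣ cN3 ∧ cN3 / cN11 % 11 = 1 := by
      rw [hcN11, hcN3]
      refine f4 11 3 (by norm_num) P11 hc11 P3 hc3 (by rw [← hcC11, hcC]; norm_num) ?_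
      rw [← hcC11, hcC]
      intro d hd hm
      exact (by decide : ∀ d ∈ Nat.divisors 1, d % 3 = 1 → d = 1) d
        (Nat.mem_divisors.2 ⟨hd, by norm_num⟩) hm
    rw [hcN] at hf4
    obtain ⟨hf4a, hf4b⟩ := hf4
    rcases k3 with rfl | rfl | rfl | rfl | rfl
    · omega
    · have : cN3 = 132 := by omega
      rw [this] at hf4b
      norm_num at hf4b
    · omega
    · omega
    · omega

theorem no_simple_4900 {G : Type*} [Group G] [Finite G] [IsSimpleGroup G]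
    (h : Nat.card G = 4900) : False := by
  have hnp : ¬ (Nat.card G).Prime := by rw [h]; norm_num
  have hG : ¬ IsMulCommutative G := not_comm_of_not_prime hnp
  have hnc : ¬ IsCyclic G := Cfsg.Agent.H11.not_isCyclic_of_not_isMulCommutative hG
  have : Fact (Nat.Prime 5) := ⟨by norm_num⟩
  obtain ⟨P⟩ : Nonempty (Sylow 5 G) := inferInstance
  have hP : Nat.card (P : Subgroup G) = 5 ^ 2 :=
    Cfsg.Agent.H11.sylow_card_of_eq 5 2 196 (by rw [h]; norm_num) (by norm_num) P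
  have hidx : (P : Subgroup G).index = 196 := by
    have h1 := (P : Subgroup G).card_mul_index
    rw [hP, h] at h1
    omega
  obtain ⟨-, h2, h3, -⟩ := Cfsg.Agent.H11.sylow_card_facts hnc 5 (by rw [h]; norm_num)
  have h1 : Nat.card (Sylow 5 G) ∣ 196 := hidx ▸ Sylow.card_dvd_index P
  have hNn := Cfsg.Agent.H11.card_normalizer_mul_card_sylow 5 P
  have hn : Nat.card (Sylow 5 G) = 196 := by
    have hmem : Nat.card (Sylow 5 G) ∈ Nat.divisors 196 := Nat.mem_divisors.2 ⟨h1, by norm_num⟩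
    exact (by decide +kernel : ∀ n ∈ Nat.divisors 196, n % 5 = 1 → n ≠ 1 → n = 196) _ hmem h2 h3
  rw [hn, h] at hNn
  have hN : Nat.card (normalizer ((P : Subgroup G) : Set G)) = Nat.card (P : Subgroup G) := by
    rw [hP]; omega
  have hcomm : ∀ a b : (P : Subgroup G), a * b = b * a := fun a b =>
    (IsPGroup.isMulCommutative_of_card_eq_prime_sq hP).is_comm.comm a b
  refine Cfsg.Agent.H11.not_selfNormalizing_of_comm hnc 5 (by rw [h]; norm_num) P ?_ hN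
  intro a ha b hb
  exact congrArg Subtype.val (hcomm ⟨a, ha⟩ ⟨b, hb⟩)

/-- The orders of group (b) together with 4900. -/
theorem no_simple_b {G : Type*} [Group G] [Finite G] [IsSimpleGroup G]
    (h : Nat.card G ∈ ([3696, 4900, 5236, 5544, 6120, 6160] : List ℕ)) : False := by
  simp only [List.mem_cons, List.not_mem_nil, or_false] at h
  rcases h with h | h | h | h | h | h
  · exact no_simple_3696 h
  · exact no_simple_4900 h
  · exact no_simple_5236 h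
  · exact no_simple_5544 h
  · exact no_simple_6120 h
  · exact no_simple_6160 h

end Cfsg.Agent.H26.R3641
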