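import Mathlib
import Cfsg.Agent.H73.OrdTools
import Cfsg.Agent.H11.SmallSimple
import Cfsg.Agent.H6.CyclicSylow

/-!
# helper26: pieces of S0983 (orders 3641..6232): order 5460

Cross-prime Sylow arguments and counting leave `|N(P₁₃)| = 52`, `C(P₁₃) = P₁₃`; then
`N(P₁₃)/C(P₁₃)` is cyclic of order 4, so a Sylow 2-subgroup of `G` (order 4) is cyclic, which
is impossible in a simple group.
-/

set_option autoImplicit false
set_option linter.style.haveILetI false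

namespace Cfsg.Agent.H26.R3641

open Subgroup Cfsg.Agent.H21 Cfsg.Agent.H73.OrdTools

/-- If `|P| = p` is an odd prime, `|C(P)| = p` and `|N(P)| = 4 p`, there is an element of
order 4. -/
theorem exists_orderOf_four {G : Type*} [Group G] [Finite G] (p : ℕ) [hp : Fact p.Prime]
    (hp2 : ¬ 2 ∣ p) (P : Subgroup G) (hP : Nat.card P = p)
    (hC : Nat.card (centralizer (P : Set G)) = p)
    (hN : Nat.card (normalizer (P : Set G)) = 4 * p) : ∃ g : G, orderOf g = 4 := by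
  classical
  have : Fact (Nat.Prime 2) := ⟨Nat.prime_two⟩
  obtain ⟨S₀⟩ : Nonempty (Sylow 2 (normalizer (P : Set G))) := inferInstance
  have hS : Nat.card (S₀ : Subgroup (normalizer (P : Set G))) = 2 ^ 2 :=
    Cfsg.Agent.H11.sylow_card_of_eq 2 2 p (by rw [hN]; norm_num) hp2 S₀
  have hcyc : IsCyclic P := isCyclic_of_prime_card hP
  have hfact : Fact (Nat.card P).Prime := ⟨by rw [hP]; exact hp.out⟩
  let e : MulAut P ≃* (ZMod (Nat.card P))ˣ := IsCyclic.mulAutMulEquiv P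
  let f : (S₀ : Subgroup (normalizer (P : Set G))) →* (ZMod (Nat.card P))ˣ :=
    (e.toMonoidHom.comp P.normalizerMonoidHom).comp (S₀ : Subgroup (normalizer (P : Set G))).subtype
  have hinj : Function.Injective f := by
    rw [injective_iff_map_eq_one]
    intro s hs
    have h1 : P.normalizerMonoidHom (s : normalizer (P : Set G)) = 1 := by
      have : e (P.normalizerMonoidHom (s : normalizer (P : Set G))) = 1 := hs
      exact (MulEquiv.map_eq_one_iff e).mp this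
    have h2 : (s : normalizer (P : Set G)) ∈ P.normalizerMonoidHom.ker := h1
    rw [normalizerMonoidHom_ker, mem_subgroupOf] at h2
    have h3 : orderOf (((s : normalizer (P : Set G)) : G)) ∣ p := by
      rw [← hC]
      exact Cfsg.Agent.H21.orderOf_dvd_card_of_mem _ _ h2
    have h4 : orderOf s ∣ 2 ^ 2 := by
      rw [← hS]; exact orderOf_dvd_natCard s
    have h5 : orderOf (((s : normalizer (P : Set G)) : G)) = orderOf s := by
      rw [Subgroup.orderOf_coe, Subgroup.orderOf_coe]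
    rw [h5] at h3
    have h6 : orderOf s ∣ Nat.gcd (2 ^ 2) p := Nat.dvd_gcd h4 h3
    have h7 : Nat.gcd (2 ^ 2) p = 1 := by
      have : Nat.Coprime 2 p := (Nat.coprime_primes Nat.prime_two hp.out).2 (by
        rintro rfl; exact hp2 (dvd_refl 2))
      exact Nat.Coprime.pow_left 2 this
    rw [h7] at h6
    exact orderOf_eq_one_iff.mp (Nat.dvd_one.mp h6)
  have hScyc : IsCyclic (S₀ : Subgroup (normalizer (P : Set G))) := isCyclic_of_injective f hinj
  obtain ⟨g, hg⟩ := hScyc.exists_generator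
  have hord : orderOf g = 4 := by
    rw [orderOf_eq_card_of_forall_mem_zpowers hg, hS]; norm_num
  refine ⟨((g : normalizer (P : Set G)) : G), ?_⟩
  rw [Subgroup.orderOf_coe, Subgroup.orderOf_coe, hord]

/-- A simple group of order `4 m`, `m` odd, `m > 1`, has no element of order 4. -/
theorem no_simple_of_orderOf_four {G : Type*} [Group G] [Finite G] [IsSimpleGroup G] (m : ℕ)
    (hm : ¬ 2 ∣ m) (h : Nat.card G = 2 ^ 2 * m) (g : G) (hg : orderOf g = 4) : False := by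
  have : Fact (Nat.Prime 2) := ⟨Nat.prime_two⟩
  have hpg : IsPGroup 2 (zpowers g) :=
    IsPGroup.of_card (n := 2) (by rw [Nat.card_zpowers, hg]; norm_num)
  obtain ⟨T, hT⟩ := hpg.exists_le_sylow
  have hTc : Nat.card (T : Subgroup G) = 2 ^ 2 := Cfsg.Agent.H11.sylow_card_of_eq 2 2 m h hm T
  have hTeq : zpowers g = (T : Subgroup G) := by
    apply Subgroup.eq_of_le_of_card_ge hT
    rw [hTc, Nat.card_zpowers, hg]; norm_num
  have hcyc : IsCyclic (T : Subgroup G) := by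
    rw [← hTeq]; infer_instance
  have heven : Even (Nat.card G) := by
    rw [h]; exact ⟨2 * m, by ring⟩
  obtain ⟨H, hH⟩ := Cfsg.Agent.H6.exists_index_two_of_cyclic_sylow heven T hcyc
  have hHn : H.Normal := Subgroup.normal_of_index_eq_two hH
  rcases Subgroup.Normal.eq_bot_or_eq_top hHn with hb | ht
  · rw [hb, Subgroup.index_bot, h] at hH
    omega
  · rw [ht, Subgroup.index_top] at hH
    omega

theorem no_simple_5460 {G : Type*} [Group G] [Finite G] [IsSimpleGroup G]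
    (h : Nat.card G = 5460) : False := by
  classical
  have hnp : ¬ (Nat.card G).Prime := by rw [h]; norm_num
  have hG : ¬ IsMulCommutative G := not_comm_of_not_prime hnp
  have : Fact (Nat.Prime 13) := ⟨by norm_num⟩
  have : Fact (Nat.Prime 7) := ⟨by norm_num⟩
  have : Fact (Nat.Prime 5) := ⟨by norm_num⟩
  have : Fact (Nat.Prime 3) := ⟨by norm_num⟩
  have : Fact (Nat.Prime 2) := ⟨by norm_num⟩
  have h13p : Nat.Prime 13 := by norm_num
  obtain ⟨P13⟩ : Nonempty (Sylow 13 G) := inferInstance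
  obtain ⟨P7⟩ : Nonempty (Sylow 7 G) := inferInstance
  obtain ⟨P5⟩ : Nonempty (Sylow 5 G) := inferInstance
  obtain ⟨P3⟩ : Nonempty (Sylow 3 G) := inferInstance
  obtain ⟨hc13, n13, d13, cN13, cC13, hn13, hcN13, hcC13, hnm13, hdm13, hmod13, hle13, hd13,
    hdiv13, hN13, hC13⟩ := pack hG 5460 h 13 420 13 (by norm_num) (by norm_num) h13p
      (by norm_num) P13
  obtain ⟨hc7, n7, d7, cN7, cC7, hn7, hcN7, hcC7, hnm7, hdm7, hmod7, hle7, hd7,
    hdiv7, hN7, hC7⟩ := pack hG 5460 h 7 780 13 (by norm_num) (by norm_num) h13p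
      (by norm_num) P7
  obtain ⟨hc5, n5, d5, cN5, cC5, hn5, hcN5, hcC5, hnm5, hdm5, hmod5, hle5, hd5,
    hdiv5, hN5, hC5⟩ := pack hG 5460 h 5 1092 13 (by norm_num) (by norm_num) h13p
      (by norm_num) P5
  obtain ⟨hc3, n3, d3, cN3, cC3, hn3, hcN3, hcC3, hnm3, hdm3, hmod3, hle3, hd3,
    hdiv3, hN3, hC3⟩ := pack hG 5460 h 3 1820 13 (by norm_num) (by norm_num) h13p
      (by norm_num) P3
  have k13 := (by decide +kernel : ∀ n ∈ Nat.divisors 420, ∀ d ∈ Nat.divisors 12, n % 13 = 1 →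
    13 ≤ n → d ≠ 1 → 13 * d * n ∣ 5460 →
    (n = 14 ∧ (d = 2 ∨ d = 3 ∨ d = 6)) ∨ (n = 105 ∧ (d = 2 ∨ d = 4))) n13 hnm13 d13 hdm13
    hmod13 hle13 hd13 hdiv13
  have k7 := (by decide +kernel : ∀ n ∈ Nat.divisors 780, ∀ d ∈ Nat.divisors 6, n % 7 = 1 →
    13 ≤ n → d ≠ 1 → 7 * d * n ∣ 5460 →
    (n = 15 ∧ d = 2) ∨ (n = 78 ∧ d = 2) ∨ (n = 260 ∧ d = 3)) n7 hnm7 d7 hdm7 hmod7 hle7 hd7 hdiv7
  have k5 := (by decide +kernel : ∀ n ∈ Nat.divisors 1092, ∀ d ∈ Nat.divisors 4, n % 5 = 1 →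
    13 ≤ n → d ≠ 1 → 5 * d * n ∣ 5460 →
    (n = 21 ∧ (d = 2 ∨ d = 4)) ∨ (n = 26 ∧ d = 2) ∨ (n = 91 ∧ (d = 2 ∨ d = 4)) ∨
      (n = 546 ∧ d = 2)) n5 hnm5 d5 hdm5 hmod5 hle5 hd5 hdiv5
  have k3 := (by decide +kernel : ∀ n ∈ Nat.divisors 1820, ∀ d ∈ Nat.divisors 2, n % 3 = 1 →
    13 ≤ n → d ≠ 1 → 3 * d * n ∣ 5460 →
    d = 2 ∧ (n = 13 ∨ n = 70 ∨ n = 91 ∨ n = 130 ∨ n = 910)) n3 hnm3 d3 hdm3 hmod3 hle3 hd3 hdiv3
  clear hnm13 hdm13 hmod13 hle13 hd13 hdiv13 hnm7 hdm7 hmod7 hle7 hd7 hdiv7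
  clear hnm5 hdm5 hmod5 hle5 hd5 hdiv5 hnm3 hdm3 hmod3 hle3 hd3 hdiv3
  -- F3 instances
  have f3_7_13 : 13 ∣ cC7 → 7 ∣ cN13 := by
    intro hh; rw [hcN13]; exact f3 7 13 P7 hc7 P13 hc13 (by rw [← hcC7]; exact hh)
  have f3_5_13 : 13 ∣ cC5 → 5 ∣ cN13 := by
    intro hh; rw [hcN13]; exact f3 5 13 P5 hc5 P13 hc13 (by rw [← hcC5]; exact hh)
  have f3_5_7 : 7 ∣ cC5 → 5 ∣ cN7 := by
    intro hh; rw [hcN7]; exact f3 5 7 P5 hc5 P7 hc7 (by rw [← hcC5]; exact hh)
  have f3_3_13 : 13 ∣ cC3 → 3 ∣ cN13 := by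
    intro hh; rw [hcN13]; exact f3 3 13 P3 hc3 P13 hc13 (by rw [← hcC3]; exact hh)
  have f3_5_3 : 3 ∣ cC5 → 5 ∣ cN3 := by
    intro hh; rw [hcN3]; exact f3 5 3 P5 hc5 P3 hc3 (by rw [← hcC5]; exact hh)
  have f3_3_5 : 5 ∣ cC3 → 3 ∣ cN5 := by
    intro hh; rw [hcN5]; exact f3 3 5 P3 hc3 P5 hc5 (by rw [← hcC3]; exact hh)
  -- F4 instances
  have f4_13_5 : (cC13 = 195 ∨ cC13 = 130 ∨ cC13 = 65) → cN13 ∣ cN5 := by
    intro hh
    rw [hcN13, hcN5]
    refine (f4 13 5 (by norm_num) P13 hc13 P5 hc5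
      (by rw [← hcC13]; rcases hh with hh | hh | hh <;> rw [hh] <;> norm_num) ?_).1
    rw [← hcC13]
    intro d hd hm
    rcases hh with hh | hh | hh
    · rw [hh] at hd
      exact (by decide : ∀ d ∈ Nat.divisors 3, d % 5 = 1 → d = 1) d
        (Nat.mem_divisors.2 ⟨hd, by norm_num⟩) hm
    · rw [hh] at hd
      exact (by decide : ∀ d ∈ Nat.divisors 2, d % 5 = 1 → d = 1) d
        (Nat.mem_divisors.2 ⟨hd, by norm_num⟩) hm
    · rw [hh] at hd
      exact (by decide : ∀ d ∈ Nat.divisors 1, d % 5 = 1 → d = 1) d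
        (Nat.mem_divisors.2 ⟨hd, by norm_num⟩) hm
  have f4_7_5 : cC7 = 35 → cN7 ∣ cN5 ∧ cN5 / cN7 % 7 = 1 := by
    intro hh
    rw [hcN7, hcN5]
    refine f4 7 5 (by norm_num) P7 hc7 P5 hc5 (by rw [← hcC7, hh]; norm_num) ?_
    rw [← hcC7, hh]
    intro d hd hm
    exact (by decide : ∀ d ∈ Nat.divisors 1, d % 5 = 1 → d = 1) d
      (Nat.mem_divisors.2 ⟨hd, by norm_num⟩) hm
  have f4_3_7 : (cC3 = 210 ∨ cC3 = 21) → cN3 ∣ cN7 := by
    intro hh
    rw [hcN3, hcN7]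
    refine (f4 3 7 (by norm_num) P3 hc3 P7 hc7
      (by rw [← hcC3]; rcases hh with hh | hh <;> rw [hh] <;> norm_num) ?_).1
    rw [← hcC3]
    intro d hd hm
    rcases hh with hh | hh
    · rw [hh] at hd
      exact (by decide : ∀ d ∈ Nat.divisors 10, d % 7 = 1 → d = 1) d
        (Nat.mem_divisors.2 ⟨hd, by norm_num⟩) hm
    · rw [hh] at hd
      exact (by decide : ∀ d ∈ Nat.divisors 1, d % 7 = 1 → d = 1) d
        (Nat.mem_divisors.2 ⟨hd, by norm_num⟩) hm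
  -- (1) n₁₃ = 105
  have s13 : n13 = 105 ∧ cN13 = 52 ∧ (d13 = 2 ∨ d13 = 4) := by
    rcases k13 with ⟨rfl, hd⟩ | ⟨rfl, hd⟩
    · exfalso
      have hcN : cN13 = 390 := by omega
      have hc : cC13 = 195 ∨ cC13 = 130 ∨ cC13 = 65 := by
        rcases hd with rfl | rfl | rfl <;> omega
      have hdv := f4_13_5 hc
      rw [hcN] at hdv
      rcases k5 with ⟨rfl, hd'⟩ | ⟨rfl, rfl⟩ | ⟨rfl, hd'⟩ | ⟨rfl, rfl⟩ <;> omega
    · exact ⟨rfl, by omega, hd⟩
  obtain ⟨rfl, hcN13v, hd13v⟩ := s13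
  -- (2) n₇ = 260
  have s7 : n7 = 260 ∧ cN7 = 21 := by
    rcases k7 with ⟨rfl, rfl⟩ | ⟨rfl, rfl⟩ | ⟨rfl, rfl⟩
    · exfalso
      have h1 : 13 ∣ cC7 := by omega
      have := f3_7_13 h1
      omega
    · exfalso
      have hc : cC7 = 35 := by omega
      have hcN : cN7 = 70 := by omega
      obtain ⟨hdv, hmd⟩ := f4_7_5 hc
      rw [hcN] at hdv hmd
      rcases k5 with ⟨rfl, hd'⟩ | ⟨rfl, rfl⟩ | ⟨rfl, hd'⟩ | ⟨rfl, rfl⟩
      · omega
      · have : cN5 = 210 := by omega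
        rw [this] at hmd
        norm_num at hmd
      · omega
      · omega
    · exact ⟨rfl, by omega⟩
  obtain ⟨rfl, hcN7v⟩ := s7
  -- (3) n₅ ∈ {91, 546}
  have s5 : (n5 = 91 ∧ cN5 = 60 ∧ (d5 = 2 ∨ d5 = 4)) ∨ (n5 = 546 ∧ cN5 = 10) := by
    rcases k5 with ⟨rfl, hd'⟩ | ⟨rfl, rfl⟩ | ⟨rfl, hd'⟩ | ⟨rfl, rfl⟩
    · exfalso
      have h1 : 13 ∣ cC5 := by rcases hd' with rfl | rfl <;> omega
      have := f3_5_13 h1
      omega
    · exfalso
      have h1 : 7 ∣ cC5 := by omega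
      have := f3_5_7 h1
      omega
    · left; exact ⟨rfl, by omega, hd'⟩
    · right; exact ⟨rfl, by omega⟩
  -- (4) n₃ ∈ {91, 910}
  obtain ⟨rfl, hn3v⟩ := k3
  have s3 : (n3 = 91 ∧ cN3 = 60) ∨ (n3 = 910 ∧ cN3 = 6) := by
    rcases hn3v with rfl | rfl | rfl | rfl | rfl
    · exfalso
      have hc : cC3 = 210 := by omega
      have hdv := f4_3_7 (Or.inl hc)
      have : cN3 = 420 := by omega
      rw [this, hcN7v] at hdv
      omega
    · exfalso
      have h1 : 13 ∣ cC3 := by omega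
      have := f3_3_13 h1
      omega
    · left; exact ⟨rfl, by omega⟩
    · exfalso
      have hc : cC3 = 21 := by omega
      have hdv := f4_3_7 (Or.inr hc)
      have : cN3 = 42 := by omega
      rw [this, hcN7v] at hdv
      omega
    · right; exact ⟨rfl, by omega⟩
  -- counting
  have c13 : Nat.card {g : G // orderOf g = 13} = 105 * (13 - 1) := by
    rw [hn13]; exact card_orderOf_eq_prime 13 P13 hc13
  have c7 : Nat.card {g : G // orderOf g = 7} = 260 * (7 - 1) := by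
    rw [hn7]; exact card_orderOf_eq_prime 7 P7 hc7
  have c5 : Nat.card {g : G // orderOf g = 5} = n5 * (5 - 1) := by
    rw [hn5]; exact card_orderOf_eq_prime 5 P5 hc5
  have c3 : Nat.card {g : G // orderOf g = 3} = n3 * (3 - 1) := by
    rw [hn3]; exact card_orderOf_eq_prime 3 P3 hc3
  have c15 : 5 ∣ cC3 → n3 * (3 - 1) * (5 - 1) ≤ Nat.card {g : G // orderOf g = 15} := by
    intro hh
    rw [hn3]
    exact card_orderOf_mul_ge 3 5 (by norm_num) P3 hc3 (by rw [← hcC3]; exact hh)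
  have c6 : 2 ∣ cC3 → n3 * (3 - 1) * (2 - 1) ≤ Nat.card {g : G // orderOf g = 6} := by
    intro hh
    rw [hn3]
    exact card_orderOf_mul_ge 3 2 (by norm_num) P3 hc3 (by rw [← hcC3]; exact hh)
  have c26 : 2 ∣ cC13 → 105 * (13 - 1) * (2 - 1) ≤ Nat.card {g : G // orderOf g = 26} := by
    intro hh
    rw [hn13]
    exact card_orderOf_mul_ge 13 2 (by norm_num) P13 hc13 (by rw [← hcC13]; exact hh)
  have hsum := list_sum_card_orderOf_le (G := G) [13, 7, 5, 3, 15, 6, 26] (by decide)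
  simp only [List.map_cons, List.map_nil, List.sum_cons, List.sum_nil] at hsum
  rw [h, c13, c7, c5, c3] at hsum
  rcases s3 with ⟨rfl, hcN3v⟩ | ⟨rfl, hcN3v⟩
  · -- n₃ = 91
    have hcC3v : cC3 = 30 := by omega
    have h3 := f3_3_5 (by omega)
    have hn5v : n5 = 91 := by
      rcases s5 with ⟨rfl, -, -⟩ | ⟨rfl, h10⟩
      · rfl
      · omega
    subst hn5v
    have h15 := c15 (by omega)
    have h6 := c6 (by omega)
    rcases hd13v with rfl | rfl
    · have h26 := c26 (by omega)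
      omega
    · -- cyclic Sylow 2-subgroup
      have hcC13v : cC13 = 13 := by omega
      obtain ⟨g, hg⟩ := exists_orderOf_four 13 (by norm_num) (P13 : Subgroup G) hc13
        (by rw [← hcC13, hcC13v]) (by rw [← hcN13, hcN13v])
      exact no_simple_of_orderOf_four 1365 (by norm_num) (by rw [h]; norm_num) g hg
  · -- n₃ = 910
    rcases s5 with ⟨rfl, hcN5v, hd5v⟩ | ⟨rfl, hcN5v⟩
    · have h1 : 3 ∣ cC5 := by
        have : cC5 = 30 ∨ cC5 = 15 := by
          rcases hd5v with rfl | rfl <;> omega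
        rcases this with hh | hh <;> rw [hh] <;> norm_num
      have := f3_5_3 h1
      omega
    · omega

end Cfsg.Agent.H26.R3641
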