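import Mathlib
import Cfsg.Agent.H64.NoSimpleBT

/-!
# Orders `p^a q^b r` in `(3640, 6233)` excluded by the Brauer-Tuan bookkeeping (helper26)
-/

set_option autoImplicit false

namespace Cfsg.Agent.H26.Range3641

/-- The 19 orders of the form `p^a q^b r` between 3641 and 6232 that survive the Sylow and
Burnside tests but die by the Brauer-Tuan arithmetic. -/
theorem no_simple_bt2 {G : Type*} [Group G] [Finite G] [IsSimpleGroup G]
    (h : Nat.card G ∈ ([3648, 3672, 3800, 3840, 4160, 4224, 4400, 4416, 4480, 4512, 4536, 4752, 4800, 4928, 5200, 5376, 5508, 5952, 6080] : List ℕ)) :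
    False := by
  simp only [List.mem_cons, List.not_mem_nil, or_false] at h
  rcases h with h | h | h | h | h | h | h | h | h | h | h | h | h | h | h | h | h | h | h
  · exact Cfsg.Agent.H64.NS.no_simple_bt_aux 2 19 3 6 1 3648 (by norm_num) (by norm_num) (by norm_num) (by norm_num)
      (by norm_num) h (by norm_num) (by norm_num)
      (by intro d n h2 hle hdv hn hmod; norm_num at hle; interval_cases d <;> omega)
  · exact Cfsg.Agent.H64.NS.no_simple_bt_aux 2 3 17 3 3 3672 (by norm_num) (by norm_num) (by norm_num) (by norm_num)
      (by norm_num) h (by norm_num) (by norm_num)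
      (by intro d n h2 hle hdv hn hmod; norm_num at hle; interval_cases d <;> omega)
  · exact Cfsg.Agent.H64.NS.no_simple_bt_aux 2 5 19 3 2 3800 (by norm_num) (by norm_num) (by norm_num) (by norm_num)
      (by norm_num) h (by norm_num) (by norm_num)
      (by intro d n h2 hle hdv hn hmod; norm_num at hle; interval_cases d <;> omega)
  · exact Cfsg.Agent.H64.NS.no_simple_bt_aux 2 3 5 8 1 3840 (by norm_num) (by norm_num) (by norm_num) (by norm_num)
      (by norm_num) h (by norm_num) (by norm_num)
      (by intro d n h2 hle hdv hn hmod; norm_num at hle; interval_cases d <;> omega)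
  · exact Cfsg.Agent.H64.NS.no_simple_bt_aux 2 5 13 6 1 4160 (by norm_num) (by norm_num) (by norm_num) (by norm_num)
      (by norm_num) h (by norm_num) (by norm_num)
      (by intro d n h2 hle hdv hn hmod; norm_num at hle; interval_cases d <;> omega)
  · exact Cfsg.Agent.H64.NS.no_simple_bt_aux 2 11 3 7 1 4224 (by norm_num) (by norm_num) (by norm_num) (by norm_num)
      (by norm_num) h (by norm_num) (by norm_num)
      (by intro d n h2 hle hdv hn hmod; norm_num at hle; interval_cases d <;> omega)
  · exact Cfsg.Agent.H64.NS.no_simple_bt_aux 2 5 11 4 2 4400 (by norm_num) (by norm_num) (by norm_num) (by norm_num)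
      (by norm_num) h (by norm_num) (by norm_num)
      (by intro d n h2 hle hdv hn hmod; norm_num at hle; interval_cases d <;> omega)
  · exact Cfsg.Agent.H64.NS.no_simple_bt_aux 2 3 23 6 1 4416 (by norm_num) (by norm_num) (by norm_num) (by norm_num)
      (by norm_num) h (by norm_num) (by norm_num)
      (by intro d n h2 hle hdv hn hmod; norm_num at hle; interval_cases d <;> omega)
  · exact Cfsg.Agent.H64.NS.no_simple_bt_aux 2 7 5 7 1 4480 (by norm_num) (by norm_num) (by norm_num) (by norm_num)
      (by norm_num) h (by norm_num) (by norm_num)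
      (by intro d n h2 hle hdv hn hmod; norm_num at hle; interval_cases d <;> omega)
  · exact Cfsg.Agent.H64.NS.no_simple_bt_aux 2 47 3 5 1 4512 (by norm_num) (by norm_num) (by norm_num) (by norm_num)
      (by norm_num) h (by norm_num) (by norm_num)
      (by intro d n h2 hle hdv hn hmod; norm_num at hle; interval_cases d <;> omega)
  · exact Cfsg.Agent.H64.NS.no_simple_bt_aux 2 3 7 3 4 4536 (by norm_num) (by norm_num) (by norm_num) (by norm_num)
      (by norm_num) h (by norm_num) (by norm_num)
      (by intro d n h2 hle hdv hn hmod; norm_num at hle; interval_cases d <;> omega)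
  · exact Cfsg.Agent.H64.NS.no_simple_bt_aux 2 3 11 4 3 4752 (by norm_num) (by norm_num) (by norm_num) (by norm_num)
      (by norm_num) h (by norm_num) (by norm_num)
      (by intro d n h2 hle hdv hn hmod; norm_num at hle; interval_cases d <;> omega)
  · exact Cfsg.Agent.H64.NS.no_simple_bt_aux 2 5 3 6 2 4800 (by norm_num) (by norm_num) (by norm_num) (by norm_num)
      (by norm_num) h (by norm_num) (by norm_num)
      (by intro d n h2 hle hdv hn hmod; norm_num at hle; interval_cases d <;> omega)
  · exact Cfsg.Agent.H64.NS.no_simple_bt_aux 2 11 7 6 1 4928 (by norm_num) (by norm_num) (by norm_num) (by norm_num)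
      (by norm_num) h (by norm_num) (by norm_num)
      (by intro d n h2 hle hdv hn hmod; norm_num at hle; interval_cases d <;> omega)
  · exact Cfsg.Agent.H64.NS.no_simple_bt_aux 2 5 13 4 2 5200 (by norm_num) (by norm_num) (by norm_num) (by norm_num)
      (by norm_num) h (by norm_num) (by norm_num)
      (by intro d n h2 hle hdv hn hmod; norm_num at hle; interval_cases d <;> omega)
  · exact Cfsg.Agent.H64.NS.no_simple_bt_aux 2 7 3 8 1 5376 (by norm_num) (by norm_num) (by norm_num) (by norm_num)
      (by norm_num) h (by norm_num) (by norm_num)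
      (by intro d n h2 hle hdv hn hmod; norm_num at hle; interval_cases d <;> omega)
  · exact Cfsg.Agent.H64.NS.no_simple_bt_aux 2 3 17 2 4 5508 (by norm_num) (by norm_num) (by norm_num) (by norm_num)
      (by norm_num) h (by norm_num) (by norm_num)
      (by intro d n h2 hle hdv hn hmod; norm_num at hle; interval_cases d <;> omega)
  · exact Cfsg.Agent.H64.NS.no_simple_bt_aux 2 31 3 6 1 5952 (by norm_num) (by norm_num) (by norm_num) (by norm_num)
      (by norm_num) h (by norm_num) (by norm_num)
      (by intro d n h2 hle hdv hn hmod; norm_num at hle; interval_cases d <;> omega)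
  · exact Cfsg.Agent.H64.NS.no_simple_bt_aux 2 19 5 6 1 6080 (by norm_num) (by norm_num) (by norm_num) (by norm_num)
      (by norm_num) h (by norm_num) (by norm_num)
      (by intro d n h2 hle hdv hn hmod; norm_num at hle; interval_cases d <;> omega)

end Cfsg.Agent.H26.Range3641
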