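import Mathlib
import Cfsg.Agent.H64.NoSimplePaqb

/-!
# Orders `p^a q^b` in `(3640, 6233)` that survive the Sylow and Burnside tests (helper26)
-/

set_option autoImplicit false

namespace Cfsg.Agent.H26.Range3641

theorem no_simple_paqb2 {G : Type*} [Group G] [Finite G] [IsSimpleGroup G]
    (h : Nat.card G ∈ ([3888, 3968, 4000, 4563, 5184, 6075] : List ℕ)) :
    False := by
  simp only [List.mem_cons, List.not_mem_nil, or_false] at h
  rcases h with h | h | h | h | h | h
  · exact Cfsg.Agent.H64.NS.no_simple_paqb_aux 2 3 4 5 (by norm_num) (by norm_num)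
      (by rw [h]; norm_num) (by rw [h]; norm_num)
  · exact Cfsg.Agent.H64.NS.no_simple_paqb_aux 2 31 7 1 (by norm_num) (by norm_num)
      (by rw [h]; norm_num) (by rw [h]; norm_num)
  · exact Cfsg.Agent.H64.NS.no_simple_paqb_aux 2 5 5 3 (by norm_num) (by norm_num)
      (by rw [h]; norm_num) (by rw [h]; norm_num)
  · exact Cfsg.Agent.H64.NS.no_simple_paqb_aux 3 13 3 2 (by norm_num) (by norm_num)
      (by rw [h]; norm_num) (by rw [h]; norm_num)
  · exact Cfsg.Agent.H64.NS.no_simple_paqb_aux 2 3 6 4 (by norm_num) (by norm_num)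
      (by rw [h]; norm_num) (by rw [h]; norm_num)
  · exact Cfsg.Agent.H64.NS.no_simple_paqb_aux 3 5 5 2 (by norm_num) (by norm_num)
      (by rw [h]; norm_num) (by rw [h]; norm_num)

end Cfsg.Agent.H26.Range3641
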