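import Mathlib
import Cfsg.Agent.H11.SL2Inv

/-!
# Square roots of an element of order 4 in `SL₂(F)` (helper26)

For a finite field `F` of odd order and `A ∈ SL₂(F)` with `A²` the involution, the equation
`Y² = A` has at most the two solutions `Y` and `A² Y = -Y`.
-/

set_option autoImplicit false

namespace Cfsg.Agent.H26.SL2Root

open Matrix Cfsg.Agent.H11.SL2Inv

variable {F : Type*} [Field F] [Fintype F]

/-- entries of a square root of `Jm` -/
theorem sqrt_Jm_entries (hF : Odd (Fintype.card F)) (Y : SpecialLinearGroup (Fin 2) F)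
    (h : Y * Y = Jm) :
    Y.1 1 1 = Y.1 0 0 ∧ 2 * Y.1 0 0 * Y.1 0 1 = -1 ∧ 2 * Y.1 0 0 * Y.1 1 0 = 1 ∧
      2 * (Y.1 0 0 * Y.1 0 0) = 1 := by
  have h2 : (2 : F) ≠ 0 := two_ne_zero_of_odd hF
  have hdet : Y.1 0 0 * Y.1 1 1 - Y.1 0 1 * Y.1 1 0 = 1 := by
    have := Y.2
    rwa [Matrix.det_fin_two] at this
  have hm : Y.1 * Y.1 = !![0, -1; 1, 0] := by
    have := congrArg Subtype.val h
    simpa [Jm_val] using this
  have e00 : Y.1 0 0 * Y.1 0 0 + Y.1 0 1 * Y.1 1 0 = 0 := by
    have := congrFun (congrFun hm 0) 0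
    simpa [Matrix.mul_apply, Fin.sum_univ_two] using this
  have e01 : Y.1 0 0 * Y.1 0 1 + Y.1 0 1 * Y.1 1 1 = -1 := by
    have := congrFun (congrFun hm 0) 1
    simpa [Matrix.mul_apply, Fin.sum_univ_two] using this
  have e10 : Y.1 1 0 * Y.1 0 0 + Y.1 1 1 * Y.1 1 0 = 1 := by
    have := congrFun (congrFun hm 1) 0
    simpa [Matrix.mul_apply, Fin.sum_univ_two] using this
  have e11 : Y.1 1 0 * Y.1 0 1 + Y.1 1 1 * Y.1 1 1 = 0 := by
    have := congrFun (congrFun hm 1) 1
    simpa [Matrix.mul_apply, Fin.sum_univ_two] using this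
  set p := Y.1 0 0 with hp
  set q := Y.1 0 1 with hq
  set r := Y.1 1 0 with hr
  set s := Y.1 1 1 with hs
  have hsum : p + s ≠ 0 := by
    intro h0
    have : r * (p + s) = 1 := by linear_combination e10
    rw [h0, mul_zero] at this
    exact zero_ne_one this
  have hps : s = p := by
    have h1 : (p - s) * (p + s) = 0 := by linear_combination e00 - e11
    rcases mul_eq_zero.mp h1 with h | h
    · linear_combination -h
    · exact absurd h hsum
  refine ⟨hps, ?_, ?_, ?_⟩
  · rw [hps] at e01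
    linear_combination e01
  · rw [hps] at e10
    linear_combination e10
  · rw [hps] at hdet
    linear_combination e00 + hdet

/-- the two square roots of `Jm` differ by the central involution -/
theorem sqrt_Jm (hF : Odd (Fintype.card F)) (Y₁ Y₂ : SpecialLinearGroup (Fin 2) F)
    (h₁ : Y₁ * Y₁ = Jm) (h₂ : Y₂ * Y₂ = Jm) : Y₂ = Y₁ ∨ Y₂ = (Jm * Jm) * Y₁ := by
  have h2 : (2 : F) ≠ 0 := two_ne_zero_of_odd hF
  obtain ⟨a1, a2, a3, a4⟩ := sqrt_Jm_entries hF Y₁ h₁
  obtain ⟨b1, b2, b3, b4⟩ := sqrt_Jm_entries hF Y₂ h₂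
  set p := Y₁.1 0 0 with hp
  set p' := Y₂.1 0 0 with hp'
  have hp0 : p ≠ 0 := by
    intro h0
    rw [h0] at a4
    simp at a4
  have hp0' : p' ≠ 0 := by
    intro h0
    rw [h0] at b4
    simp at b4
  have hsq : (p' - p) * (p' + p) = 0 := by
    have : 2 * ((p' - p) * (p' + p)) = 0 := by linear_combination b4 - a4
    rcases mul_eq_zero.mp this with h | h
    · exact absurd h h2
    · exact h
  rcases mul_eq_zero.mp hsq with h | h
  · left
    have hpp : p' = p := by linear_combination h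
    apply Subtype.ext
    ext i j
    fin_cases i <;> fin_cases j
    · exact hpp
    · show Y₂.1 0 1 = Y₁.1 0 1
      have : 2 * p * (Y₂.1 0 1 - Y₁.1 0 1) = 0 := by
        rw [hpp] at b2
        linear_combination b2 - a2
      rcases mul_eq_zero.mp this with h' | h'
      · rcases mul_eq_zero.mp h' with h'' | h''
        · exact absurd h'' h2
        · exact absurd h'' hp0
      · linear_combination h'
    · show Y₂.1 1 0 = Y₁.1 1 0
      have : 2 * p * (Y₂.1 1 0 - Y₁.1 1 0) = 0 := by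
        rw [hpp] at b3
        linear_combination b3 - a3
      rcases mul_eq_zero.mp this with h' | h'
      · rcases mul_eq_zero.mp h' with h'' | h''
        · exact absurd h'' h2
        · exact absurd h'' hp0
      · linear_combination h'
    · show Y₂.1 1 1 = Y₁.1 1 1
      rw [b1, a1]
      exact hpp
  · right
    have hpp : p' = -p := by linear_combination h
    have hq : Y₂.1 0 1 = -Y₁.1 0 1 := by
      have : 2 * p * (Y₂.1 0 1 + Y₁.1 0 1) = 0 := by
        rw [hpp] at b2
        linear_combination -b2 + a2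
      rcases mul_eq_zero.mp this with h' | h'
      · rcases mul_eq_zero.mp h' with h'' | h''
        · exact absurd h'' h2
        · exact absurd h'' hp0
      · linear_combination h'
    have hr : Y₂.1 1 0 = -Y₁.1 1 0 := by
      have : 2 * p * (Y₂.1 1 0 + Y₁.1 1 0) = 0 := by
        rw [hpp] at b3
        linear_combination -b3 + a3
      rcases mul_eq_zero.mp this with h' | h'
      · rcases mul_eq_zero.mp h' with h'' | h''
        · exact absurd h'' h2
        · exact absurd h'' hp0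
      · linear_combination h'
    have hs : Y₂.1 1 1 = -Y₁.1 1 1 := by
      rw [b1, a1]
      exact hpp
    apply Subtype.ext
    simp only [Matrix.SpecialLinearGroup.coe_mul, Jm_val]
    ext i j
    fin_cases i <;> fin_cases j
    · simp [Matrix.mul_apply, Fin.sum_univ_two]
      exact hpp
    · simp [Matrix.mul_apply, Fin.sum_univ_two]
      exact hq
    · simp [Matrix.mul_apply, Fin.sum_univ_two]
      exact hr
    · simp [Matrix.mul_apply, Fin.sum_univ_two]
      exact hs

/-- square roots of an element of order 4 of `SL₂(F)` are unique up to the involution -/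
theorem sqrt_unique (hF : Odd (Fintype.card F)) (A Y₁ Y₂ : SpecialLinearGroup (Fin 2) F)
    (hA : orderOf (A * A) = 2) (h₁ : Y₁ * Y₁ = A) (h₂ : Y₂ * Y₂ = A) :
    Y₂ = Y₁ ∨ Y₂ = (A * A) * Y₁ := by
  obtain ⟨g, hg⟩ := conj_Jm_of_sq hF A hA
  have e₁ : (g⁻¹ * Y₁ * g) * (g⁻¹ * Y₁ * g) = Jm := by
    calc (g⁻¹ * Y₁ * g) * (g⁻¹ * Y₁ * g) = g⁻¹ * (Y₁ * Y₁) * g := by group
      _ = g⁻¹ * (g * Jm * g⁻¹) * g := by rw [h₁, hg]
      _ = Jm := by group
  have e₂ : (g⁻¹ * Y₂ * g) * (g⁻¹ * Y₂ * g) = Jm := by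
    calc (g⁻¹ * Y₂ * g) * (g⁻¹ * Y₂ * g) = g⁻¹ * (Y₂ * Y₂) * g := by group
      _ = g⁻¹ * (g * Jm * g⁻¹) * g := by rw [h₂, hg]
      _ = Jm := by group
  rcases sqrt_Jm hF _ _ e₁ e₂ with h | h
  · left
    calc Y₂ = g * (g⁻¹ * Y₂ * g) * g⁻¹ := by group
      _ = g * (g⁻¹ * Y₁ * g) * g⁻¹ := by rw [h]
      _ = Y₁ := by group
  · right
    calc Y₂ = g * (g⁻¹ * Y₂ * g) * g⁻¹ := by group
      _ = g * ((Jm * Jm) * (g⁻¹ * Y₁ * g)) * g⁻¹ := by rw [h]
      _ = ((g * Jm * g⁻¹) * (g * Jm * g⁻¹)) * Y₁ := by group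
      _ = (A * A) * Y₁ := by rw [hg]

end Cfsg.Agent.H26.SL2Root
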