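import Mathlib
import Cfsg.Agent.H11.SL2Pair

/-!
# The twisted `SL₂ ∘ SL₂` involution centralizer (helper26)

Abstract group theory for statement S3211: two elementwise-commuting subgroups `L₁, L₂` meeting in
`⟨j⟩`, of index 2 in `C(j)`, swapped by an element `n` with `n² = j`.  We show that `j` is not
fused to any other involution of `C(j)`, given three facts about `L₁, L₂` (conjugacy of the
non-central involutions of `L₁L₂`, an element of `L₁` squaring to `j`, and uniqueness up to `j`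
of square roots in `L₂` of elements squaring to `j`).
-/

set_option autoImplicit false

namespace Cfsg.Agent.H26.TwSL

open Cfsg.Agent.H11.SL2Pair

variable {G : Type*} [Group G]

/-- The twisted configuration. -/
structure Tw (L₁ L₂ : Subgroup G) (j n : G) : Prop where
  hc : ∀ x ∈ L₁, ∀ y ∈ L₂, x * y = y * x
  hj : orderOf j = 2
  hm : L₁ ⊓ L₂ = Subgroup.zpowers j
  hle : L₁ ⊔ L₂ ≤ Subgroup.centralizer ({j} : Set G)
  hi : (L₁ ⊔ L₂).relIndex (Subgroup.centralizer ({j} : Set G)) = 2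
  hn : n ∈ Subgroup.centralizer ({j} : Set G)
  hn2 : n ^ 2 = j
  hswap : L₁.map (MulAut.conj n).toMonoidHom = L₂

theorem cent_iff {j x : G} : x ∈ Subgroup.centralizer ({j} : Set G) ↔ x * j = j * x := by
  rw [Subgroup.mem_centralizer_iff]
  constructor
  · intro h
    exact (h j (Set.mem_singleton j)).symm
  · intro h y hy
    rw [Set.mem_singleton_iff] at hy
    subst hy
    exact h.symm

namespace Tw

variable {L₁ L₂ : Subgroup G} {j n : G}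

theorem jj (h : Tw L₁ L₂ j n) : j * j = 1 := by
  have := pow_orderOf_eq_one j
  rw [h.hj, pow_two] at this
  exact this

theorem j_ne_one (h : Tw L₁ L₂ j n) : j ≠ 1 := by
  intro h1
  have := h.hj
  rw [h1, orderOf_one] at this
  omega

theorem j_inv (h : Tw L₁ L₂ j n) : j⁻¹ = j := inv_eq_of_mul_eq_one_right h.jj

theorem nn (h : Tw L₁ L₂ j n) : n * n = j := by
  have := h.hn2
  rwa [pow_two] at this

theorem nj (h : Tw L₁ L₂ j n) : n * j = j * n := cent_iff.mp h.hn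

theorem sig_j (h : Tw L₁ L₂ j n) : n * j * n⁻¹ = j := by
  rw [h.nj]; group

theorem jL1 (h : Tw L₁ L₂ j n) : j ∈ L₁ := by
  have : j ∈ L₁ ⊓ L₂ := by rw [h.hm]; exact Subgroup.mem_zpowers j
  exact (Subgroup.mem_inf.mp this).1

theorem jL2 (h : Tw L₁ L₂ j n) : j ∈ L₂ := by
  have : j ∈ L₁ ⊓ L₂ := by rw [h.hm]; exact Subgroup.mem_zpowers j
  exact (Subgroup.mem_inf.mp this).2

theorem both (h : Tw L₁ L₂ j n) {x : G} (h1 : x ∈ L₁) (h2 : x ∈ L₂) : x = 1 ∨ x = j := by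
  have hx : x ∈ L₁ ⊓ L₂ := Subgroup.mem_inf.mpr ⟨h1, h2⟩
  rw [h.hm] at hx
  obtain ⟨k, rfl⟩ := Subgroup.mem_zpowers_iff.mp hx
  rcases Int.even_or_odd k with ⟨m, rfl⟩ | ⟨m, rfl⟩
  · left
    rw [zpow_add, ← (Commute.refl j).mul_zpow, h.jj, one_zpow]
  · right
    rw [zpow_add, zpow_one, two_mul, zpow_add, ← (Commute.refl j).mul_zpow, h.jj, one_zpow, one_mul]

theorem cM (h : Tw L₁ L₂ j n) {x : G} (hx : x ∈ L₁ ⊔ L₂) : x * j = j * x :=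
  cent_iff.mp (h.hle hx)

theorem c1 (h : Tw L₁ L₂ j n) {x : G} (hx : x ∈ L₁) : x * j = j * x :=
  h.cM ((le_sup_left : L₁ ≤ L₁ ⊔ L₂) hx)

theorem c2 (h : Tw L₁ L₂ j n) {x : G} (hx : x ∈ L₂) : x * j = j * x :=
  h.cM ((le_sup_right : L₂ ≤ L₁ ⊔ L₂) hx)

theorem s1 (h : Tw L₁ L₂ j n) {x : G} (hx : x ∈ L₁) : n * x * n⁻¹ ∈ L₂ := by
  rw [← h.hswap]
  exact Subgroup.mem_map.mpr ⟨x, hx, by simp [MulAut.conj_apply]⟩

theorem nnx (h : Tw L₁ L₂ j n) {x : G} (hx : x * j = j * x) : n * (n * x * n⁻¹) * n⁻¹ = x := by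
  calc n * (n * x * n⁻¹) * n⁻¹ = (n * n) * x * (n * n)⁻¹ := by group
    _ = j * x * j⁻¹ := by rw [h.nn]
    _ = x := by rw [← hx]; group

theorem s2 (h : Tw L₁ L₂ j n) {x : G} (hx : x ∈ L₂) : n * x * n⁻¹ ∈ L₁ := by
  rw [← h.hswap] at hx
  obtain ⟨y, hy, rfl⟩ := Subgroup.mem_map.mp hx
  have e : (MulAut.conj n).toMonoidHom y = n * y * n⁻¹ := by simp [MulAut.conj_apply]
  rw [e, h.nnx (h.c1 hy)]
  exact hy

/-- `n` is not in `L₁L₂` (given an element of `L₁` squaring to `j`). -/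
theorem n_not_mem (h : Tw L₁ L₂ j n) {a : G} (haL : a ∈ L₁) (ha : a * a = j) :
    n ∉ L₁ ⊔ L₂ := by
  intro hnM
  have h1 : n * a * n⁻¹ ∈ L₁ := conj_mem_left L₁ L₂ h.hc n hnM a haL
  have h2 := h.s1 haL
  have sq : (n * a * n⁻¹) * (n * a * n⁻¹) = j := by
    calc (n * a * n⁻¹) * (n * a * n⁻¹) = n * (a * a) * n⁻¹ := by group
      _ = n * j * n⁻¹ := by rw [ha]
      _ = j := h.sig_j
  rcases h.both h1 h2 with e | e
  · rw [e, one_mul] at sq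
    exact h.j_ne_one sq.symm
  · rw [e, h.jj] at sq
    exact h.j_ne_one sq.symm

/-- elements of `C(j)` outside `L₁L₂` lie in the coset of `n` -/
theorem exists_mul_n (h : Tw L₁ L₂ j n) (hnM : n ∉ L₁ ⊔ L₂) {y : G} (hy : y * j = j * y)
    (hyM : y ∉ L₁ ⊔ L₂) : ∃ m ∈ L₁ ⊔ L₂, y = m * n := by
  have hyC : y ∈ Subgroup.centralizer ({j} : Set G) := cent_iff.mpr hy
  have hidx : ((L₁ ⊔ L₂).subgroupOf (Subgroup.centralizer ({j} : Set G))).index = 2 := h.hi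
  have key := Subgroup.mul_mem_iff_of_index_two hidx
    (a := (⟨y, hyC⟩ : Subgroup.centralizer ({j} : Set G)))
    (b := ⟨n⁻¹, Subgroup.inv_mem _ h.hn⟩)
  have h1 : (⟨y, hyC⟩ : Subgroup.centralizer ({j} : Set G)) * ⟨n⁻¹, Subgroup.inv_mem _ h.hn⟩ ∈
      (L₁ ⊔ L₂).subgroupOf (Subgroup.centralizer ({j} : Set G)) := by
    rw [key]
    constructor
    · intro hh
      exact absurd (Subgroup.mem_subgroupOf.mp hh) hyM
    · intro hh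
      have := Subgroup.mem_subgroupOf.mp hh
      exact absurd ((Subgroup.inv_mem_iff _).mp this) hnM
  have h2 : y * n⁻¹ ∈ L₁ ⊔ L₂ := Subgroup.mem_subgroupOf.mp h1
  exact ⟨y * n⁻¹, h2, by group⟩

/-- no element of `C(j)` outside `L₁L₂` squares to `1` -/
theorem sq_ne_one (h : Tw L₁ L₂ j n) (hnM : n ∉ L₁ ⊔ L₂) {y : G} (hy : y * j = j * y)
    (hyM : y ∉ L₁ ⊔ L₂) : y * y ≠ 1 := by
  obtain ⟨m, hm, rfl⟩ := h.exists_mul_n hnM hy hyM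
  obtain ⟨a₁, ha₁, b₁, hb₁, rfl⟩ := exists_mul_of_mem_sup L₁ L₂ h.hc m hm
  intro hyy
  have hsa : n * a₁ * n⁻¹ ∈ L₂ := h.s1 ha₁
  have hsb : n * b₁ * n⁻¹ ∈ L₁ := h.s2 hb₁
  have hv2 : b₁ * (n * a₁ * n⁻¹) ∈ L₂ := L₂.mul_mem hb₁ hsa
  have hu1 : a₁ * (n * b₁ * n⁻¹) ∈ L₁ := L₁.mul_mem ha₁ hsb
  have e1 : a₁ * b₁ * n * (a₁ * b₁ * n) =
      a₁ * ((b₁ * (n * a₁ * n⁻¹)) * (n * b₁ * n⁻¹)) * (n * n) := by group
  have e2 : (b₁ * (n * a₁ * n⁻¹)) * (n * b₁ * n⁻¹) = (n * b₁ * n⁻¹) * (b₁ * (n * a₁ * n⁻¹)) :=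
    (h.hc _ hsb _ hv2).symm
  have e3 : (a₁ * (n * b₁ * n⁻¹)) * j * (b₁ * (n * a₁ * n⁻¹)) = 1 := by
    calc (a₁ * (n * b₁ * n⁻¹)) * j * (b₁ * (n * a₁ * n⁻¹))
        = (a₁ * (n * b₁ * n⁻¹)) * (j * (b₁ * (n * a₁ * n⁻¹))) := by group
      _ = (a₁ * (n * b₁ * n⁻¹)) * ((b₁ * (n * a₁ * n⁻¹)) * j) := by rw [h.c2 hv2]
      _ = a₁ * ((n * b₁ * n⁻¹) * (b₁ * (n * a₁ * n⁻¹))) * j := by group
      _ = a₁ * ((b₁ * (n * a₁ * n⁻¹)) * (n * b₁ * n⁻¹)) * (n * n) := by rw [← e2, h.nn]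
      _ = 1 := by rw [← e1, hyy]
  have hv1 : b₁ * (n * a₁ * n⁻¹) ∈ L₁ := by
    have : b₁ * (n * a₁ * n⁻¹) = ((a₁ * (n * b₁ * n⁻¹)) * j)⁻¹ := eq_inv_of_mul_eq_one_right e3
    rw [this]
    exact L₁.inv_mem (L₁.mul_mem hu1 h.jL1)
  have e4 : n * (b₁ * (n * a₁ * n⁻¹)) * n⁻¹ = (n * b₁ * n⁻¹) * a₁ := by
    calc n * (b₁ * (n * a₁ * n⁻¹)) * n⁻¹ = (n * b₁ * n⁻¹) * (n * (n * a₁ * n⁻¹) * n⁻¹) := by group
      _ = (n * b₁ * n⁻¹) * a₁ := by rw [h.nnx (h.c1 ha₁)]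
  rcases h.both hv1 hv2 with hv | hv
  · rw [hv] at e4 e3
    have e5 : (n * b₁ * n⁻¹) * a₁ = 1 := by rw [← e4]; group
    have e6 : a₁ * (n * b₁ * n⁻¹) = 1 := by
      calc a₁ * (n * b₁ * n⁻¹) = a₁ * ((n * b₁ * n⁻¹) * a₁) * a₁⁻¹ := by group
        _ = 1 := by rw [e5]; group
    rw [e6] at e3
    apply h.j_ne_one
    simpa using e3
  · rw [hv] at e4 e3
    have e5 : (n * b₁ * n⁻¹) * a₁ = j := by rw [← e4]; exact h.sig_j
    have e6 : a₁ * (n * b₁ * n⁻¹) = j := by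
      calc a₁ * (n * b₁ * n⁻¹) = a₁ * ((n * b₁ * n⁻¹) * a₁) * a₁⁻¹ := by group
        _ = a₁ * j * a₁⁻¹ := by rw [e5]
        _ = j := by rw [h.c1 ha₁]; group
    rw [e6, h.jj, one_mul] at e3
    exact h.j_ne_one e3

/-- elements of `C(j)` outside `L₁L₂` swap `L₁` and `L₂` -/
theorem conj1 (h : Tw L₁ L₂ j n) (hnM : n ∉ L₁ ⊔ L₂) {y : G} (hy : y * j = j * y)
    (hyM : y ∉ L₁ ⊔ L₂) {x : G} (hx : x ∈ L₁) : y * x * y⁻¹ ∈ L₂ := by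
  obtain ⟨m, hm, rfl⟩ := h.exists_mul_n hnM hy hyM
  have : m * n * x * (m * n)⁻¹ = m * (n * x * n⁻¹) * m⁻¹ := by group
  rw [this]
  exact conj_mem_right L₁ L₂ h.hc m hm _ (h.s1 hx)

theorem conj2 (h : Tw L₁ L₂ j n) (hnM : n ∉ L₁ ⊔ L₂) {y : G} (hy : y * j = j * y)
    (hyM : y ∉ L₁ ⊔ L₂) {x : G} (hx : x ∈ L₂) : y * x * y⁻¹ ∈ L₁ := by
  obtain ⟨m, hm, rfl⟩ := h.exists_mul_n hnM hy hyM
  have : m * n * x * (m * n)⁻¹ = m * (n * x * n⁻¹) * m⁻¹ := by group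
  rw [this]
  exact conj_mem_left L₁ L₂ h.hc m hm _ (h.s2 hx)

end Tw

end Cfsg.Agent.H26.TwSL
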