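import Mathlib
import Cfsg.Agent.H26.TwSL

/-!
# The twisted `SL₂ ∘ SL₂` involution centralizer, part 2 (helper26)

The fusion argument: with `a ∈ L₁`, `a² = j`, `a' = n a n⁻¹`, `t = a a'`, the involution `j` is
not conjugate to `t`; hence `j` is isolated in `C(j)`.
-/

set_option autoImplicit false

namespace Cfsg.Agent.H26.TwSL

open Cfsg.Agent.H11.SL2Pair

variable {G : Type*} [Group G]

/-- the configuration with an element `a` of `L₁` squaring to `j` -/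
structure Cfg (L₁ L₂ : Subgroup G) (j n a a' t : G) : Prop where
  tw : Tw L₁ L₂ j n
  haL : a ∈ L₁
  ha : a * a = j
  ha' : a' = n * a * n⁻¹
  ht : t = a * a'
  hroot : ∀ b₁ ∈ L₂, ∀ b₂ ∈ L₂, (b₁ * b₁) * (b₁ * b₁) = j → b₂ * b₂ = b₁ * b₁ →
    b₂ = b₁ ∨ b₂ = j * b₁

/-- `y` commutes with `j` and `t` and squares to `v` -/
def SQ (j t v y : G) : Prop := y * j = j * y ∧ y * t = t * y ∧ y * y = v

theorem inv_comm {x j : G} (h : x * j = j * x) : x⁻¹ * j = j * x⁻¹ := by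
  calc x⁻¹ * j = x⁻¹ * (j * x) * x⁻¹ := by group
    _ = x⁻¹ * (x * j) * x⁻¹ := by rw [h]
    _ = j * x⁻¹ := by group

theorem comm3 {x u v j : G} (hx : x * j = j * x) (hu : u * j = j * u) (hv : v * j = j * v) :
    (x * u * v) * j = j * (x * u * v) := by
  calc (x * u * v) * j = x * u * (v * j) := by group
    _ = x * u * (j * v) := by rw [hv]
    _ = x * (u * j) * v := by group
    _ = x * (j * u) * v := by rw [hu]
    _ = (x * j) * u * v := by group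
    _ = (j * x) * u * v := by rw [hx]
    _ = j * (x * u * v) := by group

theorem comm2 {x u j : G} (hx : x * j = j * x) (hu : u * j = j * u) :
    (x * u) * j = j * (x * u) := by
  calc (x * u) * j = x * (u * j) := by group
    _ = x * (j * u) := by rw [hu]
    _ = (x * j) * u := by group
    _ = (j * x) * u := by rw [hx]
    _ = j * (x * u) := by group

namespace Tw

variable {L₁ L₂ : Subgroup G} {j n : G}

theorem zz (h : Tw L₁ L₂ j n) {a₁ b₁ : G} (ha₁ : a₁ ∈ L₁)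
    (hr : n * a₁ * n⁻¹ = b₁ ∨ n * a₁ * n⁻¹ = j * b₁) :
    (a₁ * b₁⁻¹ * n) * (a₁ * b₁⁻¹ * n) = j := by
  have hw : (a₁ * n * a₁⁻¹) * (a₁ * n * a₁⁻¹) = j := by
    calc (a₁ * n * a₁⁻¹) * (a₁ * n * a₁⁻¹) = a₁ * (n * n) * a₁⁻¹ := by group
      _ = a₁ * j * a₁⁻¹ := by rw [h.nn]
      _ = j := by rw [h.c1 ha₁]; group
  rcases hr with hr | hr
  · subst hr
    calc (a₁ * (n * a₁ * n⁻¹)⁻¹ * n) * (a₁ * (n * a₁ * n⁻¹)⁻¹ * n)
        = (a₁ * n * a₁⁻¹) * (a₁ * n * a₁⁻¹) := by group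
      _ = j := hw
  · have hb : b₁ = j * (n * a₁ * n⁻¹) := by
      rw [hr, ← mul_assoc, h.jj, one_mul]
    subst hb
    have hwj : (a₁ * n * a₁⁻¹) * j = j * (a₁ * n * a₁⁻¹) :=
      comm3 (h.c1 ha₁) h.nj (inv_comm (h.c1 ha₁))
    have e1 : a₁ * (j * (n * a₁ * n⁻¹))⁻¹ * n = (a₁ * n * a₁⁻¹) * (n⁻¹ * j⁻¹ * n) := by group
    have e2 : n⁻¹ * j⁻¹ * n = j := by
      rw [h.j_inv]
      calc n⁻¹ * j * n = n⁻¹ * (j * n) := by group
        _ = n⁻¹ * (n * j) := by rw [h.nj]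
        _ = j := by group
    rw [e1, e2]
    calc (a₁ * n * a₁⁻¹) * j * ((a₁ * n * a₁⁻¹) * j)
        = (a₁ * n * a₁⁻¹) * (j * (a₁ * n * a₁⁻¹)) * j := by group
      _ = (a₁ * n * a₁⁻¹) * ((a₁ * n * a₁⁻¹) * j) * j := by rw [hwj]
      _ = ((a₁ * n * a₁⁻¹) * (a₁ * n * a₁⁻¹)) * (j * j) := by group
      _ = j := by rw [hw, h.jj, mul_one]

end Tw

namespace Cfg

variable {L₁ L₂ : Subgroup G} {j n a a' t : G}

theorem hnM (c : Cfg L₁ L₂ j n a a' t) : n ∉ L₁ ⊔ L₂ := c.tw.n_not_mem c.haL c.ha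

theorem a'L (c : Cfg L₁ L₂ j n a a' t) : a' ∈ L₂ := by
  rw [c.ha']; exact c.tw.s1 c.haL

theorem a'2 (c : Cfg L₁ L₂ j n a a' t) : a' * a' = j := by
  rw [c.ha']
  calc (n * a * n⁻¹) * (n * a * n⁻¹) = n * (a * a) * n⁻¹ := by group
    _ = n * j * n⁻¹ := by rw [c.ha]
    _ = j := c.tw.sig_j

theorem aa' (c : Cfg L₁ L₂ j n a a' t) : a * a' = a' * a := c.tw.hc a c.haL a' c.a'L

theorem aM (c : Cfg L₁ L₂ j n a a' t) : a ∈ L₁ ⊔ L₂ := (le_sup_left : L₁ ≤ L₁ ⊔ L₂) c.haL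

theorem a'M (c : Cfg L₁ L₂ j n a a' t) : a' ∈ L₁ ⊔ L₂ := (le_sup_right : L₂ ≤ L₁ ⊔ L₂) c.a'L

theorem tM (c : Cfg L₁ L₂ j n a a' t) : t ∈ L₁ ⊔ L₂ := by
  rw [c.ht]; exact Subgroup.mul_mem_sup c.haL c.a'L

theorem tt (c : Cfg L₁ L₂ j n a a' t) : t * t = 1 := by
  rw [c.ht]
  calc a * a' * (a * a') = a * (a' * a) * a' := by group
    _ = a * (a * a') * a' := by rw [← c.aa']
    _ = (a * a) * (a' * a') := by group
    _ = 1 := by rw [c.ha, c.a'2, c.tw.jj]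

theorem tj (c : Cfg L₁ L₂ j n a a' t) : t * j = j * t := c.tw.cM c.tM

theorem aj (c : Cfg L₁ L₂ j n a a' t) : a * j = j * a := c.tw.c1 c.haL

theorem a'j (c : Cfg L₁ L₂ j n a a' t) : a' * j = j * a' := c.tw.c2 c.a'L

theorem at' (c : Cfg L₁ L₂ j n a a' t) : a * t = t * a := by
  rw [c.ht]
  calc a * (a * a') = a * (a' * a) := by rw [← c.aa']
    _ = a * a' * a := by group

theorem a't (c : Cfg L₁ L₂ j n a a' t) : a' * t = t * a' := by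
  rw [c.ht]
  calc a' * (a * a') = (a' * a) * a' := by group
    _ = a * a' * a' := by rw [← c.aa']

theorem nt (c : Cfg L₁ L₂ j n a a' t) : n * t = t * n := by
  have e : n * t * n⁻¹ = t := by
    rw [c.ht]
    calc n * (a * a') * n⁻¹ = (n * a * n⁻¹) * (n * a' * n⁻¹) := by group
      _ = a' * (n * (n * a * n⁻¹) * n⁻¹) := by rw [← c.ha']
      _ = a' * a := by rw [c.tw.nnx c.aj]
      _ = a * a' := c.aa'.symm
  calc n * t = (n * t * n⁻¹) * n := by group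
    _ = t * n := by rw [e]

theorem a'_sq_ne (c : Cfg L₁ L₂ j n a a' t) (h1 : a' ∈ L₁) : False := by
  have := c.a'2
  rcases c.tw.both h1 c.a'L with e | e
  · rw [e, one_mul] at this
    exact c.tw.j_ne_one this.symm
  · rw [e, c.tw.jj] at this
    exact c.tw.j_ne_one this.symm

theorem t_ne_one (c : Cfg L₁ L₂ j n a a' t) : t ≠ 1 := by
  intro h
  rw [c.ht] at h
  have : a' = a⁻¹ := eq_inv_of_mul_eq_one_right h
  exact c.a'_sq_ne (by rw [this]; exact L₁.inv_mem c.haL)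

theorem t_ne_j (c : Cfg L₁ L₂ j n a a' t) : t ≠ j := by
  intro h
  rw [c.ht] at h
  have : a' = a⁻¹ * j := by rw [← h]; group
  exact c.a'_sq_ne (by rw [this]; exact L₁.mul_mem (L₁.inv_mem c.haL) c.tw.jL1)

/-- square roots of `t` outside `L₁L₂` -/
theorem phi1 (c : Cfg L₁ L₂ j n a a' t) {y : G} (hy : SQ j t t y) (hyM : y ∉ L₁ ⊔ L₂) :
    (y * a) * (y * a) = j ∧ y * a * y⁻¹ = j * a' := by
  have hp : y * a' * y⁻¹ ∈ L₁ := c.tw.conj2 c.hnM hy.1 hyM c.a'L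
  have hq : y * a * y⁻¹ ∈ L₂ := c.tw.conj1 c.hnM hy.1 hyM c.haL
  have hqp : (y * a * y⁻¹) * (y * a' * y⁻¹) = a * a' := by
    calc (y * a * y⁻¹) * (y * a' * y⁻¹) = y * (a * a') * y⁻¹ := by group
      _ = y * t * y⁻¹ := by rw [c.ht]
      _ = t * y * y⁻¹ := by rw [hy.2.1]
      _ = t := by group
      _ = a * a' := c.ht
  have hpq : (y * a' * y⁻¹) * (y * a * y⁻¹) = a * a' := by
    rw [c.tw.hc _ hp _ hq]; exact hqp
  have e2 : a⁻¹ * (y * a' * y⁻¹) = a' * (y * a * y⁻¹)⁻¹ := by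
    calc a⁻¹ * (y * a' * y⁻¹) = a⁻¹ * ((y * a' * y⁻¹) * (y * a * y⁻¹)) * (y * a * y⁻¹)⁻¹ := by
          group
      _ = a⁻¹ * (a * a') * (y * a * y⁻¹)⁻¹ := by rw [hpq]
      _ = a' * (y * a * y⁻¹)⁻¹ := by group
  have hd1 : a' * (y * a * y⁻¹)⁻¹ ∈ L₁ := by
    rw [← e2]; exact L₁.mul_mem (L₁.inv_mem c.haL) hp
  have hd2 : a' * (y * a * y⁻¹)⁻¹ ∈ L₂ := L₂.mul_mem c.a'L (L₂.inv_mem hq)
  have hsq : (y * a) * (y * a) = (y * a * y⁻¹) * t * a := by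
    calc (y * a) * (y * a) = (y * a * y⁻¹) * (y * y) * a := by group
      _ = (y * a * y⁻¹) * t * a := by rw [hy.2.2]
  have hata : a' * t * a = 1 := by
    calc a' * t * a = a' * (a * a') * a := by rw [c.ht]
      _ = (a' * a) * (a' * a) := by group
      _ = (a * a') * (a * a') := by rw [← c.aa']
      _ = t * t := by rw [← c.ht]
      _ = 1 := c.tt
  have hyaM : y * a ∉ L₁ ⊔ L₂ := by
    intro hh
    apply hyM
    have : y = (y * a) * a⁻¹ := by group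
    rw [this]
    exact (L₁ ⊔ L₂).mul_mem hh ((L₁ ⊔ L₂).inv_mem c.aM)
  have hyaj : (y * a) * j = j * (y * a) := comm2 hy.1 c.aj
  rcases c.tw.both hd1 hd2 with hδ | hδ
  · exfalso
    have hq' : y * a * y⁻¹ = a' := (mul_inv_eq_one.mp hδ).symm
    rw [hq', hata] at hsq
    exact c.tw.sq_ne_one c.hnM hyaj hyaM hsq
  · have hq' : y * a * y⁻¹ = j * a' := by
      have h1 : a' = j * (y * a * y⁻¹) := mul_inv_eq_iff_eq_mul.mp hδ
      rw [h1, ← mul_assoc, c.tw.jj, one_mul]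
    refine ⟨?_, hq'⟩
    rw [hsq, hq']
    calc j * a' * t * a = j * (a' * t * a) := by group
      _ = j := by rw [hata, mul_one]

/-- square roots of `t` inside `L₁L₂` -/
theorem phi2 (c : Cfg L₁ L₂ j n a a' t) {y : G} (hy : SQ j t t y) (hyM : y ∈ L₁ ⊔ L₂) :
    ∃ a₁ ∈ L₁, ∃ b₁ ∈ L₂, y = a₁ * b₁ ∧ b₁ * a' = a' * b₁ ∧
      (a₁ * b₁⁻¹ * n) * (a₁ * b₁⁻¹ * n) = j ∧ (b₁ * a'⁻¹ = b₁⁻¹ ∨ b₁ * a' = b₁⁻¹) := by
  obtain ⟨a₁, ha₁, b₁, hb₁, rfl⟩ := exists_mul_of_mem_sup L₁ L₂ c.tw.hc y hyM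
  refine ⟨a₁, ha₁, b₁, hb₁, rfl, ?_⟩
  have hyy := hy.2.2
  have hab : a₁ * b₁ = b₁ * a₁ := c.tw.hc a₁ ha₁ b₁ hb₁
  have e1 : (a₁ * a₁) * (b₁ * b₁) = a * a' := by
    calc (a₁ * a₁) * (b₁ * b₁) = a₁ * (a₁ * b₁) * b₁ := by group
      _ = a₁ * (b₁ * a₁) * b₁ := by rw [hab]
      _ = a₁ * b₁ * (a₁ * b₁) := by group
      _ = a * a' := by rw [hyy, c.ht]
  have e2 : a⁻¹ * (a₁ * a₁) = a' * (b₁ * b₁)⁻¹ := by
    calc a⁻¹ * (a₁ * a₁) = a⁻¹ * ((a₁ * a₁) * (b₁ * b₁)) * (b₁ * b₁)⁻¹ := by group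
      _ = a⁻¹ * (a * a') * (b₁ * b₁)⁻¹ := by rw [e1]
      _ = a' * (b₁ * b₁)⁻¹ := by group
  have hd1 : a⁻¹ * (a₁ * a₁) ∈ L₁ := L₁.mul_mem (L₁.inv_mem c.haL) (L₁.mul_mem ha₁ ha₁)
  have hd2 : a⁻¹ * (a₁ * a₁) ∈ L₂ := by
    rw [e2]; exact L₂.mul_mem c.a'L (L₂.inv_mem (L₂.mul_mem hb₁ hb₁))
  have hsa : n * a₁ * n⁻¹ ∈ L₂ := c.tw.s1 ha₁
  rcases c.tw.both hd1 hd2 with hδ | hδ
  · have hA : a₁ * a₁ = a := by
      calc a₁ * a₁ = a * (a⁻¹ * (a₁ * a₁)) := by group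
        _ = a := by rw [hδ, mul_one]
    have hB : b₁ * b₁ = a' := by
      have h3 : a' * (b₁ * b₁)⁻¹ = 1 := by rw [← e2, hδ]
      exact (mul_inv_eq_one.mp h3).symm
    have hS : (n * a₁ * n⁻¹) * (n * a₁ * n⁻¹) = b₁ * b₁ := by
      calc (n * a₁ * n⁻¹) * (n * a₁ * n⁻¹) = n * (a₁ * a₁) * n⁻¹ := by group
        _ = n * a * n⁻¹ := by rw [hA]
        _ = a' := c.ha'.symm
        _ = b₁ * b₁ := hB.symm
    have hBB : (b₁ * b₁) * (b₁ * b₁) = j := by rw [hB, c.a'2]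
    have hr := c.hroot b₁ hb₁ (n * a₁ * n⁻¹) hsa hBB hS
    refine ⟨?_, c.tw.zz ha₁ hr, Or.inl ?_⟩
    · rw [← hB]; group
    · rw [← hB]; group
  · have hA : a₁ * a₁ = a * j := by
      calc a₁ * a₁ = a * (a⁻¹ * (a₁ * a₁)) := by group
        _ = a * j := by rw [hδ]
    have hB' : a' = j * (b₁ * b₁) := by
      have h3 : a' * (b₁ * b₁)⁻¹ = j := by rw [← e2, hδ]
      exact mul_inv_eq_iff_eq_mul.mp h3
    have hB : b₁ * b₁ = j * a' := by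
      rw [hB', ← mul_assoc, c.tw.jj, one_mul]
    have hS : (n * a₁ * n⁻¹) * (n * a₁ * n⁻¹) = b₁ * b₁ := by
      calc (n * a₁ * n⁻¹) * (n * a₁ * n⁻¹) = n * (a₁ * a₁) * n⁻¹ := by group
        _ = n * (a * j) * n⁻¹ := by rw [hA]
        _ = (n * a * n⁻¹) * (n * j * n⁻¹) := by group
        _ = a' * j := by rw [← c.ha', c.tw.sig_j]
        _ = j * a' := c.a'j
        _ = b₁ * b₁ := hB.symm
    have hBB : (b₁ * b₁) * (b₁ * b₁) = j := by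
      rw [hB]
      calc j * a' * (j * a') = j * (a' * j) * a' := by group
        _ = j * (j * a') * a' := by rw [c.a'j]
        _ = (j * j) * (a' * a') := by group
        _ = j := by rw [c.tw.jj, c.a'2, one_mul]
    have hr := c.hroot b₁ hb₁ (n * a₁ * n⁻¹) hsa hBB hS
    have hbj : b₁ * j = j * b₁ := c.tw.c2 hb₁
    refine ⟨?_, c.tw.zz ha₁ hr, Or.inr ?_⟩
    · rw [hB']
      calc b₁ * (j * (b₁ * b₁)) = (b₁ * j) * (b₁ * b₁) := by group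
        _ = (j * b₁) * (b₁ * b₁) := by rw [hbj]
        _ = j * (b₁ * b₁) * b₁ := by group
    · apply eq_inv_of_mul_eq_one_left
      rw [hB']
      calc b₁ * (j * (b₁ * b₁)) * b₁ = (b₁ * j) * ((b₁ * b₁) * b₁) := by group
        _ = (j * b₁) * ((b₁ * b₁) * b₁) := by rw [hbj]
        _ = j * ((b₁ * b₁) * (b₁ * b₁)) := by group
        _ = 1 := by rw [hBB, c.tw.jj]

end Cfg

end Cfsg.Agent.H26.TwSL
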