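import Mathlib
import Cfsg.Agent.H26.TwSL2

/-!
# The twisted `SL₂ ∘ SL₂` involution centralizer, part 3 (helper26)

An injection from the square roots of `t` (in `C(j) ∩ C(t)`) to the square roots of `j` that
misses `a`; hence `j` and `t` are not swapped by any element of the group, and `j` is isolated.
-/

set_option autoImplicit false

namespace Cfsg.Agent.H26.TwSL

open Cfsg.Agent.H11.SL2Pair

variable {G : Type*} [Group G]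

open Classical in
/-- the injection from square roots of `t` to square roots of `j` -/
noncomputable def phi (M : Subgroup G) (j n a a' : G) (y : G) : G :=
  if y ∈ M then
    (if (y * a'⁻¹ * n) * (y * a'⁻¹ * n) = j then y * a'⁻¹ * n else y * a' * n)
  else y * a

namespace Cfg

variable {L₁ L₂ : Subgroup G} {j n a a' t : G}

theorem phi_in (c : Cfg L₁ L₂ j n a a' t) {y : G} (hy : SQ j t t y) (hyM : y ∈ L₁ ⊔ L₂) :
    SQ j t j (phi (L₁ ⊔ L₂) j n a a' y) ∧ phi (L₁ ⊔ L₂) j n a a' y ∉ L₁ ⊔ L₂ ∧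
      phi (L₁ ⊔ L₂) j n a a' y * a * (phi (L₁ ⊔ L₂) j n a a' y)⁻¹ = a' := by
  obtain ⟨a₁, ha₁, b₁, hb₁, hyab, hba', hzz, hdis⟩ := c.phi2 hy hyM
  have hnj : n * j = j * n := c.tw.nj
  have hconj : y * a' * y⁻¹ = a' := by
    rw [hyab]
    calc a₁ * b₁ * a' * (a₁ * b₁)⁻¹ = a₁ * (b₁ * a') * b₁⁻¹ * a₁⁻¹ := by group
      _ = a₁ * (a' * b₁) * b₁⁻¹ * a₁⁻¹ := by rw [hba']
      _ = (a₁ * a') * a₁⁻¹ := by group
      _ = (a' * a₁) * a₁⁻¹ := by rw [c.tw.hc a₁ ha₁ a' c.a'L]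
      _ = a' := by group
  have hnan : n * a * n⁻¹ = a' := c.ha'.symm
  unfold phi
  rw [if_pos hyM]
  by_cases hz : (y * a'⁻¹ * n) * (y * a'⁻¹ * n) = j
  · rw [if_pos hz]
    refine ⟨⟨comm3 hy.1 (inv_comm c.a'j) hnj, comm3 hy.2.1 (inv_comm c.a't) c.nt, hz⟩, ?_, ?_⟩
    · intro hh
      apply c.hnM
      have : n = (y * a'⁻¹)⁻¹ * (y * a'⁻¹ * n) := by group
      rw [this]
      exact (L₁ ⊔ L₂).mul_mem ((L₁ ⊔ L₂).inv_mem
        ((L₁ ⊔ L₂).mul_mem hyM ((L₁ ⊔ L₂).inv_mem c.a'M))) hh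
    · calc y * a'⁻¹ * n * a * (y * a'⁻¹ * n)⁻¹ = y * a'⁻¹ * (n * a * n⁻¹) * a' * y⁻¹ := by group
        _ = y * a'⁻¹ * a' * a' * y⁻¹ := by rw [hnan]
        _ = y * a' * y⁻¹ := by group
        _ = a' := hconj
  · rw [if_neg hz]
    have hz2 : (y * a' * n) * (y * a' * n) = j := by
      rcases hdis with hd | hd
      · exfalso
        apply hz
        have : y * a'⁻¹ * n = a₁ * b₁⁻¹ * n := by
          rw [hyab, ← hd]; group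
        rw [this]; exact hzz
      · have : y * a' * n = a₁ * b₁⁻¹ * n := by
          rw [hyab, ← hd]; group
        rw [this]; exact hzz
    refine ⟨⟨comm3 hy.1 c.a'j hnj, comm3 hy.2.1 c.a't c.nt, hz2⟩, ?_, ?_⟩
    · intro hh
      apply c.hnM
      have : n = (y * a')⁻¹ * (y * a' * n) := by group
      rw [this]
      exact (L₁ ⊔ L₂).mul_mem ((L₁ ⊔ L₂).inv_mem ((L₁ ⊔ L₂).mul_mem hyM c.a'M)) hh
    · calc y * a' * n * a * (y * a' * n)⁻¹ = y * a' * (n * a * n⁻¹) * a'⁻¹ * y⁻¹ := by group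
        _ = y * a' * a' * a'⁻¹ * y⁻¹ := by rw [hnan]
        _ = y * a' * y⁻¹ := by group
        _ = a' := hconj

theorem phi_out (c : Cfg L₁ L₂ j n a a' t) {y : G} (hy : SQ j t t y) (hyM : y ∉ L₁ ⊔ L₂) :
    SQ j t j (phi (L₁ ⊔ L₂) j n a a' y) ∧ phi (L₁ ⊔ L₂) j n a a' y ∉ L₁ ⊔ L₂ ∧
      phi (L₁ ⊔ L₂) j n a a' y * a * (phi (L₁ ⊔ L₂) j n a a' y)⁻¹ = j * a' := by
  obtain ⟨h1, h2⟩ := c.phi1 hy hyM
  unfold phi
  rw [if_neg hyM]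
  refine ⟨⟨comm2 hy.1 c.aj, comm2 hy.2.1 c.at', h1⟩, ?_, ?_⟩
  · intro hh
    apply hyM
    have : y = (y * a) * a⁻¹ := by group
    rw [this]
    exact (L₁ ⊔ L₂).mul_mem hh ((L₁ ⊔ L₂).inv_mem c.aM)
  · calc y * a * a * (y * a)⁻¹ = y * a * y⁻¹ := by group
      _ = j * a' := h2

theorem phi_spec (c : Cfg L₁ L₂ j n a a' t) {y : G} (hy : SQ j t t y) :
    SQ j t j (phi (L₁ ⊔ L₂) j n a a' y) ∧ phi (L₁ ⊔ L₂) j n a a' y ∉ L₁ ⊔ L₂ := by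
  by_cases hyM : y ∈ L₁ ⊔ L₂
  · exact ⟨(c.phi_in hy hyM).1, (c.phi_in hy hyM).2.1⟩
  · exact ⟨(c.phi_out hy hyM).1, (c.phi_out hy hyM).2.1⟩

theorem phi_inj (c : Cfg L₁ L₂ j n a a' t) {y₁ y₂ : G} (h1 : SQ j t t y₁) (h2 : SQ j t t y₂)
    (e : phi (L₁ ⊔ L₂) j n a a' y₁ = phi (L₁ ⊔ L₂) j n a a' y₂) : y₁ = y₂ := by
  have hne : a' ≠ j * a' := by
    intro h
    apply c.tw.j_ne_one
    calc j = (j * a') * a'⁻¹ := by group
      _ = a' * a'⁻¹ := by rw [← h]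
      _ = 1 := by group
  have hnj : n * j = j * n := c.tw.nj
  -- the mixed case inside `L₁L₂`
  have mixed : ∀ u v : G, SQ j t t u → SQ j t t v →
      (u * a'⁻¹ * n) * (u * a'⁻¹ * n) = j → u * a'⁻¹ * n = v * a' * n →
      (v * a'⁻¹ * n) * (v * a'⁻¹ * n) = j := by
    intro u v hu hv hz e'
    have e1 : u * a'⁻¹ = v * a' := mul_right_cancel e'
    have e2 : v = u * j := by
      calc v = (v * a') * a'⁻¹ := by group
        _ = (u * a'⁻¹) * a'⁻¹ := by rw [e1]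
        _ = u * (a' * a')⁻¹ := by group
        _ = u * j := by rw [c.a'2, c.tw.j_inv]
    have hwj : (u * a'⁻¹ * n) * j = j * (u * a'⁻¹ * n) := comm3 hu.1 (inv_comm c.a'j) hnj
    have e3 : v * a'⁻¹ * n = (u * a'⁻¹ * n) * j := by
      rw [e2]
      calc u * j * a'⁻¹ * n = u * (j * a'⁻¹) * n := by group
        _ = u * (a'⁻¹ * j) * n := by rw [inv_comm c.a'j]
        _ = u * a'⁻¹ * (j * n) := by group
        _ = u * a'⁻¹ * (n * j) := by rw [hnj]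
        _ = (u * a'⁻¹ * n) * j := by group
    rw [e3]
    calc (u * a'⁻¹ * n) * j * ((u * a'⁻¹ * n) * j)
        = (u * a'⁻¹ * n) * (j * (u * a'⁻¹ * n)) * j := by group
      _ = (u * a'⁻¹ * n) * ((u * a'⁻¹ * n) * j) * j := by rw [hwj]
      _ = ((u * a'⁻¹ * n) * (u * a'⁻¹ * n)) * (j * j) := by group
      _ = j := by rw [hz, c.tw.jj, mul_one]
  by_cases m1 : y₁ ∈ L₁ ⊔ L₂
  · by_cases m2 : y₂ ∈ L₁ ⊔ L₂
    · unfold phi at e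
      rw [if_pos m1, if_pos m2] at e
      by_cases z1 : (y₁ * a'⁻¹ * n) * (y₁ * a'⁻¹ * n) = j
      · by_cases z2 : (y₂ * a'⁻¹ * n) * (y₂ * a'⁻¹ * n) = j
        · rw [if_pos z1, if_pos z2] at e
          exact mul_right_cancel (mul_right_cancel e)
        · rw [if_pos z1, if_neg z2] at e
          exact absurd (mixed y₁ y₂ h1 h2 z1 e) z2
      · by_cases z2 : (y₂ * a'⁻¹ * n) * (y₂ * a'⁻¹ * n) = j
        · rw [if_neg z1, if_pos z2] at e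
          exact absurd (mixed y₂ y₁ h2 h1 z2 e.symm) z1
        · rw [if_neg z1, if_neg z2] at e
          exact mul_right_cancel (mul_right_cancel e)
    · exfalso
      have e1 := (c.phi_in h1 m1).2.2
      have e2 := (c.phi_out h2 m2).2.2
      rw [e] at e1
      exact hne (e1.symm.trans e2)
  · by_cases m2 : y₂ ∈ L₁ ⊔ L₂
    · exfalso
      have e1 := (c.phi_out h1 m1).2.2
      have e2 := (c.phi_in h2 m2).2.2
      rw [e] at e1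
      exact hne (e2.symm.trans e1)
    · unfold phi at e
      rw [if_neg m1, if_neg m2] at e
      exact mul_right_cancel e

/-- no element of the group swaps `j` and `t` -/
theorem main_false [Finite G] (c : Cfg L₁ L₂ j n a a' t) (ρ : G) (hρ1 : ρ * j * ρ⁻¹ = t)
    (hρ2 : ρ * t * ρ⁻¹ = j) : False := by
  have conj_spec : ∀ y : G, SQ j t j y → SQ j t t (ρ * y * ρ⁻¹) := by
    intro y hy
    refine ⟨?_, ?_, ?_⟩
    · calc ρ * y * ρ⁻¹ * j = ρ * y * ρ⁻¹ * (ρ * t * ρ⁻¹) := by rw [hρ2]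
        _ = ρ * (y * t) * ρ⁻¹ := by group
        _ = ρ * (t * y) * ρ⁻¹ := by rw [hy.2.1]
        _ = (ρ * t * ρ⁻¹) * (ρ * y * ρ⁻¹) := by group
        _ = j * (ρ * y * ρ⁻¹) := by rw [hρ2]
    · calc ρ * y * ρ⁻¹ * t = ρ * y * ρ⁻¹ * (ρ * j * ρ⁻¹) := by rw [hρ1]
        _ = ρ * (y * j) * ρ⁻¹ := by group
        _ = ρ * (j * y) * ρ⁻¹ := by rw [hy.1]
        _ = (ρ * j * ρ⁻¹) * (ρ * y * ρ⁻¹) := by group
        _ = t * (ρ * y * ρ⁻¹) := by rw [hρ1]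
    · calc ρ * y * ρ⁻¹ * (ρ * y * ρ⁻¹) = ρ * (y * y) * ρ⁻¹ := by group
        _ = ρ * j * ρ⁻¹ := by rw [hy.2.2]
        _ = t := hρ1
  let f : {y : G // SQ j t j y} → {y : G // SQ j t j y} := fun y =>
    ⟨phi (L₁ ⊔ L₂) j n a a' (ρ * y.1 * ρ⁻¹), (c.phi_spec (conj_spec y.1 y.2)).1⟩
  have finj : Function.Injective f := by
    intro y₁ y₂ e
    have e' : phi (L₁ ⊔ L₂) j n a a' (ρ * y₁.1 * ρ⁻¹) = phi (L₁ ⊔ L₂) j n a a' (ρ * y₂.1 * ρ⁻¹) :=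
      congrArg Subtype.val e
    have e'' := c.phi_inj (conj_spec _ y₁.2) (conj_spec _ y₂.2) e'
    apply Subtype.ext
    exact mul_left_cancel (mul_right_cancel e'')
  have fsurj : Function.Surjective f := Finite.injective_iff_surjective.mp finj
  obtain ⟨y, hy⟩ := fsurj ⟨a, c.aj, c.at', c.ha⟩
  have hya : phi (L₁ ⊔ L₂) j n a a' (ρ * y.1 * ρ⁻¹) = a := congrArg Subtype.val hy
  have hnot := (c.phi_spec (conj_spec y.1 y.2)).2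
  rw [hya] at hnot
  exact hnot c.aM

/-- `j` is isolated in its centralizer -/
theorem isolated [Finite G] (c : Cfg L₁ L₂ j n a a' t) (x : G)
    (hconj : ∀ y ∈ L₁ ⊔ L₂, orderOf y = 2 → y = j ∨ ∃ g ∈ L₁ ⊔ L₂, g * x * g⁻¹ = y) :
    ∀ g : G, Commute j (g * j * g⁻¹) → g * j * g⁻¹ = j := by
  intro g hcomm
  by_contra hne
  have hjj := c.tw.jj
  have hy2 : (g * j * g⁻¹) * (g * j * g⁻¹) = 1 := by
    calc (g * j * g⁻¹) * (g * j * g⁻¹) = g * (j * j) * g⁻¹ := by group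
      _ = 1 := by rw [hjj]; group
  have hyM : g * j * g⁻¹ ∈ L₁ ⊔ L₂ := by
    by_contra hyM
    exact c.tw.sq_ne_one c.hnM hcomm.eq.symm hyM hy2
  have hy1 : g * j * g⁻¹ ≠ 1 := by
    intro h1
    apply c.tw.j_ne_one
    calc j = g⁻¹ * (g * j * g⁻¹) * g := by group
      _ = 1 := by rw [h1]; group
  have hyo : orderOf (g * j * g⁻¹) = 2 :=
    orderOf_eq_prime (by rw [pow_two]; exact hy2) hy1
  rcases hconj _ hyM hyo with e | ⟨m₁, hm₁, e₁⟩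
  · exact hne e
  have hto : orderOf t = 2 := orderOf_eq_prime (by rw [pow_two]; exact c.tt) c.t_ne_one
  rcases hconj t c.tM hto with e | ⟨m₂, hm₂, e₂⟩
  · exact c.t_ne_j e
  have hg₁ : (m₂ * m₁⁻¹ * g) * j * (m₂ * m₁⁻¹ * g)⁻¹ = t := by
    calc (m₂ * m₁⁻¹ * g) * j * (m₂ * m₁⁻¹ * g)⁻¹ = m₂ * m₁⁻¹ * (g * j * g⁻¹) * m₁ * m₂⁻¹ := by
          group
      _ = m₂ * m₁⁻¹ * (m₁ * x * m₁⁻¹) * m₁ * m₂⁻¹ := by rw [e₁]
      _ = m₂ * x * m₂⁻¹ := by group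
      _ = t := e₂
  generalize m₂ * m₁⁻¹ * g = g₁ at hg₁
  have h0j : (g₁⁻¹ * j * g₁) * j = j * (g₁⁻¹ * j * g₁) := by
    have : g₁ * ((g₁⁻¹ * j * g₁) * j) * g₁⁻¹ = g₁ * (j * (g₁⁻¹ * j * g₁)) * g₁⁻¹ := by
      calc g₁ * ((g₁⁻¹ * j * g₁) * j) * g₁⁻¹ = j * (g₁ * j * g₁⁻¹) := by group
        _ = j * t := by rw [hg₁]
        _ = t * j := c.tj.symm
        _ = (g₁ * j * g₁⁻¹) * j := by rw [hg₁]
        _ = g₁ * (j * (g₁⁻¹ * j * g₁)) * g₁⁻¹ := by group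
    exact mul_left_cancel (mul_right_cancel this)
  have h02 : (g₁⁻¹ * j * g₁) * (g₁⁻¹ * j * g₁) = 1 := by
    calc (g₁⁻¹ * j * g₁) * (g₁⁻¹ * j * g₁) = g₁⁻¹ * (j * j) * g₁ := by group
      _ = 1 := by rw [hjj]; group
  have h0ne : g₁⁻¹ * j * g₁ ≠ j := by
    intro e
    have : g₁ * j * g₁⁻¹ = j := by
      calc g₁ * j * g₁⁻¹ = g₁ * (g₁⁻¹ * j * g₁) * g₁⁻¹ := by rw [e]
        _ = j := by group
    rw [hg₁] at this
    exact c.t_ne_j this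
  have h0M : g₁⁻¹ * j * g₁ ∈ L₁ ⊔ L₂ := by
    by_contra h0M
    exact c.tw.sq_ne_one c.hnM h0j h0M h02
  have h01 : g₁⁻¹ * j * g₁ ≠ 1 := by
    intro h1
    apply c.tw.j_ne_one
    calc j = g₁ * (g₁⁻¹ * j * g₁) * g₁⁻¹ := by group
      _ = 1 := by rw [h1]; group
  have h0o : orderOf (g₁⁻¹ * j * g₁) = 2 :=
    orderOf_eq_prime (by rw [pow_two]; exact h02) h01
  rcases hconj _ h0M h0o with e | ⟨m₃, hm₃, e₃⟩
  · exact h0ne e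
  have hνM : m₃ * m₂⁻¹ ∈ L₁ ⊔ L₂ := (L₁ ⊔ L₂).mul_mem hm₃ ((L₁ ⊔ L₂).inv_mem hm₂)
  have hνj : (m₃ * m₂⁻¹) * j = j * (m₃ * m₂⁻¹) := c.tw.cM hνM
  have hνt : (m₃ * m₂⁻¹) * t * (m₃ * m₂⁻¹)⁻¹ = g₁⁻¹ * j * g₁ := by
    calc (m₃ * m₂⁻¹) * t * (m₃ * m₂⁻¹)⁻¹ = (m₃ * m₂⁻¹) * (m₂ * x * m₂⁻¹) * (m₃ * m₂⁻¹)⁻¹ := by
          rw [e₂]
      _ = m₃ * x * m₃⁻¹ := by group
      _ = g₁⁻¹ * j * g₁ := e₃
  apply c.main_false (g₁ * (m₃ * m₂⁻¹))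
  · calc g₁ * (m₃ * m₂⁻¹) * j * (g₁ * (m₃ * m₂⁻¹))⁻¹
        = g₁ * ((m₃ * m₂⁻¹) * j) * (m₃ * m₂⁻¹)⁻¹ * g₁⁻¹ := by group
      _ = g₁ * (j * (m₃ * m₂⁻¹)) * (m₃ * m₂⁻¹)⁻¹ * g₁⁻¹ := by rw [hνj]
      _ = g₁ * j * g₁⁻¹ := by group
      _ = t := hg₁
  · calc g₁ * (m₃ * m₂⁻¹) * t * (g₁ * (m₃ * m₂⁻¹))⁻¹
        = g₁ * ((m₃ * m₂⁻¹) * t * (m₃ * m₂⁻¹)⁻¹) * g₁⁻¹ := by group
      _ = g₁ * (g₁⁻¹ * j * g₁) * g₁⁻¹ := by rw [hνt]
      _ = j := by group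

end Cfg

end Cfsg.Agent.H26.TwSL
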